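import Mathlib
import Cfsg.Agent.Lib.Zsigmondy.Basic

/-!
A finite additive subgroup of a ring of characteristic two that contains `1` and the inverses of its
non-zero elements consists of commuting elements, hence is a field.
-/

set_option autoImplicit false

namespace CfsgLib.ClassK

variable {R : Type*} [Ring R]

/-- `J` is an additive subgroup containing `1` and the inverses of its non-zero elements. -/
structure IsInvSubgroup (J : AddSubgroup R) : Prop where
  two_eq_zero : (2 : R) = 0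
  one_mem : (1 : R) ∈ J
  exists_inv : ∀ x ∈ J, x ≠ 0 → ∃ y ∈ J, x * y = 1 ∧ y * x = 1

namespace IsInvSubgroup

variable {J : AddSubgroup R} (h : IsInvSubgroup J)
include h

theorem add_self (x : R) : x + x = 0 := by rw [← two_mul, h.two_eq_zero, zero_mul]

theorem eq_of_add_eq_zero {x y : R} (e : x + y = 0) : x = y := by
  calc x = (x + y) + y := by rw [add_assoc, h.add_self, add_zero]
    _ = y := by rw [e, zero_add]

theorem mul_mul_self_mem {a b : R} (ha : a ∈ J) (hb : b ∈ J) : a * b * a ∈ J := by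
  by_cases hb0 : b = 0
  · simp [hb0, J.zero_mem]
  by_cases ha0 : a = 0
  · simp [ha0, J.zero_mem]
  obtain ⟨b', hb', hbb', hb'b⟩ := h.exists_inv b hb hb0
  obtain ⟨a', ha', haa', ha'a⟩ := h.exists_inv a ha ha0
  by_cases hc0 : b' + a = 0
  · rw [← h.eq_of_add_eq_zero hc0, hb'b, one_mul]; exact hb'
  obtain ⟨c', hc', hcc', hc'c⟩ := h.exists_inv _ (J.add_mem hb' ha) hc0
  have hd : a' + c' = a' * b' * c' := by
    calc a' + c' = a' * ((b' + a) * c') + a' * a * c' := by rw [hcc', ha'a, mul_one, one_mul]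
      _ = a' * ((b' + a) + a) * c' := by simp only [mul_add, add_mul, mul_assoc]
      _ = a' * b' * c' := by rw [add_assoc, h.add_self, add_zero]
  have hd1 : (a' + c') * ((b' + a) * b * a) = 1 := by
    rw [hd]
    calc a' * b' * c' * ((b' + a) * b * a) = a' * b' * (c' * (b' + a)) * b * a := by
          simp only [mul_assoc]
      _ = 1 := by rw [hc'c, mul_one, mul_assoc a' b' b, hb'b, mul_one, ha'a]
  by_cases hR : (1 : R) = 0
  · rw [← mul_one (a * b * a), hR, mul_zero]; exact J.zero_mem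
  have hd0 : a' + c' ≠ 0 := fun e => hR (by rw [← hd1, e, zero_mul])
  obtain ⟨e, he, hde, hed⟩ := h.exists_inv _ (J.add_mem ha' hc') hd0
  have hee : (b' + a) * b * a = e := by
    calc (b' + a) * b * a = e * (a' + c') * ((b' + a) * b * a) := by rw [hed, one_mul]
      _ = e := by rw [mul_assoc e, hd1, mul_one]
  have h3 : a * b * a = e + a := by
    rw [← hee, add_mul, add_mul, hb'b, one_mul, add_comm a (a * b * a), add_assoc, h.add_self,
      add_zero]
  rw [h3]; exact J.add_mem he ha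

theorem sq_mem {a : R} (ha : a ∈ J) : a * a ∈ J := by
  simpa using h.mul_mul_self_mem ha h.one_mem

theorem pow_mem' {a : R} (ha : a ∈ J) : ∀ n : ℕ, a ^ n ∈ J
  | 0 => by simpa using h.one_mem
  | 1 => by simpa using ha
  | (n + 2) => by
    have := h.mul_mul_self_mem ha (pow_mem' ha n)
    rwa [← pow_succ', ← pow_succ] at this

theorem bracket_mem {a b : R} (ha : a ∈ J) (hb : b ∈ J) : a * b + b * a ∈ J := by
  have e : a * b + b * a = (a + b) * (a + b) + (a * a + b * b) := by
    have h1 : (a + b) * (a + b) + (a * a + b * b)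
        = (a * b + b * a) + ((a * a + a * a) + (b * b + b * b)) := by
      rw [add_mul, mul_add, mul_add]; abel
    rw [h1, h.add_self, h.add_self, add_zero, add_zero]
  rw [e]
  exact J.add_mem (h.sq_mem (J.add_mem ha hb)) (J.add_mem (h.sq_mem ha) (h.sq_mem hb))

theorem exists_unit {a : R} (ha : a ∈ J) (ha0 : a ≠ 0) : ∃ u : Rˣ, (u : R) = a ∧ (↑u⁻¹ : R) ∈ J := by
  obtain ⟨b, hb, h1, h2⟩ := h.exists_inv a ha ha0
  exact ⟨⟨a, b, h1, h2⟩, rfl, hb⟩

theorem eq_zero_of_sq {a : R} (ha : a ∈ J) (e : a * a = 0) : a = 0 := by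
  by_contra ha0
  obtain ⟨b, -, h1, -⟩ := h.exists_inv a ha ha0
  exact ha0 (by calc a = a * (a * b) := by rw [h1, mul_one]
    _ = 0 := by rw [← mul_assoc, e, zero_mul])

/-- The order of a non-zero element is odd. -/
theorem exists_odd_pow [Finite J] {a : R} (ha : a ∈ J) (ha0 : a ≠ 0) :
    ∃ o : ℕ, Odd o ∧ a ^ o = 1 := by
  obtain ⟨u, hu, -⟩ := h.exists_unit ha ha0
  obtain ⟨i, j, hij, hne⟩ := Finite.exists_ne_map_eq_of_infinite (fun n : ℕ => (⟨a ^ n, h.pow_mem' ha n⟩ : ↥J))
    |> fun ⟨i, j, h1, h2⟩ => (⟨i, j, congrArg Subtype.val h2, h1⟩ : ∃ i j, a ^ i = a ^ j ∧ i ≠ j)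
  have hu' : IsOfFinOrder u := by
    refine isOfFinOrder_iff_pow_eq_one.mpr ?_
    rcases Nat.lt_or_gt_of_ne hne with hlt | hlt
    · refine ⟨j - i, by omega, Units.ext ?_⟩
      have : u ^ i * u ^ (j - i) = u ^ i * 1 := by
        rw [← pow_add, mul_one, Nat.add_sub_cancel' hlt.le]
        exact Units.ext (by rw [Units.val_pow_eq_pow_val, Units.val_pow_eq_pow_val, hu]; exact hij.symm)
      simp [mul_left_cancel this]
    · refine ⟨i - j, by omega, Units.ext ?_⟩
      have : u ^ j * u ^ (i - j) = u ^ j * 1 := by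
        rw [← pow_add, mul_one, Nat.add_sub_cancel' hlt.le]
        exact Units.ext (by rw [Units.val_pow_eq_pow_val, Units.val_pow_eq_pow_val, hu]; exact hij)
      simp [mul_left_cancel this]
  refine ⟨orderOf u, ?_, by rw [← hu, ← Units.val_pow_eq_pow_val, pow_orderOf_eq_one, Units.val_one]⟩
  rcases Nat.even_or_odd (orderOf u) with ⟨m, hm⟩ | ho
  swap
  · exact ho
  exfalso
  have h1 : a ^ m * a ^ m = 1 := by
    rw [← pow_add, ← hm, ← hu, ← Units.val_pow_eq_pow_val, pow_orderOf_eq_one, Units.val_one]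
  have h2 : (a ^ m + 1) * (a ^ m + 1) = 0 := by
    rw [add_mul, mul_add, h1, mul_one, one_mul,
      show (1 + a ^ m) + (a ^ m + 1) = (1 + 1) + (a ^ m + a ^ m) by abel, h.add_self, h.add_self, add_zero]
  have h3 := h.eq_of_add_eq_zero (h.eq_zero_of_sq (J.add_mem (h.pow_mem' ha m) h.one_mem) h2)
  have h4 : orderOf u ∣ m := orderOf_dvd_of_pow_eq_one
    (Units.ext (by rw [Units.val_pow_eq_pow_val, hu, Units.val_one]; exact h3))
  have hpos : 0 < orderOf u := hu'.orderOf_pos
  have := Nat.le_of_dvd (by omega) h4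
  omega

theorem exists_sqrt [Finite J] {a : R} (ha : a ∈ J) (ha0 : a ≠ 0) : ∃ n : ℕ, (a ^ n) * (a ^ n) = a := by
  obtain ⟨o, ⟨m, rfl⟩, ho⟩ := h.exists_odd_pow ha ha0
  exact ⟨m + 1, by rw [← pow_add, show m + 1 + (m + 1) = (2 * m + 1) + 1 by omega, pow_succ, ho, one_mul]⟩

theorem mul_mem_of_comm [Finite J] {a b : R} (ha : a ∈ J) (hb : b ∈ J) (hab : a * b = b * a) :
    a * b ∈ J := by
  by_cases ha0 : a = 0
  · simp [ha0, J.zero_mem]
  obtain ⟨n, hn⟩ := h.exists_sqrt ha ha0
  have := h.mul_mul_self_mem (h.pow_mem' ha n) hb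
  rwa [mul_assoc, ← ((show Commute a b from hab).pow_left n).eq, ← mul_assoc, hn] at this

theorem comm_of_sq_comm [Finite J] {a b : R} (ha : a ∈ J) (hab : a * a * b = b * (a * a)) :
    a * b = b * a := by
  by_cases ha0 : a = 0
  · simp [ha0]
  obtain ⟨n, hn⟩ := h.exists_sqrt ha ha0
  obtain ⟨o, ⟨m, rfl⟩, ho⟩ := h.exists_odd_pow ha ha0
  have e : a = (a * a) ^ (m + 1) := by
    rw [← sq, ← pow_mul, show 2 * (m + 1) = (2 * m + 1) + 1 by omega, pow_succ, ho, one_mul]
  rw [e]
  exact ((show Commute (a * a) b from hab).pow_left _).eq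

end IsInvSubgroup

/-- The maps `y ↦ g y h` of `J`, where `g`, `h` centralise the centraliser of `J`. -/
def IsTwoSided (J : AddSubgroup R) (σ : Equiv.Perm ↥J) : Prop :=
  ∃ g k : Rˣ, (∀ z : R, (∀ j ∈ J, z * j = j * z) → Commute z (g : R)) ∧
    ∀ y : ↥J, ((σ y : ↥J) : R) = g * y * k

theorem isTwoSided_one (J : AddSubgroup R) : IsTwoSided J 1 :=
  ⟨1, 1, fun _ _ => Commute.one_right _, fun y => by simp⟩

theorem IsTwoSided.mul {J : AddSubgroup R} {σ τ : Equiv.Perm ↥J} (hσ : IsTwoSided J σ)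
    (hτ : IsTwoSided J τ) : IsTwoSided J (σ * τ) := by
  obtain ⟨g, k, hg, e⟩ := hσ
  obtain ⟨g', k', hg', e'⟩ := hτ
  refine ⟨g * g', k' * k, fun z hz => ?_, fun y => ?_⟩
  · rw [Units.val_mul]; exact (hg z hz).mul_right (hg' z hz)
  · simp only [Equiv.Perm.mul_apply, e, e', Units.val_mul, mul_assoc]

theorem IsTwoSided.inv {J : AddSubgroup R} {σ : Equiv.Perm ↥J} (hσ : IsTwoSided J σ) :
    IsTwoSided J σ⁻¹ := by
  obtain ⟨g, k, hg, e⟩ := hσ
  refine ⟨g⁻¹, k⁻¹, fun z hz => (hg z hz).units_inv_right, fun y => ?_⟩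
  have := e (σ⁻¹ y)
  rw [Equiv.Perm.coe_inv, Equiv.apply_symm_apply] at this
  rw [this]
  simp [mul_assoc]

namespace IsInvSubgroup

variable {J : AddSubgroup R} (h : IsInvSubgroup J)

/-- The map `y ↦ u y u`. -/
def conjPerm (u : Rˣ) (hu : (u : R) ∈ J) (hu' : (↑u⁻¹ : R) ∈ J) : Equiv.Perm ↥J where
  toFun y := ⟨u * y * u, h.mul_mul_self_mem hu y.2⟩
  invFun y := ⟨↑u⁻¹ * y * ↑u⁻¹, h.mul_mul_self_mem hu' y.2⟩
  left_inv y := Subtype.ext (by simp [mul_assoc])
  right_inv y := Subtype.ext (by simp [mul_assoc])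

/-- The group generated by the maps `y ↦ u y u`. -/
def innerGroup : Subgroup (Equiv.Perm ↥J) :=
  Subgroup.closure {σ | ∃ (u : Rˣ) (hu : (u : R) ∈ J) (hu' : (↑u⁻¹ : R) ∈ J), σ = h.conjPerm u hu hu'}

include h

theorem conjPerm_mem (u : Rˣ) (hu : (u : R) ∈ J) (hu' : (↑u⁻¹ : R) ∈ J) :
    h.conjPerm u hu hu' ∈ h.innerGroup :=
  Subgroup.subset_closure ⟨u, hu, hu', rfl⟩

theorem isTwoSided_of_mem {σ : Equiv.Perm ↥J} (hσ : σ ∈ h.innerGroup) : IsTwoSided J σ := by
  induction hσ using Subgroup.closure_induction with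
  | mem σ hσ =>
    obtain ⟨u, hu, hu', rfl⟩ := hσ
    exact ⟨u, u, fun z hz => hz _ hu, fun y => rfl⟩
  | one => exact isTwoSided_one J
  | mul σ τ _ _ hσ hτ => exact hσ.mul hτ
  | inv σ _ hσ => exact hσ.inv

/-- An element of the group fixing `1` is conjugation by a unit. -/
theorem exists_conj {σ : Equiv.Perm ↥J} (hσ : σ ∈ h.innerGroup) (h1 : σ ⟨1, h.one_mem⟩ = ⟨1, h.one_mem⟩) :
    ∃ g : Rˣ, (∀ z : R, (∀ j ∈ J, z * j = j * z) → Commute z (g : R)) ∧
      ∀ y : ↥J, ((σ y : ↥J) : R) = g * y * ↑g⁻¹ := by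
  obtain ⟨g, k, hg, e⟩ := h.isTwoSided_of_mem hσ
  refine ⟨g, hg, fun y => ?_⟩
  have h2 : (g : R) * k = 1 := by
    have := e ⟨1, h.one_mem⟩
    rw [h1, mul_one] at this
    exact this.symm
  have hk : (k : R) = ↑g⁻¹ := by
    rw [← one_mul (k : R), ← Units.inv_mul g, mul_assoc, h2, mul_one]
  rw [e, hk]

theorem transitive [Finite J] (y : ↥J) (hy : (y : R) ≠ 0) :
    ∃ (u : Rˣ) (hu : (u : R) ∈ J) (hu' : (↑u⁻¹ : R) ∈ J),
      h.conjPerm u hu hu' ⟨1, h.one_mem⟩ = y ∧ (u : R) * u = y := by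
  obtain ⟨n, hn⟩ := h.exists_sqrt y.2 hy
  have hne : (y : R) ^ n ≠ 0 := fun e => hy (by rw [← hn, e, zero_mul])
  obtain ⟨u, hu, hu'⟩ := h.exists_unit (h.pow_mem' y.2 n) hne
  refine ⟨u, hu ▸ h.pow_mem' y.2 n, hu', Subtype.ext ?_, by rw [hu]; exact hn⟩
  show (u : R) * 1 * u = y
  rw [mul_one, hu, hn]

theorem comm_of_fixed [Finite J] {σ : Equiv.Perm ↥J} (hσ : σ ∈ h.innerGroup)
    (hsq : ∀ y, σ (σ y) = y) (h1 : σ ⟨1, h.one_mem⟩ = ⟨1, h.one_mem⟩) {x : ↥J} (hx : σ x = x)
    (hF : ∀ a b : ↥J, σ a = a → σ b = b → (a : R) * b = b * a) (y : ↥J) : (x : R) * y = y * x := by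
  obtain ⟨g, -, hg⟩ := h.exists_conj hσ h1
  have hmul : ∀ a b : R, (g : R) * (a * b) * ↑g⁻¹ = (g * a * ↑g⁻¹) * (g * b * ↑g⁻¹) := by
    intro a b; simp [mul_assoc]
  let w : ↥J := y + σ y
  have hσadd : ∀ a b : ↥J, σ (a + b) = σ a + σ b := fun a b =>
    Subtype.ext (by simp only [hg, AddSubgroup.coe_add, mul_add, add_mul])
  have hw : σ w = w := by
    show σ (y + σ y) = y + σ y
    rw [hσadd, hsq, add_comm]
  have hcw := hF x w hx hw
  let z : ↥J := ⟨(x : R) * y + y * x, h.bracket_mem x.2 y.2⟩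
  have hxg : (g : R) * x * ↑g⁻¹ = x := by rw [← hg, hx]
  have hz : σ z = z := by
    apply Subtype.ext
    rw [hg]
    show (g : R) * (x * y + y * x) * ↑g⁻¹ = x * y + y * x
    rw [mul_add, add_mul, hmul, hmul, hxg, ← hg y]
    apply h.eq_of_add_eq_zero
    have e : ((w : ↥J) : R) = y + (σ y : R) := rfl
    rw [e, mul_add, add_mul] at hcw
    calc (x : R) * (σ y : R) + (σ y : R) * x + (x * y + y * x)
        = ((x : R) * y + x * (σ y : R)) + ((y : R) * x + (σ y : R) * x) := by abel
      _ = 0 := by rw [hcw, h.add_self]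
  have hcz := hF x z hx hz
  refine h.comm_of_sq_comm x.2 ?_
  have e : ((z : ↥J) : R) = x * y + y * x := rfl
  rw [e, mul_add, add_mul] at hcz
  apply h.eq_of_add_eq_zero
  calc (x : R) * x * y + y * (x * x)
      = ((x : R) * (x * y) + x * (y * x)) + (x * y * x + y * x * x) := by
        simp only [mul_assoc]
        rw [show (x : R) * (x * y) + x * (y * x) + (x * (y * x) + y * (x * x))
          = (x * (x * y) + y * (x * x)) + ((x : R) * (y * x) + x * (y * x)) by abel, h.add_self, add_zero]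
    _ = 0 := by rw [hcz, h.add_self]

/-- If all proper such subgroups are commutative and `J` is not, no involution lies in the group. -/
theorem eq_one_of_sq [Finite J]
    (ih : ∀ F : AddSubgroup R, F < J → IsInvSubgroup F → ∀ a ∈ F, ∀ b ∈ F, a * b = b * a)
    {a b : R} (ha : a ∈ J) (hb : b ∈ J) (hab : a * b ≠ b * a)
    {σ : Equiv.Perm ↥J} (hσ : σ ∈ h.innerGroup) (hsq : ∀ y, σ (σ y) = y) : σ = 1 := by
  by_contra hne
  obtain ⟨y₀, hy₀⟩ : ∃ y, σ y ≠ y := by
    by_contra hc; push Not at hc; exact hne (Equiv.ext hc)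
  obtain ⟨g, k, -, e⟩ := h.isTwoSided_of_mem hσ
  have hadd : ∀ a b : ↥J, σ (a + b) = σ a + σ b := fun a b =>
    Subtype.ext (by simp only [e, AddSubgroup.coe_add, mul_add, add_mul])
  let c : ↥J := y₀ + σ y₀
  have hc : σ c = c := by show σ (y₀ + σ y₀) = _; rw [hadd, hsq, add_comm]
  have hc0 : (c : R) ≠ 0 := by
    intro e0
    exact hy₀ (Subtype.ext (h.eq_of_add_eq_zero (show (y₀ : R) + (σ y₀ : R) = 0 from e0)).symm)
  obtain ⟨u, hu, hu', huc, -⟩ := h.transitive c hc0
  set U := h.conjPerm u hu hu' with hU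
  set τ := U⁻¹ * σ * U with hτ
  have hτmem : τ ∈ h.innerGroup :=
    mul_mem (mul_mem (inv_mem (h.conjPerm_mem u hu hu')) hσ) (h.conjPerm_mem u hu hu')
  have hτsq : ∀ y, τ (τ y) = y := by
    intro y; simp [hτ, hsq]
  have hτ1 : τ ⟨1, h.one_mem⟩ = ⟨1, h.one_mem⟩ := by
    simp only [hτ, Equiv.Perm.mul_apply, huc, hc]
    exact (Equiv.symm_apply_eq U).mpr huc.symm
  obtain ⟨g', hg', hgτ⟩ := h.exists_conj hτmem hτ1
  let F : AddSubgroup R :=
    { carrier := {x | ∃ hx : x ∈ J, τ ⟨x, hx⟩ = ⟨x, hx⟩}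
      zero_mem' := ⟨J.zero_mem, Subtype.ext (by simp [hgτ])⟩
      add_mem' := by
        rintro x y ⟨hx, ex⟩ ⟨hy, ey⟩
        refine ⟨J.add_mem hx hy, Subtype.ext ?_⟩
        have ex' := congrArg Subtype.val ex
        have ey' := congrArg Subtype.val ey
        rw [hgτ] at ex' ey' ⊢
        show (g' : R) * (x + y) * _ = x + y
        rw [mul_add, add_mul]
        exact congrArg₂ (· + ·) ex' ey'
      neg_mem' := by
        rintro x ⟨hx, ex⟩
        refine ⟨J.neg_mem hx, Subtype.ext ?_⟩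
        have ex' := congrArg Subtype.val ex
        rw [hgτ] at ex' ⊢
        show (g' : R) * (-x) * _ = -x
        rw [mul_neg, neg_mul]
        exact congrArg Neg.neg ex' }
  have hFJ : F ≤ J := fun x ⟨hx, _⟩ => hx
  have hFne : F ≠ J := by
    intro eFJ
    apply hne
    have : τ = 1 := Equiv.ext fun y => by
      obtain ⟨hy, ey⟩ := (eFJ.symm ▸ y.2 : (y : R) ∈ F)
      simpa using ey
    rw [hτ, mul_assoc, inv_mul_eq_one] at this
    exact mul_eq_right.mp this.symm
  have hFI : IsInvSubgroup F := by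
    refine ⟨h.two_eq_zero, ⟨h.one_mem, hτ1⟩, fun x ⟨hx, ex⟩ hx0 => ?_⟩
    obtain ⟨y, hy, hxy, hyx⟩ := h.exists_inv x hx hx0
    refine ⟨y, ⟨hy, Subtype.ext ?_⟩, hxy, hyx⟩
    have ex' : (g' : R) * x * ↑g'⁻¹ = x := by rw [← hgτ ⟨x, hx⟩, ex]
    rw [hgτ]
    show (g' : R) * y * ↑g'⁻¹ = y
    calc (g' : R) * y * ↑g'⁻¹ = y * ((g' : R) * x * ↑g'⁻¹) * ((g' : R) * y * ↑g'⁻¹) := by
          rw [ex', hyx, one_mul]
      _ = y * ((g' : R) * (x * y) * ↑g'⁻¹) := by simp [mul_assoc]
      _ = y := by rw [hxy, mul_one, Units.mul_inv, mul_one]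
  have hFc := ih F (lt_of_le_of_ne hFJ hFne) hFI
  -- `F` is central in `J`
  have hcentral : ∀ x ∈ F, ∀ y ∈ J, x * y = y * x := by
    rintro x ⟨hx, ex⟩ y hy
    exact h.comm_of_fixed hτmem hτsq hτ1 ex
      (fun p q hp hq => hFc p ⟨p.2, hp⟩ q ⟨q.2, hq⟩) ⟨y, hy⟩
  haveI : Finite F := Finite.of_injective (fun x : ↥F => (⟨x.1, hFJ x.2⟩ : ↥J))
    (fun x y e => Subtype.ext (congrArg (Subtype.val : ↥J → R) e))
  have haddτ : ∀ a b : ↥J, τ (a + b) = τ a + τ b := fun a b =>
    Subtype.ext (by simp only [hgτ, AddSubgroup.coe_add, mul_add, add_mul])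
  let f : ↥J →+ ↥F :=
    { toFun := fun y => ⟨(y : R) + (τ y : R), (y + τ y).2, by
        show τ (y + τ y) = y + τ y
        rw [haddτ, hτsq, add_comm]⟩
      map_zero' := Subtype.ext (by simp [hgτ])
      map_add' := fun p q => Subtype.ext (by
        show ((p + q : ↥J) : R) + (τ (p + q) : R) = ((p : R) + (τ p : R)) + ((q : R) + (τ q : R))
        rw [haddτ, AddSubgroup.coe_add, AddSubgroup.coe_add]; abel) }
  have hker : Nat.card ↥f.ker ≤ Nat.card ↥F := by
    have hmem : ∀ y : ↥f.ker, ((y : ↥J) : R) ∈ F := fun y => by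
      refine ⟨(y : ↥J).2, Subtype.ext ?_⟩
      have := congrArg Subtype.val (AddMonoidHom.mem_ker.mp y.2)
      exact (h.eq_of_add_eq_zero this).symm
    exact Nat.card_le_card_of_injective (fun y => (⟨_, hmem y⟩ : ↥F))
      (fun p q e => Subtype.ext (Subtype.ext (congrArg (Subtype.val : ↥F → R) e)))
  have hcard : Nat.card ↥J ≤ Nat.card ↥F * Nat.card ↥F := by
    rw [← f.ker.card_mul_index]
    refine Nat.mul_le_mul hker ?_
    rw [AddSubgroup.index_ker]
    exact Nat.card_le_card_of_injective (Subtype.val : ↥f.range → ↥F) Subtype.val_injective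
  have haF : ∀ x ∈ F, (∀ y ∈ J, x * y = y * x) := hcentral
  have hinj : Function.Injective (fun p : ↥F × ↥F =>
      (⟨(p.1 : R) + p.2 * a, J.add_mem (hFJ p.1.2)
        (h.mul_mem_of_comm (hFJ p.2.2) ha (hcentral _ p.2.2 a ha))⟩ : ↥J)) := by
    rintro ⟨p₁, p₂⟩ ⟨q₁, q₂⟩ e
    have e' : (p₁ : R) + p₂ * a = q₁ + q₂ * a := congrArg Subtype.val e
    by_cases hd : (p₂ : R) + q₂ = 0
    · have h2 := h.eq_of_add_eq_zero hd
      rw [h2] at e'
      exact Prod.ext (Subtype.ext (add_right_cancel e')) (Subtype.ext h2)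
    exfalso
    obtain ⟨d, hd', -, hd1⟩ := hFI.exists_inv _ (F.add_mem p₂.2 q₂.2) hd
    have h3 : ((p₂ : R) + q₂) * a = p₁ + q₁ := by
      rw [add_mul]
      apply h.eq_of_add_eq_zero
      calc (p₂ : R) * a + q₂ * a + (p₁ + q₁) = ((p₁ : R) + p₂ * a) + (q₁ + q₂ * a) := by abel
        _ = 0 := by rw [e', h.add_self]
    have h4 : a = d * (p₁ + q₁) := by rw [← h3, ← mul_assoc, hd1, one_mul]
    refine hab ?_
    rw [h4]
    exact ((show Commute d b from haF d hd' b hb).mul_left
      (show Commute ((p₁ : R) + q₁) b from haF _ (F.add_mem p₁.2 q₁.2) b hb)).eq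
  have hbij := hinj.bijective_of_nat_card_le (by rw [Nat.card_prod]; exact hcard)
  obtain ⟨⟨p₁, p₂⟩, hp⟩ := hbij.2 ⟨b, hb⟩
  have hp' : (p₁ : R) + p₂ * a = b := congrArg Subtype.val hp
  refine hab ?_
  rw [← hp']
  exact ((show Commute a (p₁ : R) from (haF _ p₁.2 a ha).symm).add_right
    ((show Commute a (p₂ : R) from (haF _ p₂.2 a ha).symm).mul_right (Commute.refl a))).eq

/-- Two roots of `T ^ 2 + T + 1` in `J` commute. -/
theorem comm_of_cube_roots [Finite J] {x y : R} (hx : x ∈ J) (hy : y ∈ J)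
    (hx2 : x * x = x + 1) : x * y = y * x := by
  by_contra hne
  set z := x * y + y * x with hz
  have hzJ : z ∈ J := h.bracket_mem hx hy
  have hz0 : z ≠ 0 := fun e => hne (h.eq_of_add_eq_zero e)
  have h1 : x * z + z * x = z := by
    calc x * z + z * x = x * x * y + (x * y * x + x * y * x) + y * (x * x) := by
          rw [hz]; simp only [mul_add, add_mul, mul_assoc]; abel
      _ = z := by
          rw [h.add_self, add_zero, hx2, hz, add_mul, mul_add, one_mul, mul_one,
            show x * y + y + (y * x + y) = (x * y + y * x) + (y + y) by abel, h.add_self, add_zero]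
  have h2 : x * z = z * x + z := by
    calc x * z = (x * z + z * x) + z * x := by rw [add_assoc, h.add_self, add_zero]
      _ = _ := by rw [h1, add_comm]
  have h3 : z * z * x = x * (z * z) := by
    symm
    calc x * (z * z) = z * (x * z) + z * z := by
          conv_lhs => rw [← mul_assoc, h2, add_mul, mul_assoc]
      _ = z * (z * x + z) + z * z := by rw [h2]
      _ = z * z * x := by rw [mul_add, ← mul_assoc, add_assoc, h.add_self, add_zero]
  have h4 : z * x = x * z := h.comm_of_sq_comm hzJ h3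
  rw [← h4] at h1
  exact hz0 (by rw [← h1, h.add_self])

/-- An element of exact order `M`, where `M` divides no `2 ^ k - 1` with `k < N`, `|J| = 2 ^ N`,
generates `J`, so `J` is commutative. -/
theorem comm_of_orderOf [Finite J] {N M : ℕ} (hN : Nat.card ↥J = 2 ^ N)
    (hM : ∀ k, 0 < k → k < N → ¬ M ∣ 2 ^ k - 1) {x : R} (hx : x ∈ J) (hxo : orderOf x = M)
    (hx0 : x ≠ 0) : ∀ a ∈ J, ∀ b ∈ J, a * b = b * a := by
  set A : AddSubgroup R := AddSubgroup.closure (Set.range fun n : ℕ => x ^ n) with hA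
  have hAJ : A ≤ J := by
    rw [hA, AddSubgroup.closure_le]; rintro _ ⟨n, rfl⟩; exact h.pow_mem' hx n
  have hpowA : ∀ n, x ^ n ∈ A := fun n => AddSubgroup.subset_closure ⟨n, rfl⟩
  have hxc : ∀ a ∈ A, Commute x a := by
    intro a ha
    induction ha using AddSubgroup.closure_induction with
    | mem b hb => obtain ⟨n, rfl⟩ := hb; exact Commute.pow_right (Commute.refl x) n
    | zero => exact Commute.zero_right x
    | add b c _ _ h1 h2 => exact h1.add_right h2
    | neg b _ h1 => exact h1.neg_right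
  have hAc : ∀ a ∈ A, ∀ b ∈ A, Commute a b := by
    intro a ha b hb
    induction hb using AddSubgroup.closure_induction with
    | mem c hc => obtain ⟨n, rfl⟩ := hc; exact ((hxc a ha).pow_left n).symm
    | zero => exact Commute.zero_right _
    | add c d _ _ h1 h2 => exact h1.add_right h2
    | neg c _ h1 => exact h1.neg_right
  have hAm : ∀ a ∈ A, ∀ b ∈ A, a * b ∈ A := by
    intro a ha b hb
    induction ha using AddSubgroup.closure_induction with
    | mem c hc =>
      obtain ⟨n, rfl⟩ := hc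
      induction hb using AddSubgroup.closure_induction with
      | mem d hd => obtain ⟨m, rfl⟩ := hd; show x ^ n * x ^ m ∈ A; rw [← pow_add]; exact hpowA _
      | zero => simp
      | add d e _ _ h1 h2 => rw [mul_add]; exact A.add_mem h1 h2
      | neg d _ h1 => rw [mul_neg]; exact A.neg_mem h1
    | zero => simp
    | add c d _ _ h1 h2 => rw [add_mul]; exact A.add_mem h1 h2
    | neg c _ h1 => rw [neg_mul]; exact A.neg_mem h1
  haveI : Finite A := Finite.of_injective (fun a : ↥A => (⟨a.1, hAJ a.2⟩ : ↥J))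
    (fun a b e => Subtype.ext (congrArg (Subtype.val : ↥J → R) e))
  obtain ⟨ux, hux, -⟩ := h.exists_unit hx hx0
  haveI : Nontrivial R := ⟨⟨x, 0, hx0⟩⟩
  let G : Subgroup Rˣ :=
    { carrier := {u | (u : R) ∈ A}
      one_mem' := by simpa using hpowA 0
      mul_mem' := fun ha hb => hAm _ ha _ hb
      inv_mem' := by
        intro u hu
        obtain ⟨o, ⟨m, rfl⟩, ho⟩ := h.exists_odd_pow (hAJ hu) u.ne_zero
        show (↑u⁻¹ : R) ∈ A
        have e : (↑u⁻¹ : R) = (u : R) ^ (2 * m) := by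
          rw [← mul_one (↑u⁻¹ : R), ← ho, pow_succ', ← mul_assoc, Units.inv_mul, one_mul]
        rw [e]
        have : ∀ k : ℕ, (u : R) ^ k ∈ A := fun k => by
          induction k with
          | zero => simpa using hpowA 0
          | succ k ihk => rw [pow_succ]; exact hAm _ ihk _ hu
        exact this _ }
  have hGcard : Nat.card ↥G + 1 = Nat.card ↥A := by
    classical
    haveI := Fintype.ofFinite ↥A
    have e : ↥G ≃ {a : ↥A // a ≠ 0} :=
      { toFun := fun u => ⟨⟨(u : Rˣ), u.2⟩, fun e => (u : Rˣ).ne_zero (congrArg Subtype.val e)⟩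
        invFun := fun a =>
          ⟨(h.exists_unit (hAJ a.1.2) (fun e => a.2 (Subtype.ext e))).choose, by
            show ((h.exists_unit (hAJ a.1.2) (fun e => a.2 (Subtype.ext e))).choose : R) ∈ A
            rw [(h.exists_unit (hAJ a.1.2) (fun e => a.2 (Subtype.ext e))).choose_spec.1]
            exact a.1.2⟩
        left_inv := fun u => Subtype.ext (Units.ext
          (h.exists_unit (hAJ u.2) (u : Rˣ).ne_zero).choose_spec.1)
        right_inv := fun a => Subtype.ext (Subtype.ext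
          (h.exists_unit (hAJ a.1.2) (fun e => a.2 (Subtype.ext e))).choose_spec.1) }
    rw [Nat.card_congr e, Nat.card_eq_fintype_card, Nat.card_eq_fintype_card,
      Fintype.card_subtype_compl, Fintype.card_subtype_eq]
    have := Fintype.card_pos_iff.mpr (⟨0⟩ : Nonempty ↥A)
    omega
  haveI : Finite G := Finite.of_injective (fun u : ↥G => (⟨(u : Rˣ), u.2⟩ : ↥A))
    (fun a b e => Subtype.ext (Units.ext (congrArg (Subtype.val : ↥A → R) e)))
  have huG : ux ∈ G := by show (ux : R) ∈ A; rw [hux]; simpa using hpowA 1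
  have hdvd : M ∣ Nat.card ↥G := by
    rw [← hxo, ← hux, orderOf_units, ← Subgroup.orderOf_mk ux huG]
    exact orderOf_dvd_natCard _
  letI : Module (ZMod 2) ↥A := AddCommGroup.zmodModule fun a => by
    rw [two_nsmul]; exact Subtype.ext (h.add_self a)
  have hAd : Nat.card ↥A = 2 ^ Module.finrank (ZMod 2) ↥A := by
    rw [Module.natCard_eq_pow_finrank (K := ZMod 2), Nat.card_zmod]
  set d := Module.finrank (ZMod 2) ↥A with hd
  have hinc : Nat.card ↥A ≤ Nat.card ↥J :=
    Nat.card_le_card_of_injective (fun a : ↥A => (⟨a.1, hAJ a.2⟩ : ↥J))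
      (fun a b e => Subtype.ext (congrArg (Subtype.val : ↥J → R) e))
  have hd0 : 0 < d := by
    by_contra h0
    rw [Nat.eq_zero_of_not_pos h0, pow_zero] at hAd
    have : 0 < Nat.card ↥G := Nat.card_pos
    omega
  have hG2 : Nat.card ↥G = 2 ^ d - 1 := by omega
  rw [hG2] at hdvd
  have hdN : ¬ d < N := fun hlt => hM d hd0 hlt hdvd
  have hle : Nat.card ↥J ≤ Nat.card ↥A := by
    rw [hN, hAd]; exact Nat.pow_le_pow_right (by norm_num) (not_lt.mp hdN)
  have hJA : ∀ j ∈ J, j ∈ A := by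
    intro j hj
    have hb := Function.Injective.bijective_of_nat_card_le
      (f := fun a : ↥A => (⟨a.1, hAJ a.2⟩ : ↥J))
      (fun a b e => Subtype.ext (congrArg (Subtype.val : ↥J → R) e)) hle
    obtain ⟨a, ha⟩ := hb.2 ⟨j, hj⟩
    exact (show (a : R) = j from congrArg (Subtype.val : ↥J → R) ha) ▸ a.2
  exact fun a ha b hb => (hAc a (hJA a ha) b (hJA b hb)).eq

/-- Inversion, extended by `0 ↦ 0`. -/
noncomputable def invPerm : Equiv.Perm ↥J := by
  classical
  exact
  { toFun := fun y => if hy : (y : R) = 0 then y else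
      ⟨(h.exists_inv y y.2 hy).choose, (h.exists_inv y y.2 hy).choose_spec.1⟩
    invFun := fun y => if hy : (y : R) = 0 then y else
      ⟨(h.exists_inv y y.2 hy).choose, (h.exists_inv y y.2 hy).choose_spec.1⟩
    left_inv := fun y => by
      by_cases hy : (y : R) = 0
      · simp [hy]
      have s := (h.exists_inv y y.2 hy).choose_spec
      have hne : ((h.exists_inv y y.2 hy).choose) ≠ 0 := fun e => hy (by
        rw [← mul_one (y : R), ← s.2.1, e, mul_zero, mul_zero])
      simp only [dif_neg hy, dif_neg hne]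
      have s' := (h.exists_inv _ s.1 hne).choose_spec
      apply Subtype.ext
      calc (h.exists_inv _ s.1 hne).choose
          = ((y : R) * (h.exists_inv y y.2 hy).choose) * (h.exists_inv _ s.1 hne).choose :=
            ((congrArg (· * (h.exists_inv _ s.1 hne).choose) s.2.1).trans (one_mul _)).symm
        _ = (y : R) := by rw [mul_assoc, s'.2.1, mul_one]
    right_inv := fun y => by
      by_cases hy : (y : R) = 0
      · simp [hy]
      have s := (h.exists_inv y y.2 hy).choose_spec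
      have hne : ((h.exists_inv y y.2 hy).choose) ≠ 0 := fun e => hy (by
        rw [← mul_one (y : R), ← s.2.1, e, mul_zero, mul_zero])
      simp only [dif_neg hy, dif_neg hne]
      have s' := (h.exists_inv _ s.1 hne).choose_spec
      apply Subtype.ext
      calc (h.exists_inv _ s.1 hne).choose
          = ((y : R) * (h.exists_inv y y.2 hy).choose) * (h.exists_inv _ s.1 hne).choose :=
            ((congrArg (· * (h.exists_inv _ s.1 hne).choose) s.2.1).trans (one_mul _)).symm
        _ = (y : R) := by rw [mul_assoc, s'.2.1, mul_one] }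

theorem invPerm_zero {y : ↥J} (hy : (y : R) = 0) : h.invPerm y = y := by
  simp [invPerm, hy]

theorem invPerm_eq {y z : ↥J} (e : (y : R) * z = 1) : h.invPerm y = z := by
  by_cases hy : (y : R) = 0
  · rw [hy, zero_mul] at e
    apply Subtype.ext
    rw [← mul_one ((h.invPerm y : ↥J) : R), ← mul_one (z : R), ← e, mul_zero, mul_zero]
  · apply Subtype.ext
    simp only [invPerm, Equiv.coe_fn_mk, dif_neg hy]
    have s := (h.exists_inv y y.2 hy).choose_spec
    calc (h.exists_inv y y.2 hy).choose = (h.exists_inv y y.2 hy).choose * ((y : R) * z) := by rw [e, mul_one]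
      _ = (z : R) := by rw [← mul_assoc, s.2.2, one_mul]

theorem invPerm_mul_self : h.invPerm * h.invPerm = 1 := by
  refine Equiv.ext fun y => ?_
  rw [Equiv.Perm.mul_apply, Equiv.Perm.one_apply]
  by_cases hy : (y : R) = 0
  · rw [h.invPerm_zero hy, h.invPerm_zero hy]
  obtain ⟨z, hz, h1, h2⟩ := h.exists_inv y y.2 hy
  rw [h.invPerm_eq (z := ⟨z, hz⟩) h1, h.invPerm_eq (y := ⟨z, hz⟩) (z := y) h2]

theorem invPerm_conjPerm (u : Rˣ) (hu : (u : R) ∈ J) (hu' : (↑u⁻¹ : R) ∈ J) :
    h.invPerm * h.conjPerm u hu hu' = (h.conjPerm u hu hu')⁻¹ * h.invPerm := by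
  refine Equiv.ext fun y => ?_
  rw [Equiv.Perm.mul_apply, Equiv.Perm.mul_apply]
  by_cases hy : (y : R) = 0
  · have h0 : h.conjPerm u hu hu' y = y := Subtype.ext (by
      show (u : R) * y * u = y
      rw [hy, mul_zero, zero_mul])
    rw [h0, h.invPerm_zero hy]
    exact ((Equiv.Perm.inv_eq_iff_eq).mpr h0.symm).symm
  obtain ⟨z, hz, h1, -⟩ := h.exists_inv y y.2 hy
  rw [h.invPerm_eq (z := ⟨z, hz⟩) h1]
  refine h.invPerm_eq ?_
  show (u : R) * y * u * (↑u⁻¹ * z * ↑u⁻¹) = 1
  calc (u : R) * y * u * (↑u⁻¹ * z * ↑u⁻¹) = u * (y * z) * ↑u⁻¹ := by simp [mul_assoc]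
    _ = 1 := by rw [h1, mul_one, Units.mul_inv]

theorem invPerm_comm {σ : Equiv.Perm ↥J} (hσ : σ ∈ h.innerGroup)
    (h1 : σ ⟨1, h.one_mem⟩ = ⟨1, h.one_mem⟩) : h.invPerm * σ = σ * h.invPerm := by
  obtain ⟨g, -, hg⟩ := h.exists_conj hσ h1
  refine Equiv.ext fun y => ?_
  rw [Equiv.Perm.mul_apply, Equiv.Perm.mul_apply]
  by_cases hy : (y : R) = 0
  · rw [h.invPerm_zero hy, h.invPerm_zero (by rw [hg, hy, mul_zero, zero_mul])]
  obtain ⟨z, hz, e1, -⟩ := h.exists_inv y y.2 hy
  rw [h.invPerm_eq (z := ⟨z, hz⟩) e1]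
  refine h.invPerm_eq ?_
  rw [hg, hg]
  calc (g : R) * y * ↑g⁻¹ * (g * z * ↑g⁻¹) = g * (y * z) * ↑g⁻¹ := by simp [mul_assoc]
    _ = 1 := by rw [e1, mul_one, Units.mul_inv]

theorem invPerm_conj_mem {σ : Equiv.Perm ↥J} (hσ : σ ∈ h.innerGroup) :
    h.invPerm * σ * h.invPerm ∈ h.innerGroup := by
  have hii := h.invPerm_mul_self
  induction hσ using Subgroup.closure_induction with
  | mem τ hτ =>
    obtain ⟨u, hu, hu', rfl⟩ := hτ
    rw [h.invPerm_conjPerm, mul_assoc, hii, mul_one]
    exact inv_mem (h.conjPerm_mem u hu hu')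
  | one => rw [mul_one, hii]; exact Subgroup.one_mem _
  | mul σ τ _ _ h1 h2 =>
    have e : h.invPerm * (σ * τ) * h.invPerm
        = (h.invPerm * σ * h.invPerm) * (h.invPerm * τ * h.invPerm) := by
      simp only [mul_assoc]
      rw [← mul_assoc h.invPerm h.invPerm, hii, one_mul]
    rw [e]; exact mul_mem h1 h2
  | inv σ _ h1 =>
    have hi : h.invPerm⁻¹ = h.invPerm := inv_eq_of_mul_eq_one_right hii
    have := inv_mem h1
    rwa [mul_inv_rev, mul_inv_rev, hi, ← mul_assoc] at this

/-- Conjugation by inversion, an automorphism of the group. -/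
noncomputable def invAut : MulAut ↥h.innerGroup where
  toFun σ := ⟨h.invPerm * σ * h.invPerm, h.invPerm_conj_mem σ.2⟩
  invFun σ := ⟨h.invPerm * σ * h.invPerm, h.invPerm_conj_mem σ.2⟩
  left_inv σ := Subtype.ext (by
    simp only [mul_assoc, h.invPerm_mul_self, mul_one]
    rw [← mul_assoc, h.invPerm_mul_self, one_mul])
  right_inv σ := Subtype.ext (by
    simp only [mul_assoc, h.invPerm_mul_self, mul_one]
    rw [← mul_assoc, h.invPerm_mul_self, one_mul])
  map_mul' σ τ := Subtype.ext (by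
    simp only [Subgroup.coe_mul, mul_assoc]
    rw [← mul_assoc h.invPerm h.invPerm, h.invPerm_mul_self, one_mul])

end IsInvSubgroup

open IsInvSubgroup in
theorem isInvSubgroup_comm_aux : ∀ n : ℕ, ∀ (J : AddSubgroup R) [Finite ↥J],
    IsInvSubgroup J → Nat.card ↥J = n → ∀ a ∈ J, ∀ b ∈ J, a * b = b * a := by
  intro n
  induction n using Nat.strong_induction_on with
  | _ n ih =>
    intro J _ h hn a ha b hb
    by_contra hab
    have ih' : ∀ F : AddSubgroup R, F < J → IsInvSubgroup F → ∀ a ∈ F, ∀ b ∈ F, a * b = b * a := by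
      intro F hF hFI
      haveI : Finite F := Finite.of_injective (fun x : ↥F => (⟨x.1, hF.le x.2⟩ : ↥J))
        (fun x y e => Subtype.ext (congrArg (Subtype.val : ↥J → R) e))
      refine ih _ ?_ F hFI rfl
      rw [← hn]
      obtain ⟨j, hj, hjF⟩ := SetLike.exists_of_lt hF
      haveI := Fintype.ofFinite ↥J
      haveI := Fintype.ofFinite ↥F
      rw [Nat.card_eq_fintype_card, Nat.card_eq_fintype_card]
      refine Fintype.card_lt_of_injective_of_notMem (fun x : ↥F => (⟨x.1, hF.le x.2⟩ : ↥J))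
        (fun x y e => Subtype.ext (congrArg (Subtype.val : ↥J → R) e)) (b := ⟨j, hj⟩) ?_
      rintro ⟨x, hx⟩
      exact hjF ((show (x : R) = j from congrArg (Subtype.val : ↥J → R) hx) ▸ x.2)
    have hR : (1 : R) ≠ 0 := fun e => hab (by
      rw [← mul_one (a * b), ← mul_one (b * a), e, mul_zero, mul_zero])
    letI : Module (ZMod 2) ↥J := AddCommGroup.zmodModule fun x => by
      rw [two_nsmul]; exact Subtype.ext (h.add_self x)
    have hN : Nat.card ↥J = 2 ^ Module.finrank (ZMod 2) ↥J := by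
      rw [Module.natCard_eq_pow_finrank (K := ZMod 2), Nat.card_zmod]
    set N := Module.finrank (ZMod 2) ↥J
    clear_value N
    -- the prime power that only `J` accommodates
    have hN2 : 1 < N := by
      by_contra hle
      have h2 : Nat.card ↥J ≤ 2 ^ 1 := hN ▸ Nat.pow_le_pow_right (by norm_num) (not_lt.mp hle)
      have hsub : ∀ x ∈ J, x = 0 ∨ x = 1 := by
        intro x hx
        by_contra hc; push Not at hc
        haveI := Fintype.ofFinite ↥J
        have h3 : Function.Injective (![⟨0, J.zero_mem⟩, ⟨1, h.one_mem⟩, ⟨x, hx⟩] : Fin 3 → ↥J) := by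
          intro i j e
          fin_cases i <;> fin_cases j <;>
            simp [Subtype.ext_iff, hR, Ne.symm hR, hc.1, hc.2, Ne.symm hc.1, Ne.symm hc.2] at e ⊢
        have := Nat.card_le_card_of_injective _ h3
        rw [Nat.card_fin] at this; omega
      rcases hsub a ha with rfl | rfl <;> simp at hab
    obtain ⟨p, M, hp, hpM, hMN, hMmin, hM9⟩ : ∃ p M : ℕ, p.Prime ∧ (∃ e, M = p ^ e) ∧ M ∣ 2 ^ N - 1 ∧
        (∀ k, 0 < k → k < N → ¬ M ∣ 2 ^ k - 1) ∧ (M = p ∨ (p = 3 ∧ M = 9)) := by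
      by_cases h6 : N = 6
      · refine ⟨3, 9, Nat.prime_three, ⟨2, by norm_num⟩, by subst h6; norm_num, ?_, Or.inr ⟨rfl, rfl⟩⟩
        intro k hk hk6
        subst h6
        interval_cases k <;> norm_num
      · obtain ⟨r, hr, hrd, hrm⟩ := CfsgLib.Zsigmondy.exists_isPpd (a := 2) (n := N) (by norm_num) hN2
          (by omega) (by
            intro h
            obtain ⟨m, hm⟩ := h.2
            have h3 : (2 : ℕ) + 1 = 2 ^ m := hm
            rcases m with _ | _ | m <;> simp [pow_succ] at h3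
            omega)
        exact ⟨r, r, hr, ⟨1, (pow_one r).symm⟩, hrd, hrm, Or.inl rfl⟩
    haveI : Fact p.Prime := ⟨hp⟩
    set H := h.innerGroup with hH
    -- `H` has odd order
    have hodd : Odd (Nat.card ↥H) := by
      rw [← Nat.not_even_iff_odd, even_iff_two_dvd]
      intro hdvd
      haveI : Fact (Nat.Prime 2) := ⟨Nat.prime_two⟩
      obtain ⟨σ, hσ⟩ := exists_prime_orderOf_dvd_card' 2 hdvd
      have hsq : ∀ y, (σ : Equiv.Perm ↥J) ((σ : Equiv.Perm ↥J) y) = y := by
        intro y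
        have := congrArg (fun t : ↥H => (t : Equiv.Perm ↥J) y) (pow_orderOf_eq_one σ)
        rw [hσ] at this
        simpa [sq] using this
      have := h.eq_one_of_sq ih' ha hb hab σ.2 hsq
      rw [show σ = 1 from Subtype.ext this, orderOf_one] at hσ
      omega
    -- a Sylow subgroup invariant under inversion
    obtain ⟨S, hS⟩ : ∃ S : Sylow p ↥H, ∀ s ∈ S, h.invAut s ∈ S := by
      let f : Equiv.Perm (Sylow p ↥H) := MulAction.toPerm h.invAut
      have hff : f ^ 2 ^ 1 = 1 := by
        refine Equiv.ext fun P => ?_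
        rw [pow_one, sq, Equiv.Perm.mul_apply, Equiv.Perm.one_apply]
        show h.invAut • h.invAut • P = P
        rw [smul_smul]
        have : h.invAut * h.invAut = 1 := MulEquiv.ext fun σ => h.invAut.symm_apply_apply σ
        rw [this, one_smul]
      haveI := Fintype.ofFinite (Sylow p ↥H)
      haveI : Fact (Nat.Prime 2) := ⟨Nat.prime_two⟩
      have hnp : ¬ 2 ∣ Fintype.card (Sylow p ↥H) := fun hd => by
        rw [← Nat.card_eq_fintype_card] at hd
        exact Nat.not_even_iff_odd.mpr hodd (even_iff_two_dvd.mpr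
          (hd.trans ((Sylow.card_dvd_index (default : Sylow p ↥H)).trans (Subgroup.index_dvd_card _))))
      obtain ⟨S, hS⟩ := Equiv.Perm.exists_fixed_point_of_prime hnp hff
      refine ⟨S, fun s hs => ?_⟩
      have hS' : h.invAut • S = S := hS
      rw [← hS']
      exact ⟨s, hs, rfl⟩
    -- its orbit of `1`
    let one : ↥J := ⟨1, h.one_mem⟩
    let S' : Subgroup ↥H := S
    have horb : MulAction.orbit ↥H one = {y : ↥J | (y : R) ≠ 0} := by
      ext y
      constructor
      · rintro ⟨σ, rfl⟩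
        obtain ⟨g, k, -, e⟩ := h.isTwoSided_of_mem σ.2
        show (((σ : Equiv.Perm ↥J) one : ↥J) : R) ≠ 0
        rw [e]
        show (g : R) * 1 * k ≠ 0
        rw [mul_one, ← Units.val_mul]
        haveI : Nontrivial R := ⟨⟨1, 0, hR⟩⟩
        exact (g * k).ne_zero
      · intro hy
        obtain ⟨u, hu, hu', e, -⟩ := h.transitive y hy
        exact ⟨⟨_, h.conjPerm_mem u hu hu'⟩, e⟩
    have hindex : (MulAction.stabilizer ↥H one).index = 2 ^ N - 1 := by
      haveI := Fintype.ofFinite ↥J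
      classical
      rw [MulAction.index_stabilizer, horb, Set.ncard_eq_toFinset_card', ← hN]
      rw [Nat.card_eq_fintype_card,
        show ({y : ↥J | (y : R) ≠ 0}).toFinset = Finset.univ.erase ⟨0, J.zero_mem⟩ by
          ext y
          rw [Set.mem_toFinset, Finset.mem_erase]
          exact ⟨fun hy => ⟨fun e => hy (congrArg Subtype.val e), Finset.mem_univ _⟩,
            fun hy e => hy.1 (Subtype.ext e)⟩,
        Finset.card_erase_of_mem (Finset.mem_univ _), Finset.card_univ]
    have hMorb : M ∣ (MulAction.orbit ↥S' one).ncard := by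
      rw [← MulAction.index_stabilizer]
      have h1 : MulAction.stabilizer ↥S' one = (MulAction.stabilizer ↥H one).subgroupOf S' := by
        ext s; rfl
      rw [h1]
      show M ∣ (MulAction.stabilizer ↥H one).relIndex S'
      obtain ⟨e, rfl⟩ := hpM
      have h2 : (MulAction.stabilizer ↥H one).index ∣ (MulAction.stabilizer ↥H one).relIndex S' * S'.index := by
        have : ((MulAction.stabilizer ↥H one) ⊓ S').index
            = (MulAction.stabilizer ↥H one).relIndex S' * S'.index := by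
          rw [← Subgroup.inf_relIndex_right, Subgroup.relIndex_mul_index inf_le_right]
        rw [← this]
        exact Subgroup.index_dvd_of_le inf_le_left
      rw [hindex] at h2
      refine Nat.Coprime.dvd_of_dvd_mul_right (Nat.Coprime.pow_left _ ?_) (hMN.trans h2)
      exact (Nat.Prime.coprime_iff_not_dvd hp).mpr (Sylow.not_dvd_index S)
    have horder : ∀ y ∈ MulAction.orbit ↥S' one, ∃ i : ℕ, (y : R) ^ p ^ i = 1 := by
      rintro y ⟨s, rfl⟩
      set y : ↥J := s • one
      have hy : (y : R) ≠ 0 := by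
        have : y ∈ MulAction.orbit ↥H one := ⟨(s : ↥H), rfl⟩
        rw [horb] at this; exact this
      obtain ⟨u, hu, hu', e, huu⟩ := h.transitive y hy
      set U : ↥H := ⟨_, h.conjPerm_mem u hu hu'⟩ with hU
      have hc1 : ((U⁻¹ * (s : ↥H) : ↥H) : Equiv.Perm ↥J) one = one := by
        show (h.conjPerm u hu hu')⁻¹ (((s : ↥H) : Equiv.Perm ↥J) one) = one
        exact (Equiv.Perm.inv_eq_iff_eq).mpr e.symm
      have hcfix : h.invAut (U⁻¹ * (s : ↥H)) = U⁻¹ * (s : ↥H) := by
        apply Subtype.ext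
        show h.invPerm * ((U⁻¹ * (s : ↥H) : ↥H) : Equiv.Perm ↥J) * h.invPerm = _
        rw [h.invPerm_comm (U⁻¹ * (s : ↥H)).2 hc1, mul_assoc, h.invPerm_mul_self, mul_one]
      have hUfix : h.invAut U = U⁻¹ := by
        apply Subtype.ext
        show h.invPerm * h.conjPerm u hu hu' * h.invPerm = (h.conjPerm u hu hu')⁻¹
        rw [h.invPerm_conjPerm, mul_assoc, h.invPerm_mul_self, mul_one]
      have hUU : U * U ∈ S' := by
        have h3 : (s : ↥H) * (h.invAut (s : ↥H))⁻¹ = U * U := by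
          have : h.invAut (s : ↥H) = U⁻¹ * (U⁻¹ * (s : ↥H)) := by
            conv_lhs => rw [show (s : ↥H) = U * (U⁻¹ * (s : ↥H)) by group]
            rw [map_mul, hUfix, hcfix]
          rw [this, mul_inv_rev, mul_inv_rev, inv_inv]
          calc (s : ↥H) * ((s : ↥H)⁻¹ * U * U) = ((s : ↥H) * (s : ↥H)⁻¹) * U * U := by
                simp only [mul_assoc]
            _ = U * U := by rw [mul_inv_cancel, one_mul]
        rw [← h3]
        exact mul_mem s.2 (inv_mem (hS _ s.2))
      obtain ⟨i, hi⟩ := (isPGroup_iff_pow_pow_eq_one.mp S.isPGroup') ⟨U * U, hUU⟩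
      refine ⟨i, ?_⟩
      have hi' : (U * U) ^ p ^ i = 1 := congrArg Subtype.val hi
      have hpow : ∀ n : ℕ, ((((U * U) ^ n : ↥H) : Equiv.Perm ↥J) one : R) = (y : R) ^ n * (y : R) ^ n := by
        intro n
        induction n with
        | zero => simp [one]
        | succ n ihn =>
          rw [pow_succ', Subgroup.coe_mul, Equiv.Perm.mul_apply, Subgroup.coe_mul, Equiv.Perm.mul_apply]
          show (u : R) * (u * ((((U * U) ^ n : ↥H) : Equiv.Perm ↥J) one : R) * u) * u = _
          rw [ihn]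
          calc (u : R) * (u * ((y : R) ^ n * (y : R) ^ n) * u) * u
              = ((u : R) * u) * ((y : R) ^ n * (y : R) ^ n) * ((u : R) * u) := by simp only [mul_assoc]
            _ = _ := by rw [huu, ← mul_assoc, ← pow_succ', mul_assoc ((y : R) ^ (n + 1)), ← pow_succ]
      have h4 := hpow (p ^ i)
      rw [hi'] at h4
      have h5 : ((y : R) ^ p ^ i) * ((y : R) ^ p ^ i) = 1 := h4.symm
      apply h.eq_of_add_eq_zero
      refine h.eq_zero_of_sq (J.add_mem (h.pow_mem' y.2 _) h.one_mem) ?_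
      rw [add_mul, mul_add, h5, mul_one, one_mul,
        show ∀ t : R, (1 + t) + (t + 1) = (1 + 1) + (t + t) from fun t => by abel,
        h.add_self, h.add_self, add_zero]
    have horb1 : one ∈ MulAction.orbit ↥S' one := MulAction.mem_orbit_self one
    have hMpos : 1 < M := by
      rcases hM9 with rfl | ⟨-, rfl⟩
      · exact hp.one_lt
      · norm_num
    have hMle : M ≤ (MulAction.orbit ↥S' one).ncard :=
      Nat.le_of_dvd ((Set.ncard_pos).mpr ⟨one, horb1⟩) hMorb
    -- an element of exact order `M`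
    obtain ⟨x, hxJ, hx0, hxo⟩ : ∃ x ∈ J, x ≠ 0 ∧ orderOf x = M := by
      by_cases hex : ∃ y ∈ MulAction.orbit ↥S' one, ∃ i, 0 < i ∧ M ∣ p ^ i ∧ orderOf (y : R) = p ^ i
      · obtain ⟨y, -, i, -, ⟨d, hd⟩, hyo⟩ := hex
        refine ⟨(y : R) ^ d, h.pow_mem' y.2 d, ?_, ?_⟩
        · intro e
          have h1 := pow_orderOf_eq_one (y : R)
          rw [hyo, hd, mul_comm, pow_mul, e, zero_pow (by omega)] at h1
          exact hR h1.symm
        · have hd0 : d ≠ 0 := by rintro rfl; simp [hp.ne_zero] at hd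
          rw [orderOf_pow' _ hd0, hyo, hd, Nat.gcd_mul_left_left, Nat.mul_div_cancel _ (by omega)]
      exfalso
      push Not at hex
      have hsmall : ∀ y ∈ MulAction.orbit ↥S' one, (y : R) ≠ 1 → p = 3 ∧ M = 9 ∧ (y : R) ^ 3 = 1 := by
        intro y hy hy1
        obtain ⟨i, hi⟩ := horder y hy
        obtain ⟨j, -, hj⟩ := (Nat.dvd_prime_pow hp).mp (orderOf_dvd_of_pow_eq_one hi)
        have hj0 : 0 < j := by
          by_contra hj0
          exact hy1 (orderOf_eq_one_iff.mp (by rw [hj, Nat.eq_zero_of_not_pos hj0, pow_zero]))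
        rcases hM9 with hM | ⟨h3, h9⟩
        · exact absurd hj (hex y hy j hj0 (hM ▸ dvd_pow_self p hj0.ne'))
        · refine ⟨h3, h9, ?_⟩
          have hj1 : j = 1 := by
            by_contra hj1
            refine hex y hy j hj0 ?_ hj
            rw [h9, h3, show (9 : ℕ) = 3 ^ 2 by norm_num]
            exact pow_dvd_pow 3 (by omega)
          rw [← h3, ← pow_one p, ← hj1, ← hj]; exact pow_orderOf_eq_one _
      -- the orbit has at most three elements
      obtain ⟨y₀, hy₀, hy₀1⟩ : ∃ y ∈ MulAction.orbit ↥S' one, (y : R) ≠ 1 := by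
        by_contra hc; push Not at hc
        have : MulAction.orbit ↥S' one ⊆ {one} := fun y hy => Subtype.ext (hc y hy)
        have := Set.ncard_le_ncard this
        rw [Set.ncard_singleton] at this
        omega
      obtain ⟨-, h9, -⟩ := hsmall y₀ hy₀ hy₀1
      have hroot : ∀ y ∈ MulAction.orbit ↥S' one, (y : R) ≠ 1 → (y : R) * y = y + 1 := by
        intro y hy hy1
        obtain ⟨-, -, h3⟩ := hsmall y hy hy1
        apply h.eq_of_add_eq_zero
        have hne : (y : R) + 1 ≠ 0 := fun e => hy1 (h.eq_of_add_eq_zero e)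
        obtain ⟨v, -, -, hv⟩ := h.exists_inv _ (J.add_mem y.2 h.one_mem) hne
        have h4 : ((y : R) + 1) * ((y : R) * y + (y + 1)) = 0 := by
          rw [add_mul, one_mul, mul_add, mul_add, mul_one]
          have : (y : R) * (y * y) = 1 := by rw [← h3, pow_succ', sq]
          rw [this, show ∀ s t : R, 1 + (s + t) + (s + (t + 1)) = (1 + 1) + (s + s) + (t + t) from
            fun s t => by abel]
          simp only [h.add_self, add_zero]
        calc (y : R) * y + (y + 1) = v * (((y : R) + 1) * ((y : R) * y + (y + 1))) := by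
              rw [← mul_assoc, hv, one_mul]
          _ = 0 := by rw [h4, mul_zero]
      have hsub : MulAction.orbit ↥S' one ⊆
          {one, y₀, ⟨(y₀ : R) + 1, J.add_mem y₀.2 h.one_mem⟩} := by
        intro y hy
        by_cases hy1 : (y : R) = 1
        · exact Or.inl (Subtype.ext hy1)
        right
        have hc : Commute (y₀ : R) y := h.comm_of_cube_roots y₀.2 y.2 (hroot y₀ hy₀ hy₀1)
        set s := (y₀ : R) + y with hs
        have hs2 : s * s = s := by
          rw [hs, add_mul, mul_add, mul_add, hroot y₀ hy₀ hy₀1, hroot y hy hy1, hc.eq.symm,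
            show ∀ A B C : R, A + 1 + C + (C + (B + 1)) = (A + B) + ((1 + 1) + (C + C)) from
              fun A B C => by abel, h.add_self, h.add_self, add_zero, add_zero]
        by_cases hs0 : s = 0
        · exact Or.inl (Subtype.ext (h.eq_of_add_eq_zero hs0).symm)
        · refine Or.inr (Subtype.ext ?_)
          obtain ⟨v, -, -, hv⟩ := h.exists_inv s (J.add_mem y₀.2 y.2) hs0
          have hs1 : s = 1 := by rw [← hv]; conv_rhs => rw [← hs2, ← mul_assoc, hv, one_mul]
          show (y : R) = y₀ + 1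
          rw [← hs1, hs, ← add_assoc, h.add_self, zero_add]
      have h3 := (Set.ncard_le_ncard hsub).trans ((Set.ncard_insert_le _ _).trans
        (Nat.succ_le_succ (Set.ncard_insert_le _ _)))
      rw [Set.ncard_singleton] at h3
      omega
    exact hab (h.comm_of_orderOf hN hMmin hxJ hxo hx0 a ha b hb)

/-- A finite additive subgroup of a ring with `2 = 0` that contains `1` and the inverses of its
non-zero elements is commutative and closed under multiplication. -/
theorem jordan_division_comm {J : AddSubgroup R} [Finite ↥J] (h : IsInvSubgroup J) {a b : R}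
    (ha : a ∈ J) (hb : b ∈ J) : a * b = b * a ∧ a * b ∈ J := by
  have hc := isInvSubgroup_comm_aux (Nat.card ↥J) J h rfl a ha b hb
  exact ⟨hc, h.mul_mem_of_comm ha hb hc⟩

end CfsgLib.ClassK
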