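import Cfsg.Prelude.Def_OddOrderLocal
import Cfsg.Agent.Lib.PGroups.Frattini
import Mathlib

set_option autoImplicit false

/-!
Finite metacyclic `p`-groups for odd `p`: `G = U⟨x⟩` with `U = ⟨u⟩` normal, `G' = ⟨[x,u]⟩` of
order `p ^ n`, centre, abelian subgroups, centralizers.
-/

namespace CfsgLib.ClassK.MetacyclicOdd

open Subgroup

/-! ### Geometric sums -/

def geomSum (q k : ℕ) : ℕ := ∑ t ∈ Finset.range k, q ^ t

theorem geomSum_mul (q a b : ℕ) : geomSum q (a * b) = geomSum q a * geomSum (q ^ a) b := by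
  induction b with
  | zero => simp [geomSum]
  | succ b ih =>
    rw [geomSum, Nat.mul_succ, Finset.sum_range_add, ← geomSum, ih]
    have h1 : geomSum (q ^ a) (b + 1) = geomSum (q ^ a) b + (q ^ a) ^ b := Finset.sum_range_succ _ _
    rw [h1, mul_add]
    congr 1
    rw [geomSum, Finset.sum_mul]
    refine Finset.sum_congr rfl fun t _ => ?_
    rw [← pow_mul, ← pow_add, add_comm]

theorem geomSum_prime {p q : ℕ} [Fact p.Prime] (hp : p ≠ 2) (hq : q ≡ 1 [MOD p]) :
    geomSum q p ≡ p [MOD p ^ 2] := by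
  have hp' := (Fact.out : p.Prime)
  obtain ⟨k, hk⟩ : ∃ k : ℤ, (q : ℤ) = 1 + p * k := by
    obtain ⟨k, hk⟩ := (Nat.modEq_iff_dvd.1 hq.symm)
    exact ⟨k, by push_cast at hk; linarith⟩
  set x : ZMod (p ^ 2) := (p : ZMod (p ^ 2)) * (k : ZMod (p ^ 2)) with hx
  have hsq : x * x = 0 := by
    have : ((p : ZMod (p ^ 2)) * p) = 0 := by
      rw [← Nat.cast_mul, ← sq, ZMod.natCast_self]
    rw [hx, mul_mul_mul_comm, this, zero_mul]
  have hq' : ((q : ZMod (p ^ 2))) = 1 + x := by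
    have := congrArg (Int.cast : ℤ → ZMod (p ^ 2)) hk
    push_cast at this
    exact this
  have hpow : ∀ t : ℕ, (1 + x) ^ t = 1 + (t : ZMod (p ^ 2)) * x := by
    intro t
    induction t with
    | zero => simp
    | succ t ih =>
      rw [pow_succ (1 + x) t, ih]; push_cast
      calc (1 + (t : ZMod (p ^ 2)) * x) * (1 + x) = 1 + ((t : ZMod (p ^ 2)) + 1) * x + (t : ZMod (p ^ 2)) * (x * x) := by ring
        _ = _ := by rw [hsq, mul_zero, add_zero]
  obtain ⟨h, hh⟩ : ∃ h, ∑ t ∈ Finset.range p, t = p * h := by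
    obtain ⟨l, hl⟩ := hp'.odd_of_ne_two hp
    refine ⟨l, ?_⟩
    have := Finset.sum_range_id_mul_two p
    have h2 : p - 1 = 2 * l := by omega
    rw [h2] at this
    linarith
  rw [← ZMod.natCast_eq_natCast_iff, geomSum]
  push_cast
  rw [hq']
  simp_rw [hpow]
  rw [Finset.sum_add_distrib, ← Finset.sum_mul, ← Nat.cast_sum, hh]
  have h0 : ((p : ZMod (p ^ 2)) * (h : ZMod (p ^ 2))) * x = 0 := by
    have : ((p : ZMod (p ^ 2)) * p) = 0 := by
      rw [← Nat.cast_mul, ← sq, ZMod.natCast_self]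
    rw [hx, mul_mul_mul_comm, this, zero_mul]
  rw [Nat.cast_mul, h0]
  simp

theorem geomSum_ppow {p q : ℕ} [Fact p.Prime] (hp : p ≠ 2) (hq : q ≡ 1 [MOD p]) (e : ℕ) :
    ∃ s, ¬ p ∣ s ∧ geomSum q (p ^ e) = p ^ e * s := by
  have hp' := (Fact.out : p.Prime)
  induction e with
  | zero => exact ⟨1, hp'.not_dvd_one, by simp [geomSum]⟩
  | succ e ih =>
    obtain ⟨s, hs, hse⟩ := ih
    have hq' : q ^ (p ^ e) ≡ 1 [MOD p] := by simpa using hq.pow (p ^ e)
    have h := geomSum_prime hp hq'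
    set S := geomSum (q ^ (p ^ e)) p
    have hlt : p < p ^ 2 := by nlinarith [hp'.two_le]
    have hS : S = p ^ 2 * (S / p ^ 2) + p := by
      conv_lhs => rw [← Nat.div_add_mod S (p ^ 2)]
      rw [h, Nat.mod_eq_of_lt hlt]
    set m := S / p ^ 2
    refine ⟨s * (p * m + 1), ?_, ?_⟩
    · intro hd
      rcases hp'.dvd_mul.1 hd with h1 | h1
      · exact hs h1
      · exact hp'.not_dvd_one ((Nat.dvd_add_right (dvd_mul_right p m)).1 h1)
    · show geomSum q (p ^ (e + 1)) = _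
      rw [pow_succ, geomSum_mul, hse]
      show p ^ e * s * S = _
      rw [hS]; ring

/-! ### Powers in a cyclic-by-cyclic `p`-group -/

variable {G : Type*} [Group G] [Finite G] {p : ℕ} [hp : Fact p.Prime]

theorem pow_ppow_mul_eq_one_iff (hG : IsPGroup p G) (v : G) (e : ℕ) {s : ℕ} (hs : ¬ p ∣ s) :
    v ^ (p ^ e * s) = 1 ↔ v ^ (p ^ e) = 1 := by
  obtain ⟨k, hk⟩ := IsPGroup.iff_orderOf.1 hG v
  rw [← orderOf_dvd_iff_pow_eq_one, ← orderOf_dvd_iff_pow_eq_one, hk]
  exact Nat.Coprime.dvd_mul_right ((hp.out.coprime_iff_not_dvd.2 hs).pow_left k)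

theorem exists_conj_pow (hG : IsPGroup p G) (U : Subgroup G) [U.Normal] (hU : IsCyclic U)
    (g : G) : ∃ q : ℕ, q ≡ 1 [MOD p] ∧ ∀ v ∈ U, g * v * g⁻¹ = v ^ q := by
  obtain ⟨u, hu⟩ := Subgroup.isCyclic_iff_exists_zpowers_eq_top U |>.1 hU
  by_cases hu1 : u = 1
  · refine ⟨1, Nat.ModEq.refl 1, fun v hv => ?_⟩
    rw [← hu, hu1, mem_zpowers_iff] at hv
    obtain ⟨k, rfl⟩ := hv
    simp
  have hmem : g * u * g⁻¹ ∈ Submonoid.powers u := by
    rw [mem_powers_iff_mem_zpowers, hu]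
    exact Normal.conj_mem ‹U.Normal› u (hu ▸ mem_zpowers u) g
  obtain ⟨q, hq⟩ := hmem
  simp only at hq
  have hall : ∀ v ∈ U, g * v * g⁻¹ = v ^ q := by
    intro v hv
    rw [← hu, mem_zpowers_iff] at hv
    obtain ⟨k, rfl⟩ := hv
    rw [← conj_zpow, ← hq, ← zpow_natCast, ← zpow_natCast, ← zpow_mul, ← zpow_mul, mul_comm]
  refine ⟨q, ?_, hall⟩
  obtain ⟨K, hK⟩ := hG g
  have hiter : ∀ t : ℕ, g ^ t * u * (g ^ t)⁻¹ = u ^ (q ^ t) := by
    intro t
    induction t with
    | zero => simp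
    | succ t ih =>
      rw [pow_succ' g, mul_inv_rev, pow_succ q, pow_mul, ← hall (u ^ (q ^ t)) (hu ▸ pow_mem (mem_zpowers u) _), ← ih]
      group
  have h1 := hiter (p ^ K)
  rw [hK, one_mul, inv_one, mul_one] at h1
  have hpu : p ∣ orderOf u := by
    obtain ⟨k, hk⟩ := IsPGroup.iff_orderOf.1 hG u
    rw [hk]
    exact dvd_pow_self p (fun h => hu1 (orderOf_eq_one_iff.1 (by rw [hk, h, pow_zero])))
  have h2 : 1 ≡ q ^ (p ^ K) [MOD orderOf u] := pow_eq_pow_iff_modEq.1 (by rw [pow_one]; exact h1)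
  have h3 := (h2.of_dvd hpu).symm
  rw [← ZMod.natCast_eq_natCast_iff] at h3 ⊢
  push_cast at h3 ⊢
  rwa [ZMod.pow_card_pow] at h3

omit [Finite G] hp in
theorem mul_pow_geomSum {v g : G} {q : ℕ} (h : g * v * g⁻¹ = v ^ q) (k : ℕ) :
    (v * g) ^ k = v ^ geomSum q k * g ^ k := by
  have hgv : ∀ i : ℕ, g * v ^ i = v ^ (q * i) * g := by
    intro i
    rw [pow_mul, ← h, conj_pow]; group
  induction k with
  | zero => simp [geomSum]
  | succ k ih =>
    have hS : geomSum q (k + 1) = 1 + q * geomSum q k := by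
      simp only [geomSum, Finset.sum_range_succ', pow_zero, Finset.mul_sum]
      rw [add_comm]
      congr 1
      exact Finset.sum_congr rfl fun t _ => by rw [pow_succ']
    rw [pow_succ', ih, hS, pow_add, pow_one, pow_succ' g]
    calc v * g * (v ^ geomSum q k * g ^ k) = v * (g * v ^ geomSum q k) * g ^ k := by group
      _ = _ := by rw [hgv]; group

theorem exists_mul_pow_ppow (hp2 : p ≠ 2) (hG : IsPGroup p G) (U : Subgroup G) [U.Normal]
    (hU : IsCyclic U) {v : G} (hv : v ∈ U) (g : G) (e : ℕ) :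
    ∃ s, ¬ p ∣ s ∧ (v * g) ^ (p ^ e) = v ^ (p ^ e * s) * g ^ (p ^ e) := by
  obtain ⟨q, hq, hall⟩ := exists_conj_pow hG U hU g
  obtain ⟨s, hs, hse⟩ := geomSum_ppow hp2 hq e
  exact ⟨s, hs, by rw [mul_pow_geomSum (hall v hv), hse]⟩

theorem commute_pow_iff (hp2 : p ≠ 2) (hG : IsPGroup p G) (U : Subgroup G) [U.Normal]
    (hU : IsCyclic U) {g h : G} (hc : g * h * g⁻¹ * h⁻¹ ∈ U) (e : ℕ) :
    Commute g (h ^ (p ^ e)) ↔ (g * h * g⁻¹ * h⁻¹) ^ (p ^ e) = 1 := by
  obtain ⟨s, hs, hse⟩ := exists_mul_pow_ppow hp2 hG U hU hc h e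
  rw [inv_mul_cancel_right, conj_pow] at hse
  rw [← pow_ppow_mul_eq_one_iff hG _ e hs]
  constructor
  · intro hco
    rw [hco.eq, mul_inv_cancel_right] at hse
    exact mul_eq_right.1 hse.symm
  · intro h1
    rw [h1, one_mul] at hse
    show g * h ^ (p ^ e) = h ^ (p ^ e) * g
    conv_rhs => rw [← hse]
    group

theorem commute_pow_iff_dvd (hp2 : p ≠ 2) (hG : IsPGroup p G) (U : Subgroup G) [U.Normal]
    (hU : IsCyclic U) {g h : G} (hc : g * h * g⁻¹ * h⁻¹ ∈ U) {n : ℕ}
    (hn : orderOf (g * h * g⁻¹ * h⁻¹) = p ^ n) (b : ℕ) :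
    Commute g (h ^ b) ↔ p ^ n ∣ b := by
  constructor
  · intro hco
    obtain ⟨k, hk⟩ := IsPGroup.iff_orderOf.1 hG h
    obtain ⟨e, -, he⟩ := (Nat.dvd_prime_pow hp.out).1 (Nat.gcd_dvd_right b (p ^ k))
    have hgcd : Commute g (h ^ (p ^ e)) := by
      rw [← he, ← zpow_natCast, Nat.gcd_eq_gcd_ab, zpow_add, zpow_mul, zpow_mul, zpow_natCast,
        zpow_natCast, ← hk, pow_orderOf_eq_one, one_zpow, mul_one]
      exact hco.zpow_right _
    have h1 := (commute_pow_iff hp2 hG U hU hc e).1 hgcd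
    rw [← orderOf_dvd_iff_pow_eq_one, hn, ← he] at h1
    exact h1.trans (Nat.gcd_dvd_left _ _)
  · rintro ⟨d, rfl⟩
    rw [pow_mul]
    refine Commute.pow_right ?_ d
    rw [commute_pow_iff hp2 hG U hU hc, ← hn, pow_orderOf_eq_one]

/-! ### The structure data -/

/-- A presentation `G = ⟨u⟩⟨x⟩` of a metacyclic group, with `|G'| = p ^ n`. -/
structure Data (G : Type*) [Group G] (p : ℕ) where
  u : G
  x : G
  normal : (zpowers u).Normal
  gen : ∀ g : G, ∃ i j : ℕ, g = u ^ i * x ^ j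
  n : ℕ
  ord : orderOf (x * u * x⁻¹ * u⁻¹) = p ^ n

theorem nonempty_data (hG : IsPGroup p G) (hmc : Cfsg.IsMetacyclic G) : Nonempty (Data G p) := by
  obtain ⟨U, hUn, hUc, hQc⟩ := hmc
  obtain ⟨u, hu⟩ := (Subgroup.isCyclic_iff_exists_zpowers_eq_top U).1 hUc
  obtain ⟨x', hx'⟩ := hQc.exists_generator
  obtain ⟨x, rfl⟩ := QuotientGroup.mk_surjective x'
  obtain ⟨n, hn⟩ := IsPGroup.iff_orderOf.1 hG (x * u * x⁻¹ * u⁻¹)
  refine ⟨⟨u, x, hu ▸ hUn, fun g => ?_, n, hn⟩⟩
  obtain ⟨j, hj⟩ := mem_powers_iff_mem_zpowers.2 (hx' (g : G ⧸ U))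
  simp only at hj
  rw [← QuotientGroup.mk_pow] at hj
  have hmem : g * (x ^ j)⁻¹ ∈ U := by
    rw [← QuotientGroup.eq_one_iff, QuotientGroup.mk_mul, QuotientGroup.mk_inv, hj, mul_inv_cancel]
  rw [← hu, ← mem_powers_iff_mem_zpowers] at hmem
  obtain ⟨i, hi⟩ := hmem
  simp only at hi
  exact ⟨i, j, by rw [hi]; group⟩

namespace Data

variable (D : Data G p) (hp2 : p ≠ 2) (hG : IsPGroup p G)

/-- The basic commutator, a generator of the derived subgroup. -/
def c : G := D.x * D.u * D.x⁻¹ * D.u⁻¹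

omit [Finite G] hp in
theorem c_mem : D.c ∈ zpowers D.u :=
  mul_mem (D.normal.conj_mem _ (mem_zpowers _) _) (inv_mem (mem_zpowers _))

omit [Finite G] hp in
theorem isCyclic_zpowers : IsCyclic (zpowers D.u) := inferInstance

omit [Finite G] hp in
theorem conj_u_pow (d : ℕ) : D.x * D.u ^ d * D.x⁻¹ * (D.u ^ d)⁻¹ = D.c ^ d := by
  have h1 : Commute D.c D.u := by
    obtain ⟨k, hk⟩ := mem_zpowers_iff.1 D.c_mem
    rw [← hk]; exact (Commute.refl _).zpow_left k
  have h2 : D.x * D.u * D.x⁻¹ = D.c * D.u := by rw [c]; group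
  rw [← conj_pow, h2, h1.mul_pow, mul_inv_cancel_right]

include D hp2 hG in
theorem commute_u_x_pow_iff (b : ℕ) : Commute D.u (D.x ^ b) ↔ p ^ D.n ∣ b := by
  haveI := D.normal
  have hc : D.u * D.x * D.u⁻¹ * D.x⁻¹ = D.c⁻¹ := by rw [c]; group
  exact commute_pow_iff_dvd hp2 hG _ D.isCyclic_zpowers (hc ▸ inv_mem D.c_mem)
    (by rw [hc, orderOf_inv]; exact D.ord) b

include D hp2 hG in
theorem commute_x_u_pow_iff (a : ℕ) : Commute D.x (D.u ^ a) ↔ p ^ D.n ∣ a := by
  haveI := D.normal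
  exact commute_pow_iff_dvd hp2 hG _ D.isCyclic_zpowers D.c_mem D.ord a

include D hp2 hG in
theorem commute_u_pow_x_pow_iff (γ d : ℕ) :
    Commute (D.u ^ d) (D.x ^ (p ^ γ)) ↔ p ^ D.n ∣ d * p ^ γ := by
  haveI := D.normal
  have hc : D.u ^ d * D.x * (D.u ^ d)⁻¹ * D.x⁻¹ = (D.c ^ d)⁻¹ := by
    rw [← D.conj_u_pow]; group
  rw [commute_pow_iff hp2 hG _ D.isCyclic_zpowers (hc ▸ inv_mem (pow_mem D.c_mem d)), hc, inv_pow,
    inv_eq_one, ← pow_mul, ← orderOf_dvd_iff_pow_eq_one, c, D.ord]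

include D hp2 hG in
theorem mem_center_iff (a b : ℕ) :
    D.u ^ a * D.x ^ b ∈ center G ↔ p ^ D.n ∣ a ∧ p ^ D.n ∣ b := by
  rw [← D.commute_x_u_pow_iff hp2 hG, ← D.commute_u_x_pow_iff hp2 hG, Subgroup.mem_center_iff]
  constructor
  · intro h
    have hu : Commute D.u (D.u ^ a * D.x ^ b) := h D.u
    have hx : Commute D.x (D.u ^ a * D.x ^ b) := h D.x
    have hx' := hx.mul_right (((Commute.refl D.x).pow_right b).inv_right)
    rw [mul_inv_cancel_right] at hx'
    have hu' := ((Commute.refl D.u).pow_right a).inv_right.mul_right hu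
    rw [inv_mul_cancel_left] at hu'
    exact ⟨hx', hu'⟩
  · rintro ⟨hx, hu⟩ g
    obtain ⟨i, j, rfl⟩ := D.gen g
    have h1 : Commute D.u (D.u ^ a * D.x ^ b) := ((Commute.refl D.u).pow_right a).mul_right hu
    have h2 : Commute D.x (D.u ^ a * D.x ^ b) := hx.mul_right ((Commute.refl D.x).pow_right b)
    exact ((h1.pow_left i).mul_left (h2.pow_left j)).eq

/-- The image of `u` in `G / Z(G)`. -/
def ub : G ⧸ center G := D.u
/-- The image of `x` in `G / Z(G)`. -/
def xb : G ⧸ center G := D.x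

include D hp2 hG in
theorem mk_eq_one_iff (a b : ℕ) : D.ub ^ a * D.xb ^ b = 1 ↔ p ^ D.n ∣ a ∧ p ^ D.n ∣ b := by
  rw [← D.mem_center_iff hp2 hG, ub, xb, ← QuotientGroup.mk_pow, ← QuotientGroup.mk_pow,
    ← QuotientGroup.mk_mul, QuotientGroup.eq_one_iff]

include D hp2 hG in
theorem orderOf_ub : orderOf D.ub = p ^ D.n := by
  refine Nat.dvd_antisymm (orderOf_dvd_of_pow_eq_one ?_) ?_
  · simpa using (D.mk_eq_one_iff hp2 hG (p ^ D.n) 0).2 ⟨dvd_rfl, dvd_zero _⟩
  · exact ((D.mk_eq_one_iff hp2 hG (orderOf D.ub) 0).1 (by simp [pow_orderOf_eq_one])).1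

include D hp2 hG in
theorem orderOf_xb : orderOf D.xb = p ^ D.n := by
  refine Nat.dvd_antisymm (orderOf_dvd_of_pow_eq_one ?_) ?_
  · simpa using (D.mk_eq_one_iff hp2 hG 0 (p ^ D.n)).2 ⟨dvd_zero _, dvd_rfl⟩
  · exact ((D.mk_eq_one_iff hp2 hG 0 (orderOf D.xb)).1 (by simp [pow_orderOf_eq_one])).2

include D hp2 hG in
theorem disjoint_zpowers_bar : Disjoint (zpowers D.ub) (zpowers D.xb) := by
  rw [Subgroup.disjoint_def]
  intro w h1 h2
  obtain ⟨a, ha⟩ := mem_powers_iff_mem_zpowers.2 h1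
  obtain ⟨b, hb⟩ := mem_powers_iff_mem_zpowers.2 ((zpowers D.xb).inv_mem h2)
  simp only at ha hb
  have := (D.mk_eq_one_iff hp2 hG a b).1 (by rw [ha, hb, mul_inv_cancel])
  rw [← ha, ← orderOf_dvd_iff_pow_eq_one, D.orderOf_ub hp2 hG]
  exact this.1

omit [Finite G] hp in
theorem gen_bar (w : G ⧸ center G) : ∃ a b : ℕ, w = D.ub ^ a * D.xb ^ b := by
  obtain ⟨g, rfl⟩ := QuotientGroup.mk_surjective w
  obtain ⟨i, j, rfl⟩ := D.gen g
  exact ⟨i, j, by rw [ub, xb, ← QuotientGroup.mk_pow, ← QuotientGroup.mk_pow, ← QuotientGroup.mk_mul]⟩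

include D hp2 hG in
theorem index_center : (center G).index = (p ^ D.n) ^ 2 := by
  show Nat.card (G ⧸ center G) = _
  rw [← Nat.card_eq_of_bijective (fun w : zpowers D.ub × zpowers D.xb => (w.1 : G ⧸ center G) * w.2)
    ⟨Subgroup.mul_injective_of_disjoint (D.disjoint_zpowers_bar hp2 hG), fun w => ?_⟩,
    Nat.card_prod, Nat.card_zpowers, Nat.card_zpowers, D.orderOf_ub hp2 hG, D.orderOf_xb hp2 hG, sq]
  obtain ⟨a, b, rfl⟩ := D.gen_bar w
  exact ⟨(⟨_, pow_mem (mem_zpowers _) a⟩, ⟨_, pow_mem (mem_zpowers _) b⟩), rfl⟩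

include D hG in
theorem commutator_eq : commutator G = zpowers D.c := by
  haveI := D.normal
  haveI hCn : (zpowers D.c).Normal := by
    refine ⟨fun w hw g => ?_⟩
    obtain ⟨q, -, hq⟩ := exists_conj_pow hG _ D.isCyclic_zpowers g
    obtain ⟨k, rfl⟩ := mem_zpowers_iff.1 hw
    rw [hq _ (zpow_mem D.c_mem k)]
    exact pow_mem (zpow_mem (mem_zpowers _) k) q
  apply le_antisymm
  · rw [commutator_def, commutator_le]
    intro g _ h _
    rw [← QuotientGroup.eq_one_iff]
    have hc : Commute (D.x : G ⧸ zpowers D.c) (D.u : G ⧸ zpowers D.c) := by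
      have h1 : (D.c : G ⧸ zpowers D.c) = 1 := (QuotientGroup.eq_one_iff _).2 (mem_zpowers _)
      have h2 : D.x * D.u = D.c * (D.u * D.x) := by rw [c]; group
      show (D.x : G ⧸ zpowers D.c) * D.u = D.u * D.x
      rw [← QuotientGroup.mk_mul, h2, QuotientGroup.mk_mul, h1, one_mul, QuotientGroup.mk_mul]
    obtain ⟨i, j, rfl⟩ := D.gen g
    obtain ⟨k, l, rfl⟩ := D.gen h
    have hcomm : Commute ((D.u ^ i * D.x ^ j : G) : G ⧸ zpowers D.c) ((D.u ^ k * D.x ^ l : G) : G ⧸ zpowers D.c) := by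
      simp only [QuotientGroup.mk_mul, QuotientGroup.mk_pow]
      exact ((((Commute.refl _).pow_pow i k).mul_right (hc.symm.pow_pow i l))).mul_left
        ((hc.pow_pow j k).mul_right ((Commute.refl _).pow_pow j l))
    rw [← QuotientGroup.mk'_apply, map_commutatorElement]
    exact commutatorElement_eq_one_iff_commute.2 hcomm
  · rw [zpowers_le, c, ← commutatorElement_def]
    exact commutator_mem_commutator (mem_top _) (mem_top _)

include D hG in
theorem card_commutator : Nat.card (commutator G) = p ^ D.n := by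
  rw [D.commutator_eq hG, Nat.card_zpowers]; exact D.ord

include D hG in
theorem index_commutator : (commutator G).index * p ^ D.n = Nat.card G := by
  rw [← D.card_commutator hG, index_mul_card]

include D hp2 hG in
theorem card_center : Nat.card (center G) * (p ^ D.n) ^ 2 = Nat.card G := by
  rw [← D.index_center hp2 hG]; exact card_mul_index _

/-! ### Subgroups -/

include D hG in
theorem exists_decomp (L : Subgroup G) :
    ∃ (γ δ : ℕ) (y : G), y ∈ L ∧ (∃ v ∈ zpowers D.u, y = v * D.x ^ (p ^ γ)) ∧ D.u ^ (p ^ δ) ∈ L ∧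
      (∀ l ∈ L, ∃ a b : ℕ, l = (D.u ^ (p ^ δ)) ^ a * y ^ b) ∧ L.index = p ^ (γ + δ) := by
  classical
  haveI := D.normal
  set f := QuotientGroup.mk' (zpowers D.u) with hf
  have hgenQ : ∀ w : G ⧸ zpowers D.u, w ∈ zpowers (f D.x) := by
    intro w
    obtain ⟨g, rfl⟩ := QuotientGroup.mk'_surjective _ w
    obtain ⟨i, j, rfl⟩ := D.gen g
    have h1 : f (D.u ^ i) = 1 := (QuotientGroup.eq_one_iff _).2 (pow_mem (mem_zpowers _) i)
    rw [map_mul, h1, one_mul, map_pow]
    exact pow_mem (mem_zpowers _) j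
  -- the image of `L`
  obtain ⟨ox, hox⟩ := IsPGroup.iff_orderOf.1 (hG.to_quotient (zpowers D.u)) (f D.x)
  obtain ⟨ou, hou⟩ := IsPGroup.iff_orderOf.1 hG D.u
  have key : ∀ {H : Type _} [Group H] [Finite H] (a : H) (k : ℕ) (S : Subgroup H), orderOf a = p ^ k →
      S ≤ zpowers a → ∃ e, S = zpowers (a ^ (p ^ e)) ∧ e ≤ k := by
    intro H _ _ a k S hk hS
    haveI : IsCyclic S := isCyclic_of_injective (Subgroup.inclusion hS) (Subgroup.inclusion_injective hS)
    obtain ⟨s, hs⟩ := (Subgroup.isCyclic_iff_exists_zpowers_eq_top S).1 ‹_›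
    obtain ⟨i, hi⟩ := mem_powers_iff_mem_zpowers.2 (hS (hs ▸ mem_zpowers s))
    simp only at hi
    obtain ⟨e, hek, he⟩ := (Nat.dvd_prime_pow hp.out).1 (Nat.gcd_dvd_right i (p ^ k))
    refine ⟨e, ?_, hek⟩
    rw [← hs, ← hi, ← he]
    apply le_antisymm <;> rw [zpowers_le, mem_zpowers_iff]
    · obtain ⟨t, ht⟩ := Nat.gcd_dvd_left i (p ^ k)
      exact ⟨(t : ℤ), by rw [zpow_natCast, ← pow_mul, ← ht]⟩
    · refine ⟨Nat.gcdA i (p ^ k), ?_⟩
      rw [← zpow_natCast a (Nat.gcd i (p ^ k)), Nat.gcd_eq_gcd_ab, zpow_add, zpow_mul, zpow_mul,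
        zpow_natCast, zpow_natCast, ← hk, pow_orderOf_eq_one, one_zpow, mul_one]
  obtain ⟨γ, hγ, hγle⟩ := key (f D.x) ox (L.map f) hox (fun w _ => hgenQ w)
  obtain ⟨δ, hδ, hδle⟩ := key D.u ou (L ⊓ zpowers D.u) hou inf_le_right
  have hγmem : f D.x ^ (p ^ γ) ∈ L.map f := hγ ▸ mem_zpowers _
  obtain ⟨y, hy, hyf⟩ := hγmem
  replace hy : y ∈ L := hy
  have hv : y * (D.x ^ (p ^ γ))⁻¹ ∈ zpowers D.u := by
    rw [← QuotientGroup.eq_one_iff, ← QuotientGroup.mk'_apply, ← hf, map_mul, map_inv, hyf, map_pow,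
      mul_inv_cancel]
  have hu : D.u ^ (p ^ δ) ∈ L ⊓ zpowers D.u := hδ ▸ mem_zpowers _
  refine ⟨γ, δ, y, hy, ⟨_, hv, by group⟩, hu.1, ?_, ?_⟩
  · intro l hl
    have hlf : f l ∈ Submonoid.powers (f D.x ^ (p ^ γ)) :=
      mem_powers_iff_mem_zpowers.2 (hγ ▸ mem_map_of_mem f hl)
    obtain ⟨b, hb⟩ := hlf
    simp only at hb
    rw [← hyf, ← map_pow] at hb
    have hmem : l * (y ^ b)⁻¹ ∈ L ⊓ zpowers D.u := by
      refine Subgroup.mem_inf.2 ⟨L.mul_mem hl (L.inv_mem (L.pow_mem hy b)), ?_⟩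
      show l * (y ^ b)⁻¹ ∈ zpowers D.u
      rw [← QuotientGroup.eq_one_iff, ← QuotientGroup.mk'_apply, ← hf, map_mul, map_inv, hb,
        mul_inv_cancel]
    rw [hδ, ← mem_powers_iff_mem_zpowers] at hmem
    obtain ⟨a, ha⟩ := hmem
    simp only at ha
    exact ⟨a, b, by rw [ha]; group⟩
  · have h1 : Nat.card (G ⧸ zpowers D.u) = p ^ ox := by
      rw [← hox, ← Nat.card_zpowers]
      exact Nat.card_congr ((Equiv.subtypeUnivEquiv hgenQ).symm)
    have h2 : Nat.card (L.map f) * p ^ γ = p ^ ox := by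
      rw [hγ, Nat.card_zpowers, orderOf_pow, hox, Nat.gcd_eq_right (pow_dvd_pow p hγle),
        Nat.div_mul_cancel (pow_dvd_pow p hγle)]
    have h3 : Nat.card ↥(L ⊓ zpowers D.u) * p ^ δ = p ^ ou := by
      rw [hδ, Nat.card_zpowers, orderOf_pow, hou, Nat.gcd_eq_right (pow_dvd_pow p hδle),
        Nat.div_mul_cancel (pow_dvd_pow p hδle)]
    have h4 : Nat.card ↥(L ⊓ zpowers D.u) * Nat.card (L.map f) = Nat.card L := by
      have hh := card_mul_index ((zpowers D.u).subgroupOf L)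
      have e1 : Nat.card ↥((zpowers D.u).subgroupOf L) = Nat.card ↥(L ⊓ zpowers D.u) := by
        rw [← inf_subgroupOf_left]
        exact Nat.card_congr (subgroupOfEquivOfLe inf_le_left).toEquiv
      have e2 : ((zpowers D.u).subgroupOf L).index = Nat.card (L.map f) := by
        show (zpowers D.u).relIndex L = _
        rw [hf, ← relIndex_ker, QuotientGroup.ker_mk']
      rwa [e1, e2] at hh
    have h5 : p ^ ox * p ^ ou = Nat.card G := by
      rw [← h1, ← hou, ← Nat.card_zpowers]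
      exact (card_eq_card_quotient_mul_card_subgroup _).symm
    refine mul_left_cancel₀ (Nat.card_pos (α := L)).ne' ?_
    rw [card_mul_index, ← h5, ← h2, ← h3, ← h4, pow_add]
    ring

include D hp2 hG in
/-- A subgroup of index `p ^ k` has derived subgroup of order `p ^ (n - k)`. -/
theorem exists_subData (L : Subgroup G) :
    ∃ (k : ℕ) (D' : Data L p), L.index = p ^ k ∧ D'.n = D.n - k := by
  haveI := D.normal
  obtain ⟨γ, δ, y, hy, ⟨v, hv, hyv⟩, hu, hgen, hidx⟩ := D.exists_decomp hG L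
  have hconj : ∀ g : G, ∀ w ∈ zpowers (D.u ^ (p ^ δ)), g * w * g⁻¹ ∈ zpowers (D.u ^ (p ^ δ)) := by
    intro g w hw
    obtain ⟨q, -, hq⟩ := exists_conj_pow hG _ D.isCyclic_zpowers g
    obtain ⟨k, rfl⟩ := mem_zpowers_iff.1 hw
    rw [hq _ (zpow_mem (pow_mem (mem_zpowers _) _) k)]
    exact pow_mem (zpow_mem (mem_zpowers _) k) q
  set c' := y * D.u ^ (p ^ δ) * y⁻¹ * (D.u ^ (p ^ δ))⁻¹ with hc'
  have hc'mem : c' ∈ zpowers D.u :=
    mul_mem (D.normal.conj_mem _ (pow_mem (mem_zpowers _) _) _) (inv_mem (pow_mem (mem_zpowers _) _))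
  have hiff : ∀ e : ℕ, c' ^ (p ^ e) = 1 ↔ D.n - (γ + δ) ≤ e := by
    intro e
    rw [← commute_pow_iff hp2 hG _ D.isCyclic_zpowers hc'mem, ← pow_mul, ← pow_add, hyv]
    have hvu : ∀ i : ℕ, Commute v (D.u ^ i) := by
      intro i
      obtain ⟨k, rfl⟩ := mem_zpowers_iff.1 hv
      exact ((Commute.refl D.u).zpow_left k).pow_right i
    have h2 : Commute (v * D.x ^ (p ^ γ)) (D.u ^ (p ^ (δ + e))) ↔
        Commute (D.u ^ (p ^ (δ + e))) (D.x ^ (p ^ γ)) := by
      refine ⟨fun h => ?_, fun h => (hvu _).mul_left h.symm⟩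
      have := ((hvu (p ^ (δ + e))).inv_left).mul_left h
      rw [inv_mul_cancel_left] at this
      exact this.symm
    rw [h2, D.commute_u_pow_x_pow_iff hp2 hG, ← pow_add, Nat.pow_dvd_pow_iff_le_right hp.out.one_lt]
    omega
  have hord : orderOf c' = p ^ (D.n - (γ + δ)) := by
    refine Nat.dvd_antisymm (orderOf_dvd_of_pow_eq_one ((hiff _).2 le_rfl)) ?_
    obtain ⟨e, he⟩ := IsPGroup.iff_orderOf.1 hG c'
    rw [he]
    exact pow_dvd_pow p ((hiff e).1 (by rw [← he, pow_orderOf_eq_one]))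
  let u' : L := ⟨D.u ^ (p ^ δ), hu⟩
  let y' : L := ⟨y, hy⟩
  refine ⟨γ + δ, ⟨u', y', ⟨fun w hw g => ?_⟩, fun g => ?_, D.n - (γ + δ), ?_⟩, hidx, rfl⟩
  · obtain ⟨k, rfl⟩ := mem_zpowers_iff.1 hw
    obtain ⟨k', hk'⟩ := mem_zpowers_iff.1 (hconj g _ (zpow_mem (mem_zpowers _) k))
    exact mem_zpowers_iff.2 ⟨k', Subtype.ext (by simpa [u'] using hk')⟩
  · obtain ⟨a, b, hab⟩ := hgen g g.2
    exact ⟨a, b, Subtype.ext (by simpa [u', y'] using hab)⟩
  · rw [← orderOf_coe]
    simpa [u', y'] using hord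

include D hp2 hG in
theorem isMulCommutative_iff (L : Subgroup G) :
    IsMulCommutative L ↔ p ^ D.n ≤ L.index := by
  obtain ⟨k, D', hk, hn⟩ := D.exists_subData hp2 hG L
  have hL := hG.to_subgroup L
  rw [hk, Nat.pow_le_pow_iff_right hp.out.one_lt]
  have h1 := D'.index_center hp2 hL
  constructor
  · intro hcomm
    have htop : center L = ⊤ := by
      rw [eq_top_iff]
      intro z _
      exact Subgroup.mem_center_iff.2 fun w => mul_comm' w z
    rw [htop, index_top, ← pow_mul] at h1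
    have := (pow_eq_one_iff.1 h1.symm).resolve_left hp.out.one_lt.ne'
    omega
  · intro hle
    have h0 : D'.n = 0 := by omega
    rw [h0, pow_zero, one_pow, index_eq_one] at h1
    exact ⟨⟨fun a b => (Subgroup.mem_center_iff.1 (h1 ▸ mem_top b) a)⟩⟩

include D hp2 hG in
theorem card_mul_card_center (L : Subgroup G) :
    Nat.card L * Nat.card (center L) = if p ^ D.n ≤ L.index then Nat.card L ^ 2
      else (commutator G).index ^ 2 := by
  obtain ⟨k, D', hk, hn⟩ := D.exists_subData hp2 hG L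
  have h1 := D'.card_center hp2 (hG.to_subgroup L)
  have h2 : Nat.card L * p ^ k = Nat.card G := by rw [← hk]; exact card_mul_index L
  split_ifs with hle
  · rw [hk, Nat.pow_le_pow_iff_right hp.out.one_lt] at hle
    rw [hn, Nat.sub_eq_zero_of_le hle, pow_zero, one_pow, mul_one] at h1
    rw [h1, sq]
  · rw [hk, Nat.pow_le_pow_iff_right hp.out.one_lt, not_le] at hle
    have h3 := D.index_commutator hG
    obtain ⟨d, hd⟩ := Nat.exists_eq_add_of_le hle.le
    rw [hn, show D.n - k = d by omega] at h1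
    rw [hd, pow_add, ← h2] at h3
    have h4 : (commutator G).index * p ^ d = Nat.card L :=
      mul_right_cancel₀ (pow_ne_zero k hp.out.ne_zero) (by rw [← h3]; ring)
    have h5 : 0 < (p ^ d) ^ 2 := pow_pos (pow_pos hp.out.pos d) 2
    refine mul_right_cancel₀ h5.ne' ?_
    rw [mul_assoc, h1, ← mul_pow, h4, sq]

/-! ### Centralizers -/

include D hp2 hG in
theorem card_mul_card_centralizer_le {R R' : Subgroup G} (hle : R ≤ R') :
    Nat.card R * Nat.card (centralizer (R : Set G)) ≤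
      Nat.card R' * Nat.card (centralizer (R' : Set G)) := by
  haveI := D.normal
  classical
  induction hm : R'.index + (Nat.card G - Nat.card R) using Nat.strong_induction_on generalizing R with
  | _ m ih =>
  by_cases heq : R = R'
  · subst heq; exact le_rfl
  -- a subgroup `K` with `R` normal of index `p` in it
  obtain ⟨a, ha⟩ := IsPGroup.iff_card.1 (hG.to_subgroup R)
  obtain ⟨a', ha'⟩ := IsPGroup.iff_card.1 (hG.to_subgroup R')
  have hlt : a < a' := by
    have h1 : Nat.card R < Nat.card R' := by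
      refine lt_of_le_of_ne (card_le_of_le hle) fun he => heq ?_
      exact Subgroup.eq_of_le_of_card_ge hle he.ge
    rw [ha, ha'] at h1
    exact (Nat.pow_lt_pow_iff_right hp.out.one_lt).1 h1
  have hR₁ : Nat.card (R.subgroupOf R') = p ^ a := by
    rw [Nat.card_congr (subgroupOfEquivOfLe hle).toEquiv, ha]
  obtain ⟨K₁, hK₁card, hK₁le⟩ := Sylow.exists_subgroup_card_pow_succ (G := R') (p := p) (n := a)
    (by rw [ha']; exact pow_dvd_pow p hlt) hR₁
  set K := K₁.map R'.subtype with hK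
  have hRK : R ≤ K := fun r hr => ⟨⟨r, hle hr⟩, hK₁le (mem_subgroupOf.2 hr), rfl⟩
  have hKR' : K ≤ R' := map_subtype_le K₁
  have hKcard : Nat.card K = p ^ (a + 1) := by
    rw [hK, ← hK₁card]
    exact (Nat.card_congr (K₁.equivMapOfInjective _ R'.subtype_injective).toEquiv).symm
  have hrel : R.relIndex K = p := by
    have := card_mul_index (R.subgroupOf K)
    rw [Nat.card_congr (subgroupOfEquivOfLe hRK).toEquiv, ha, hKcard, pow_succ] at this
    exact mul_left_cancel₀ (pow_ne_zero a hp.out.ne_zero) this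
  haveI hn : (R.subgroupOf K).Normal :=
    Subgroup.normal_of_index_eq_minFac_card (by
      rw [hKcard, Nat.pow_minFac (Nat.succ_ne_zero a), hp.out.minFac_eq]; exact hrel)
  obtain ⟨g, hgK, hgR⟩ : ∃ g ∈ K, g ∉ R := by
    by_contra h
    push Not at h
    have := card_le_of_le (show K ≤ R from h)
    rw [hKcard, ha, Nat.pow_le_pow_iff_right hp.out.one_lt] at this
    omega
  have hgp : g ^ p ∈ R := by
    have := (R.subgroupOf K).pow_index_mem ⟨g, hgK⟩
    rw [show (R.subgroupOf K).index = p from hrel, mem_subgroupOf] at this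
    exact this
  have hKeq : K = R ⊔ zpowers g := by
    have hle2 : R ⊔ zpowers g ≤ K := sup_le hRK (zpowers_le.2 hgK)
    refine (Subgroup.eq_of_le_of_card_ge hle2 ?_).symm
    obtain ⟨b, hb⟩ := IsPGroup.iff_card.1 (hG.to_subgroup (R ⊔ zpowers g))
    have h1 : Nat.card R < Nat.card ↥(R ⊔ zpowers g) := by
      refine lt_of_le_of_ne (card_le_of_le le_sup_left) fun he => hgR ?_
      rw [Subgroup.eq_of_le_of_card_ge le_sup_left he.ge]
      exact mem_sup_right (mem_zpowers g)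
    rw [ha, hb, Nat.pow_lt_pow_iff_right hp.out.one_lt] at h1
    rw [hKcard, hb]
    exact Nat.pow_le_pow_right hp.out.pos h1
  -- the index of `C(K)` in `C(R)` is at most `p`
  have hcomm : ∀ w : G, w * g * w⁻¹ * g⁻¹ ∈ zpowers D.u := by
    intro w
    have : w * g * w⁻¹ * g⁻¹ ∈ commutator G := commutator_mem_commutator (mem_top _) (mem_top _)
    rw [D.commutator_eq hG] at this
    exact zpowers_le.2 D.c_mem this
  have hCK : centralizer (K : Set G) = centralizer (R : Set G) ⊓ centralizer ({g} : Set G) := by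
    rw [hKeq]
    refine le_antisymm (le_inf (centralizer_le (SetLike.coe_subset_coe.2 le_sup_left))
      (centralizer_le (Set.singleton_subset_iff.2 (mem_sup_right (mem_zpowers g))))) ?_
    rintro w ⟨h1, h2⟩
    have hle3 : R ⊔ zpowers g ≤ centralizer ({w} : Set G) :=
      sup_le (fun r hr => mem_centralizer_singleton_iff.2 (h1 r hr))
        (zpowers_le.2 (mem_centralizer_singleton_iff.2 (mem_centralizer_singleton_iff.1 h2).symm))
    exact fun k hk => mem_centralizer_singleton_iff.1 (hle3 hk)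
  have hstep : (centralizer (K : Set G)).relIndex (centralizer (R : Set G)) ≤ p := by
    show ((centralizer (K : Set G)).subgroupOf (centralizer (R : Set G))).index ≤ p
    haveI := Fintype.ofFinite ↥(zpowers D.u)
    let S : Finset ↥(zpowers D.u) := Finset.univ.filter fun v => v ^ p = 1
    have hS : S.card ≤ p := IsCyclic.card_pow_eq_one_le hp.out.pos
    let φ : ↥(centralizer (R : Set G)) ⧸ (centralizer (K : Set G)).subgroupOf (centralizer (R : Set G)) → S :=
      Quotient.lift (fun w => ⟨⟨(w : G) * g * (w : G)⁻¹ * g⁻¹, hcomm _⟩, by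
        simp only [S, Finset.mem_filter, Finset.mem_univ, true_and]
        apply Subtype.ext
        have h := (commute_pow_iff hp2 hG _ D.isCyclic_zpowers (hcomm (w : G)) 1).1
          (by rw [pow_one]; exact ((w.2 _ hgp)).symm)
        rw [pow_one] at h
        simpa using h⟩) (by
        intro w w' hww
        rw [← Quotient.eq_iff_equiv] at hww
        have hmem := QuotientGroup.eq.1 hww
        rw [mem_subgroupOf, hCK] at hmem
        have h2 := mem_centralizer_singleton_iff.1 hmem.2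
        simp only [coe_mul, coe_inv] at h2
        apply Subtype.ext; apply Subtype.ext
        show (w : G) * g * (w : G)⁻¹ * g⁻¹ = (w' : G) * g * (w' : G)⁻¹ * g⁻¹
        calc (w : G) * g * (w : G)⁻¹ * g⁻¹
            = (w : G) * (g * ((w : G)⁻¹ * (w' : G))) * (w' : G)⁻¹ * g⁻¹ := by group
          _ = (w : G) * ((w : G)⁻¹ * (w' : G) * g) * (w' : G)⁻¹ * g⁻¹ := by rw [h2]
          _ = _ := by group)
    have hinj : Function.Injective φ := by
      intro q q'
      refine Quotient.inductionOn₂ q q' fun w w' h => ?_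
      apply QuotientGroup.eq.2
      rw [mem_subgroupOf, hCK]
      refine ⟨(w⁻¹ * w' : ↥(centralizer (R : Set G))).2, ?_⟩
      have h' := congrArg (fun z : S => (((z : ↥(zpowers D.u))) : G)) h
      simp only [φ, Quotient.lift_mk] at h'
      rw [mul_left_inj] at h'
      refine mem_centralizer_singleton_iff.2 ?_
      simp only [coe_mul, coe_inv]
      calc (w : G)⁻¹ * (w' : G) * g
          = (w : G)⁻¹ * ((w' : G) * g * (w' : G)⁻¹) * (w' : G) := by group
        _ = (w : G)⁻¹ * ((w : G) * g * (w : G)⁻¹) * (w' : G) := by rw [h']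
        _ = g * ((w : G)⁻¹ * (w' : G)) := by group
    exact (Nat.card_le_card_of_injective φ hinj).trans (by rw [Nat.card_eq_fintype_card, Fintype.card_coe]; exact hS)
  have hmul : Nat.card (centralizer (R : Set G)) ≤ p * Nat.card (centralizer (K : Set G)) := by
    have h1 := card_mul_index ((centralizer (K : Set G)).subgroupOf (centralizer (R : Set G)))
    rw [Nat.card_congr (subgroupOfEquivOfLe (hCK ▸ inf_le_left)).toEquiv] at h1
    rw [← h1, mul_comm p]
    exact Nat.mul_le_mul_left _ hstep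
  have hrec := ih (R'.index + (Nat.card G - Nat.card K)) (by
    have h1 : Nat.card K ≤ Nat.card G := card_le_card_group K
    have h2 : Nat.card R < Nat.card K := by
      rw [ha, hKcard]; exact Nat.pow_lt_pow_right hp.out.one_lt (Nat.lt_succ_self a)
    omega) hKR' rfl
  refine le_trans ?_ hrec
  rw [ha, hKcard, pow_succ, mul_assoc]
  exact Nat.mul_le_mul_left _ hmul

include D hp2 hG in
theorem card_mul_card_centralizer_of_center_le {R : Subgroup G} (hZ : center G ≤ R) :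
    Nat.card R * Nat.card (centralizer (R : Set G)) = Nat.card (center G) * Nat.card G := by
  have h1 := D.card_mul_card_centralizer_le hp2 hG hZ
  have h2 := D.card_mul_card_centralizer_le hp2 hG (le_top : R ≤ ⊤)
  rw [coe_top, centralizer_univ, card_top] at h2
  have h3 : centralizer (center G : Set G) = ⊤ := centralizer_eq_top_iff_subset.2 le_rfl
  rw [h3, card_top] at h1
  exact le_antisymm (h2.trans (mul_comm _ _).le) h1

include D hp2 hG in
theorem index_centralizer_singleton (g : G) :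
    (centralizer ({g} : Set G)).index = orderOf (g : G ⧸ center G) := by
  have hR := D.card_mul_card_centralizer_of_center_le hp2 hG
    (R := center G ⊔ zpowers g) le_sup_left
  have hC : centralizer ((center G ⊔ zpowers g : Subgroup G) : Set G) = centralizer ({g} : Set G) := by
    refine le_antisymm (centralizer_le (Set.singleton_subset_iff.2 (mem_sup_right (mem_zpowers g)))) ?_
    intro w hw
    have hle : center G ⊔ zpowers g ≤ centralizer ({w} : Set G) :=
      sup_le (fun z hz => mem_centralizer_singleton_iff.2 (Subgroup.mem_center_iff.1 hz w).symm)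
        (zpowers_le.2 (mem_centralizer_singleton_iff.2 (mem_centralizer_singleton_iff.1 hw).symm))
    exact fun k hk => mem_centralizer_singleton_iff.1 (hle hk)
  have hcard : Nat.card ↥(center G ⊔ zpowers g) =
      Nat.card (center G) * orderOf (g : G ⧸ center G) := by
    have h1 := card_mul_index ((center G).subgroupOf (center G ⊔ zpowers g))
    rw [Nat.card_congr (subgroupOfEquivOfLe le_sup_left).toEquiv] at h1
    rw [← h1]
    congr 1
    show (center G).relIndex _ = _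
    conv_lhs => rw [← QuotientGroup.ker_mk' (center G), relIndex_ker]
    rw [QuotientGroup.ker_mk', Subgroup.map_sup, QuotientGroup.map_mk'_self, bot_sup_eq, MonoidHom.map_zpowers,
      Nat.card_zpowers]
    rfl
  rw [hC, hcard, mul_assoc] at hR
  have h2 := mul_left_cancel₀ (Nat.card_pos (α := center G)).ne' hR
  have h3 := card_mul_index (centralizer ({g} : Set G))
  rw [← h2, mul_comm (orderOf _)] at h3
  exact mul_left_cancel₀ (Nat.card_pos (α := centralizer ({g} : Set G))).ne' h3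

include D hp2 hG in
/-- The order of `u ^ a * x ^ b` modulo the centre. -/
theorem mk_pow_eq_one_iff (a b i : ℕ) (hi : i ≤ D.n) :
    ((D.u ^ a * D.x ^ b : G) : G ⧸ center G) ^ (p ^ i) = 1 ↔ p ^ (D.n - i) ∣ a ∧ p ^ (D.n - i) ∣ b := by
  haveI := D.normal
  obtain ⟨s, hs, hse⟩ := exists_mul_pow_ppow hp2 hG _ D.isCyclic_zpowers
    (pow_mem (mem_zpowers D.u) a) (D.x ^ b) i
  rw [← QuotientGroup.mk_pow, hse, ← pow_mul, ← pow_mul, QuotientGroup.mk_mul,
    QuotientGroup.mk_pow, QuotientGroup.mk_pow, ← ub, ← xb, D.mk_eq_one_iff hp2 hG]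
  obtain ⟨d, hd⟩ := Nat.exists_eq_add_of_le hi
  rw [show D.n - i = d by omega, hd, pow_add]
  have hcop : (p ^ i * p ^ d).Coprime s := by
    rw [← pow_add]; exact (hp.out.coprime_iff_not_dvd.2 hs).pow_left _
  rw [← mul_assoc, hcop.dvd_mul_right, mul_comm a, mul_comm b, Nat.mul_dvd_mul_iff_left (pow_pos hp.out.pos i),
    Nat.mul_dvd_mul_iff_left (pow_pos hp.out.pos i)]

/-- The elements `u ^ a * x ^ b` with both exponents divisible by `p ^ s`. -/
def powSub (s : ℕ) : Subgroup G := zpowers (D.u ^ (p ^ s)) ⊔ zpowers (D.x ^ (p ^ s))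

include D hp2 hG in
theorem mem_powSub_iff {s : ℕ} (hs : s ≤ D.n) (g : G) :
    g ∈ D.powSub s ↔ (g : G ⧸ center G) ^ (p ^ (D.n - s)) = 1 := by
  haveI := D.normal
  haveI hn : (zpowers (D.u ^ (p ^ s))).Normal := by
    refine ⟨fun w hw g => ?_⟩
    obtain ⟨q, -, hq⟩ := exists_conj_pow hG _ D.isCyclic_zpowers g
    obtain ⟨k, rfl⟩ := mem_zpowers_iff.1 hw
    rw [hq _ (zpow_mem (pow_mem (mem_zpowers _) _) k)]
    exact pow_mem (zpow_mem (mem_zpowers _) k) q
  rw [powSub, mem_sup_of_normal_left]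
  constructor
  · rintro ⟨y, hy, z, hz, rfl⟩
    obtain ⟨a, rfl⟩ := mem_powers_iff_mem_zpowers.2 hy
    obtain ⟨b, rfl⟩ := mem_powers_iff_mem_zpowers.2 hz
    simp only [← pow_mul]
    rw [D.mk_pow_eq_one_iff hp2 hG _ _ _ (Nat.sub_le _ _), show D.n - (D.n - s) = s by omega]
    exact ⟨dvd_mul_right _ _, dvd_mul_right _ _⟩
  · intro h
    obtain ⟨a, b, rfl⟩ := D.gen g
    rw [D.mk_pow_eq_one_iff hp2 hG _ _ _ (Nat.sub_le _ _), show D.n - (D.n - s) = s by omega] at h
    obtain ⟨⟨a', rfl⟩, ⟨b', rfl⟩⟩ := h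
    exact ⟨_, pow_mem (mem_zpowers _) a', _, pow_mem (mem_zpowers _) b', by rw [← pow_mul, ← pow_mul]⟩

include D hp2 hG in
theorem mk_pow_exponent (g : G) : (g : G ⧸ center G) ^ (p ^ D.n) = 1 := by
  obtain ⟨a, b, rfl⟩ := D.gen g
  rw [D.mk_pow_eq_one_iff hp2 hG _ _ _ le_rfl]
  simp

include D hp2 hG in
theorem index_centralizer_le_iff {i : ℕ} (g : G) :
    (centralizer ({g} : Set G)).index ≤ p ^ i ↔ (g : G ⧸ center G) ^ (p ^ i) = 1 := by
  rw [D.index_centralizer_singleton hp2 hG]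
  obtain ⟨e, -, he⟩ := (Nat.dvd_prime_pow hp.out).1
    (orderOf_dvd_of_pow_eq_one (D.mk_pow_exponent hp2 hG g))
  rw [← orderOf_dvd_iff_pow_eq_one, he, Nat.pow_dvd_pow_iff_le_right hp.out.one_lt,
    Nat.pow_le_pow_iff_right hp.out.one_lt]

include D hp2 hG in
theorem closure_powers {s : ℕ} (hs : s ≤ D.n) :
    closure {z : G | ∃ y : G, y ^ p ^ s = z} = D.powSub s := by
  refine le_antisymm ((closure_le _).2 ?_) ?_
  · rintro z ⟨y, rfl⟩
    rw [SetLike.mem_coe, D.mem_powSub_iff hp2 hG hs, QuotientGroup.mk_pow, ← pow_mul, ← pow_add,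
      show s + (D.n - s) = D.n by omega]
    exact D.mk_pow_exponent hp2 hG y
  · exact sup_le (zpowers_le.2 (subset_closure ⟨D.u, rfl⟩)) (zpowers_le.2 (subset_closure ⟨D.x, rfl⟩))

include D hp2 hG in
theorem frattini_eq (hn : 1 ≤ D.n) : frattini G = D.powSub 1 := by
  refine le_antisymm (CfsgLib.PGroups.frattini_le_of (p := p) ?_ ?_) (sup_le ?_ ?_)
  · rw [D.commutator_eq hG, zpowers_le]
    haveI := D.normal
    obtain ⟨q, hq, hall⟩ := exists_conj_pow hG _ D.isCyclic_zpowers D.x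
    by_cases hu : D.u = 1
    · simp [c, hu]
    have hq0 : 1 ≤ q := by
      rcases Nat.eq_zero_or_pos q with rfl | h
      · exact absurd hq.symm (by simp [Nat.ModEq, Nat.one_mod_eq_one, hp.out.ne_one])
      · exact h
    obtain ⟨k, hk⟩ := (Nat.modEq_iff_dvd' hq0).1 hq.symm
    have : D.c = (D.u ^ (p ^ 1)) ^ k := by
      rw [pow_one, ← pow_mul, ← hk, pow_sub _ hq0, pow_one, ← hall _ (mem_zpowers _)]
      rfl
    rw [this, powSub]
    exact mem_sup_left (pow_mem (mem_zpowers _) k)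
  · intro z
    rw [← D.closure_powers hp2 hG hn]
    exact subset_closure ⟨z, by rw [pow_one]⟩
  · rw [zpowers_le, pow_one]; exact CfsgLib.PGroups.pow_mem_frattini hG _
  · rw [zpowers_le, pow_one]; exact CfsgLib.PGroups.pow_mem_frattini hG _

include D hp2 hG in
theorem card_pow_le (i : ℕ) (hi : i ≤ D.n) :
    Nat.card {g : G // (g : G ⧸ center G) ^ (p ^ i) = 1} = Nat.card (center G) * p ^ (2 * i) := by
  set T : Set (G ⧸ center G) := {w | w ^ (p ^ i) = 1} with hT
  have h1 : Nat.card {g : G // (g : G ⧸ center G) ^ (p ^ i) = 1} = Nat.card (center G) * Nat.card T := by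
    rw [← Nat.card_prod]
    exact Nat.card_congr (QuotientGroup.preimageMkEquivSubgroupProdSet (center G) T)
  rw [h1]
  congr 1
  have hmem : ∀ a b : ℕ, D.ub ^ a * D.xb ^ b ∈ T ↔ p ^ (D.n - i) ∣ a ∧ p ^ (D.n - i) ∣ b := by
    intro a b
    rw [← D.mk_pow_eq_one_iff hp2 hG a b i hi]
    simp [T, ub, xb]
  have hord : ∀ w : G ⧸ center G, orderOf w = p ^ D.n →
      Nat.card (zpowers (w ^ (p ^ (D.n - i)))) = p ^ i := by
    intro w hw
    rw [Nat.card_zpowers, orderOf_pow, hw, Nat.gcd_eq_right (pow_dvd_pow p (Nat.sub_le _ _)),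
      Nat.pow_div (Nat.sub_le _ _) hp.out.pos, show D.n - (D.n - i) = i by omega]
  have hbij : Function.Bijective
      (fun w : zpowers (D.ub ^ (p ^ (D.n - i))) × zpowers (D.xb ^ (p ^ (D.n - i))) =>
        (⟨(w.1 : G ⧸ center G) * w.2, by
          obtain ⟨⟨w1, h1⟩, ⟨w2, h2⟩⟩ := w
          obtain ⟨a, rfl⟩ := mem_powers_iff_mem_zpowers.2 h1
          obtain ⟨b, rfl⟩ := mem_powers_iff_mem_zpowers.2 h2
          simp only [← pow_mul]
          exact (hmem _ _).2 ⟨dvd_mul_right _ _, dvd_mul_right _ _⟩⟩ : T)) := by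
    constructor
    · intro w w' h
      have hd : Disjoint (zpowers (D.ub ^ (p ^ (D.n - i)))) (zpowers (D.xb ^ (p ^ (D.n - i)))) :=
        (D.disjoint_zpowers_bar hp2 hG).mono (zpowers_le.2 (pow_mem (mem_zpowers _) _))
          (zpowers_le.2 (pow_mem (mem_zpowers _) _))
      exact Subgroup.mul_injective_of_disjoint hd (congrArg Subtype.val h)
    · rintro ⟨w, hw⟩
      obtain ⟨a, b, rfl⟩ := D.gen_bar w
      obtain ⟨⟨a', rfl⟩, ⟨b', rfl⟩⟩ := (hmem a b).1 hw
      exact ⟨(⟨_, pow_mem (mem_zpowers _) a'⟩, ⟨_, pow_mem (mem_zpowers _) b'⟩),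
        Subtype.ext (by simp only [← pow_mul])⟩
  rw [← Nat.card_eq_of_bijective _ hbij, Nat.card_prod, hord _ (D.orderOf_ub hp2 hG),
    hord _ (D.orderOf_xb hp2 hG), ← pow_add, two_mul]

end Data

end CfsgLib.ClassK.MetacyclicOdd
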