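import Cfsg.Agent.Lib.ClassK.MetacyclicOdd

set_option autoImplicit false

/-!
Maximal abelian subgroups of a metacyclic `p`-group, `p` odd.
-/

namespace CfsgLib.ClassK.MetacyclicOdd

open Subgroup

variable {G : Type*} [Group G] [Finite G] {p : ℕ} [hp : Fact p.Prime]

theorem exists_card_between (_hG : IsPGroup p G) {L : Subgroup G} {e m : ℕ} (hem : e ≤ m)
    (he : Nat.card L = p ^ e) (hm : p ^ m ∣ Nat.card G) :
    ∃ K : Subgroup G, Nat.card K = p ^ m ∧ L ≤ K :=
  Sylow.exists_subgroup_card_pow_prime_le p hm L he hem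

theorem maximal_iff_card (D : Data G p) (hp2 : p ≠ 2) (hG : IsPGroup p G) (L : Subgroup G) :
    Maximal (fun K : Subgroup G => IsMulCommutative ↥K) L ↔ Nat.card ↥L = (commutator G).index := by
  have hidx := D.index_commutator hG
  have h3 : 0 < p ^ D.n := pow_pos hp.out.pos _
  have hiff : ∀ K : Subgroup G, IsMulCommutative ↥K ↔ Nat.card ↥K ≤ (commutator G).index := by
    intro K
    rw [D.isMulCommutative_iff hp2 hG]
    have h1 := Subgroup.card_mul_index K
    constructor
    · intro h
      refine Nat.le_of_mul_le_mul_right ?_ h3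
      rw [hidx, ← h1]; exact Nat.mul_le_mul_left _ h
    · intro h
      refine Nat.le_of_mul_le_mul_left ?_ (Nat.card_pos (α := K))
      rw [h1, ← hidx]; exact Nat.mul_le_mul_right _ h
  constructor
  · intro hmax
    have hle := (hiff L).1 hmax.prop
    obtain ⟨e, he⟩ := IsPGroup.iff_card.1 (hG.to_subgroup L)
    obtain ⟨N, hN⟩ := IsPGroup.iff_card.1 hG
    obtain ⟨m, -, hm⟩ := (Nat.dvd_prime_pow hp.out).1 (hN ▸ (index_dvd_card (commutator G)))
    rw [he, hm, Nat.pow_le_pow_iff_right hp.out.one_lt] at hle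
    obtain ⟨K, hKcard, hLK⟩ := exists_card_between hG hle he (hm ▸ (index_dvd_card (commutator G)))
    have hK : IsMulCommutative ↥K := (hiff K).2 (by rw [hKcard, hm])
    rw [le_antisymm hLK (hmax.2 hK hLK), hKcard, hm]
  · intro hcard
    refine ⟨(hiff L).2 hcard.le, fun K hK hLK => ?_⟩
    refine (Subgroup.eq_of_le_of_card_ge hLK ?_).ge
    rw [hcard]; exact (hiff K).1 hK

end CfsgLib.ClassK.MetacyclicOdd
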