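import Mathlib.GroupTheory.Sylow
import Mathlib.GroupTheory.Nilpotent
import Mathlib.GroupTheory.Commutator.Basic
import Mathlib.GroupTheory.Subgroup.Centralizer
import Mathlib.GroupTheory.Frattini

/-!
TI subgroups of p-groups: commutation lemmas.
-/

set_option autoImplicit false

namespace CfsgLib.ClassK

open Subgroup

section Basic
variable {G : Type*} [Group G]

/-- membership in a conjugate subgroup -/
theorem mem_conjMap_iff (A : Subgroup G) (g x : G) :
    x ∈ A.map (MulAut.conj g).toMonoidHom ↔ g⁻¹ * x * g ∈ A := by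
  rw [Subgroup.mem_map]
  constructor
  · rintro ⟨a, ha, rfl⟩
    simpa [MulAut.conj_apply, mul_assoc] using ha
  · intro h
    exact ⟨g⁻¹ * x * g, h, by simp [mul_assoc]⟩

theorem card_conjMap (A : Subgroup G) (g : G) :
    Nat.card ↥(A.map (MulAut.conj g).toMonoidHom) = Nat.card ↥A :=
  Nat.card_congr (A.equivMapOfInjective _ (MulAut.conj g).injective).toEquiv.symm

theorem conjMap_conjMap (A : Subgroup G) (g h : G) :
    (A.map (MulAut.conj g).toMonoidHom).map (MulAut.conj h).toMonoidHom =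
      A.map (MulAut.conj (h * g)).toMonoidHom := by
  ext x
  simp only [mem_conjMap_iff, mul_inv_rev]
  simp [mul_assoc]

theorem conjMap_one (A : Subgroup G) : A.map (MulAut.conj (1 : G)).toMonoidHom = A := by
  ext x; simp

theorem conjMap_eq_iff_mem_normalizer (A : Subgroup G) (g : G) :
    A.map (MulAut.conj g).toMonoidHom = A ↔ g ∈ Subgroup.normalizer (A : Set G) := by
  rw [Subgroup.mem_normalizer_iff]
  constructor
  · intro h x
    constructor
    · intro hx
      rw [← h, mem_conjMap_iff]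
      simpa [mul_assoc] using hx
    · intro hx
      rw [← h, mem_conjMap_iff] at hx
      simpa [mul_assoc] using hx
  · intro h
    ext x
    rw [mem_conjMap_iff, h (g⁻¹ * x * g)]
    simp [mul_assoc]

theorem commute_of_commutator_eq_bot {A B : Subgroup G} (h : ⁅A, B⁆ = ⊥) {a b : G} (ha : a ∈ A)
    (hb : b ∈ B) : a * b = b * a :=
  (Subgroup.mem_centralizer_iff.mp (Subgroup.commutator_eq_bot_iff_le_centralizer.mp h ha) b hb).symm

theorem commutator_eq_bot_of_commute {A B : Subgroup G}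
    (h : ∀ a ∈ A, ∀ b ∈ B, a * b = b * a) : ⁅A, B⁆ = ⊥ := by
  rw [Subgroup.commutator_eq_bot_iff_le_centralizer]
  intro a ha
  rw [Subgroup.mem_centralizer_iff]
  intro b hb
  exact (h a ha b hb).symm

variable [Finite G] {p : ℕ} [Fact p.Prime]

/-- Two `p`-subgroups `A`, `B`, with `B` TI and normalizing `A`, `A ∩ B = 1` and `|A| ≤ |B|`, commute. -/
theorem commutator_eq_bot_of_ti_normalizes {A B : Subgroup G} (hA : IsPGroup p ↥A) (hB : IsPGroup p ↥B)
    (hBti : ∀ a ∈ A, B.map (MulAut.conj a).toMonoidHom = B ∨ B.map (MulAut.conj a).toMonoidHom ⊓ B = ⊥)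
    (hle : Nat.card ↥A ≤ Nat.card ↥B) (hAB : A ⊓ B = ⊥)
    (hN : B ≤ Subgroup.normalizer (A : Set G)) : ⁅A, B⁆ = ⊥ := by
  rw [Subgroup.commutator_eq_bot_iff_le_centralizer]
  by_contra hcon
  set C : Subgroup G := A ⊓ Subgroup.centralizer (B : Set G) with hC
  have hPP : IsPGroup p ↥(A ⊔ B : Subgroup G) := IsPGroup.to_sup_of_normal_left' hA hB hN
  set P : Subgroup G := A ⊔ B with hP
  have hCc : ∀ c ∈ C, ∀ b ∈ B, c * b = b * c := fun c hc b hb =>
    (Subgroup.mem_centralizer_iff.mp hc.2 b hb).symm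
  have hCN : C ≤ Subgroup.normalizer (B : Set G) := fun c hc =>
    Subgroup.centralizer_le_normalizer (B : Set G) hc.2
  set X : Subgroup G := C ⊔ B with hX
  have hXmem : ∀ x ∈ X, ∃ c ∈ C, ∃ b ∈ B, x = c * b := by
    intro x hx
    have : (x : G) ∈ ((C ⊔ B : Subgroup G) : Set G) := hx
    rw [Subgroup.coe_mul_of_left_le_normalizer_right C B hCN] at this
    obtain ⟨c, hc, b, hb, rfl⟩ := this
    exact ⟨c, hc, b, hb, rfl⟩
  have hXP : X ≤ P := sup_le (inf_le_left.trans le_sup_left) le_sup_right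
  have hXA : ∀ x ∈ X, x ∈ A → x ∈ C := by
    intro x hx hxA
    obtain ⟨c, hc, b, hb, rfl⟩ := hXmem x hx
    have : b ∈ A ⊓ B := ⟨by simpa using A.mul_mem (A.inv_mem hc.1) hxA, hb⟩
    rw [hAB, Subgroup.mem_bot] at this
    simpa [this] using hc
  have hne : X.subgroupOf P ≠ ⊤ := by
    intro h
    apply hcon
    intro a ha
    exact (hXA a (Subgroup.subgroupOf_eq_top.mp h (le_sup_left (a := A) (b := B) ha)) ha).2
  haveI : Group.IsNilpotent ↥P := hPP.isNilpotent
  obtain ⟨y, hy, hyX⟩ := SetLike.exists_of_lt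
    (Group.normalizerCondition_of_isNilpotent (X.subgroupOf P) (lt_top_iff_ne_top.mpr hne))
  have hyP : (y : G) ∈ ((A ⊔ B : Subgroup G) : Set G) := y.2
  rw [Subgroup.coe_mul_of_right_le_normalizer_left A B hN] at hyP
  obtain ⟨a, ha, b, hb, hab⟩ := hyP
  simp only at hab
  have hbX : b ∈ X := le_sup_right (a := C) (b := B) hb
  have haX : a ∉ X := by
    intro h
    exact hyX (by rw [Subgroup.mem_subgroupOf, ← hab]; exact X.mul_mem h hbX)
  have haN : ∀ x ∈ X, a * x * a⁻¹ ∈ X := by
    intro x hx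
    have hx' : b⁻¹ * x * b ∈ X := X.mul_mem (X.mul_mem (X.inv_mem hbX) hx) hbX
    have h1 := (Subgroup.mem_normalizer_iff.mp hy ⟨b⁻¹ * x * b, hXP hx'⟩).mp hx'
    rw [Subgroup.mem_subgroupOf] at h1
    simp only [Subgroup.coe_mul, Subgroup.coe_inv, ← hab] at h1
    simpa [mul_assoc] using h1
  rcases hBti a ha with h | h
  · apply haX
    have haN' := (conjMap_eq_iff_mem_normalizer B a).mp h
    apply le_sup_left (a := C) (b := B)
    refine ⟨ha, Subgroup.mem_centralizer_iff.mpr fun b' hb' => ?_⟩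
    have hmem : a * b' * a⁻¹ * b'⁻¹ ∈ A ⊓ B := by
      refine ⟨?_, B.mul_mem ((Subgroup.mem_normalizer_iff.mp haN' b').mp hb') (B.inv_mem hb')⟩
      have : b' * a⁻¹ * b'⁻¹ ∈ A := (Subgroup.mem_normalizer_iff.mp (hN hb') a⁻¹).mp (A.inv_mem ha)
      simpa [mul_assoc] using A.mul_mem ha this
    rw [hAB, Subgroup.mem_bot, mul_inv_eq_one, mul_inv_eq_iff_eq_mul] at hmem
    exact hmem.symm
  · set B' := B.map (MulAut.conj a).toMonoidHom with hB'
    have hB'X : B' ≤ X := by
      intro x hx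
      rw [hB', mem_conjMap_iff] at hx
      simpa [mul_assoc] using haN _ (le_sup_right (a := C) (b := B) hx)
    -- `B' × B` injects into `X`
    have hinj : Function.Injective (fun u : ↥B' × ↥B =>
        (⟨(u.1 : G) * u.2, X.mul_mem (hB'X u.1.2) (le_sup_right (a := C) (b := B) u.2.2)⟩ : ↥X)) := by
      rintro ⟨u1, u2⟩ ⟨v1, v2⟩ he
      have := Subgroup.mul_injective_of_disjoint (disjoint_iff.mpr h)
        (a₁ := (u1, u2)) (a₂ := (v1, v2)) (congrArg Subtype.val he)
      exact this
    have h1 : Nat.card ↥B' * Nat.card ↥B ≤ Nat.card ↥X := by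
      rw [← Nat.card_prod]; exact Nat.card_le_card_of_injective _ hinj
    have hsurj : Function.Surjective (fun u : ↥C × ↥B =>
        (⟨(u.1 : G) * u.2, X.mul_mem (le_sup_left (a := C) (b := B) u.1.2)
          (le_sup_right (a := C) (b := B) u.2.2)⟩ : ↥X)) := by
      rintro ⟨x, hx⟩
      obtain ⟨c, hc, b', hb', rfl⟩ := hXmem x hx
      exact ⟨(⟨c, hc⟩, ⟨b', hb'⟩), rfl⟩
    have h2 : Nat.card ↥X ≤ Nat.card ↥C * Nat.card ↥B := by
      rw [← Nat.card_prod]; exact Nat.card_le_card_of_surjective _ hsurj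
    have h3 : Nat.card ↥C < Nat.card ↥A := by
      by_contra h'
      have := Subgroup.eq_of_le_of_card_ge (inf_le_left : C ≤ A) (not_lt.mp h')
      exact hcon fun x hx => by
        rw [← this] at hx
        exact hx.2
    rw [hB', card_conjMap] at h1
    have hpos : 0 < Nat.card ↥B := Nat.card_pos
    have := Nat.le_of_mul_le_mul_right (h1.trans h2) hpos
    omega

end Basic

section Family
variable {S : Type*} [Group S] [Finite S]

private theorem family_aux {p : ℕ} [Fact p.Prime] (hp : p = 2) (hS : IsPGroup p S)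
    (Δ : Set (Subgroup S)) (hinv : ∀ s : S, ∀ R ∈ Δ, R.map (MulAut.conj s).toMonoidHom ∈ Δ)
    (hsq : ∀ R ∈ Δ, ∃ x ∈ R, x ^ 2 ≠ 1) (hord : ∀ R ∈ Δ, ∀ T ∈ Δ, Nat.card ↥R = Nat.card ↥T)
    (hti : ∀ R ∈ Δ, ∀ T ∈ Δ, R = T ∨ R ⊓ T = ⊥) :
    ∀ n : ℕ, ∀ R ∈ Δ, ∀ T ∈ Δ, Nat.card ↥(R ⊔ T : Subgroup S) = n → R ≠ T → ⁅R, T⁆ = ⊥ := by
  intro n
  induction n using Nat.strong_induction_on with
  | _ n ih =>
    intro R hR T hT hn hne
    have hdisj : R ⊓ T = ⊥ := (hti R hR T hT).resolve_left hne
    have hticonj : ∀ U ∈ Δ, ∀ g : S, U.map (MulAut.conj g).toMonoidHom = U ∨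
        U.map (MulAut.conj g).toMonoidHom ⊓ U = ⊥ := fun U hU g => hti _ (hinv g U hU) U hU
    by_cases hRN : T ≤ Subgroup.normalizer (R : Set S)
    · exact commutator_eq_bot_of_ti_normalizes (hS.to_subgroup R) (hS.to_subgroup T)
        (fun g _ => hticonj T hT g) (hord R hR T hT).le hdisj hRN
    by_cases hTN : R ≤ Subgroup.normalizer (T : Set S)
    · rw [Subgroup.commutator_comm]
      exact commutator_eq_bot_of_ti_normalizes (hS.to_subgroup T) (hS.to_subgroup R)
        (fun g _ => hticonj R hR g) (hord T hT R hR).le (inf_comm R T ▸ hdisj) hTN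
    exfalso
    set M : Subgroup S := R ⊔ T with hM
    haveI : Group.IsNilpotent ↥M := (hS.to_subgroup M).isNilpotent
    -- conjugates inside `M` of either member commute pairwise
    have key : ∀ U ∈ Δ, U ≤ M → U ≠ M → ∀ s ∈ M, U.map (MulAut.conj s).toMonoidHom ≠ U →
        ⁅U, U.map (MulAut.conj s).toMonoidHom⁆ = ⊥ := by
      intro U hU hUM hUne s hs hsne
      have hUtop : U.subgroupOf M ≠ ⊤ := fun h =>
        hUne (le_antisymm hUM (Subgroup.subgroupOf_eq_top.mp h))
      obtain ⟨K, hK, hUK⟩ := (eq_top_or_exists_le_coatom (U.subgroupOf M)).resolve_left hUtop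
      haveI : K.Normal :=
        NormalizerCondition.normal_of_coatom K Group.normalizerCondition_of_isNilpotent hK
      set K' : Subgroup S := K.map M.subtype with hK'
      have hUK' : U ≤ K' := fun x hx => ⟨⟨x, hUM hx⟩, hUK hx, rfl⟩
      have hUsK' : U.map (MulAut.conj s).toMonoidHom ≤ K' := by
        intro x hx
        rw [mem_conjMap_iff] at hx
        have hxM : x ∈ M := by
          simpa [mul_assoc] using M.mul_mem (M.mul_mem hs (hUM hx)) (M.inv_mem hs)
        refine ⟨⟨x, hxM⟩, ?_, rfl⟩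
        have := Subgroup.Normal.conj_mem (inferInstance : K.Normal) ⟨s⁻¹ * x * s, hUM hx⟩ (hUK hx) ⟨s, hs⟩
        have he : (⟨x, hxM⟩ : ↥M) = ⟨s, hs⟩ * ⟨s⁻¹ * x * s, hUM hx⟩ * ⟨s, hs⟩⁻¹ :=
          Subtype.ext (by simp [mul_assoc])
        rw [he]; exact this
      have hlt : Nat.card ↥(U ⊔ U.map (MulAut.conj s).toMonoidHom : Subgroup S) < n := by
        rw [← hn]
        refine lt_of_le_of_lt (Subgroup.card_le_of_le (sup_le hUK' hUsK')) ?_
        rw [hK', Subgroup.card_map_of_injective M.subtype_injective]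
        by_contra h'
        exact hK.1 (Subgroup.eq_top_of_le_card K (not_lt.mp h'))
      exact ih _ hlt U hU _ (hinv s U hU) rfl (Ne.symm hsne)
    have hRneM : R ≠ M := by
      intro h
      exact hRN ((h.symm ▸ le_sup_right : T ≤ R).trans Subgroup.le_normalizer)
    have hTneM : T ≠ M := by
      intro h
      exact hTN ((h.symm ▸ le_sup_left : R ≤ T).trans Subgroup.le_normalizer)
    -- an element of `R` outside `N(T)` whose square normalizes `T`
    obtain ⟨r₀, hr₀, hr₀N⟩ := SetLike.not_le_iff_exists.mp hTN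
    obtain ⟨k, hk⟩ := (isPGroup_iff_pow_pow_eq_one.mp hS) r₀
    rw [hp] at hk
    have hex : ∃ j, r₀ ^ 2 ^ j ∈ Subgroup.normalizer (T : Set S) :=
      ⟨k, by rw [hk]; exact one_mem _⟩
    classical
    have hj0 : Nat.find hex ≠ 0 := by
      intro h
      have := Nat.find_spec hex
      rw [h] at this
      simp [hr₀N] at this
    obtain ⟨j, hj⟩ := Nat.exists_eq_succ_of_ne_zero hj0
    set r := r₀ ^ 2 ^ j with hr
    have hrR : r ∈ R := R.pow_mem hr₀ _
    have hrN : r ∉ Subgroup.normalizer (T : Set S) := Nat.find_min hex (by omega)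
    have hr2 : r * r ∈ Subgroup.normalizer (T : Set S) := by
      have := Nat.find_spec hex
      rw [hj] at this
      rwa [hr, ← pow_add, ← two_mul, ← pow_succ']
    have hT' : T.map (MulAut.conj r).toMonoidHom ≠ T := fun h =>
      hrN ((conjMap_eq_iff_mem_normalizer T r).mp h)
    have hrM : r ∈ M := le_sup_left (a := R) (b := T) hrR
    have hTT' := key T hT le_sup_right hTneM r hrM hT'
    have hTT'disj : T.map (MulAut.conj r).toMonoidHom ⊓ T = ⊥ := (hticonj T hT r).resolve_left hT'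
    have hmem' : ∀ t ∈ T, r * t * r⁻¹ ∈ T.map (MulAut.conj r).toMonoidHom := fun t ht => by
      rw [mem_conjMap_iff]; simpa [mul_assoc] using ht
    have hcomm : ∀ t ∈ T, ∀ u ∈ T, t * (r * u * r⁻¹) = (r * u * r⁻¹) * t := fun t ht u hu =>
      commute_of_commutator_eq_bot hTT' ht (hmem' u hu)
    -- step 1: elements of `T` outside `N(R)` are involutions
    have step1 : ∀ t ∈ T, t ∉ Subgroup.normalizer (R : Set S) → t * t = 1 := by
      intro t ht htN
      have hR' : R.map (MulAut.conj t).toMonoidHom ≠ R := fun h =>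
        htN ((conjMap_eq_iff_mem_normalizer R t).mp h)
      have hRR' := key R hR le_sup_left hRneM t (le_sup_right (a := R) (b := T) ht) hR'
      have hc : r * (t * r⁻¹ * t⁻¹) = (t * r⁻¹ * t⁻¹) * r :=
        commute_of_commutator_eq_bot hRR' hrR (by
          rw [mem_conjMap_iff]; simpa [mul_assoc] using R.inv_mem hrR)
      set t' := r * t * r⁻¹ with ht'
      set t'' := r * r * t * (r * r)⁻¹ with ht''
      have hcs : t * t' = t' * t := hcomm t ht t ht
      have ht''T : t'' ∈ T := (Subgroup.mem_normalizer_iff.mp hr2 t).mp ht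
      have e1 : r * (t' * t⁻¹) * r⁻¹ = t' * t⁻¹ := by
        have hx : t' * t⁻¹ = r * (t * r⁻¹ * t⁻¹) := by rw [ht']; group
        have hxr : r * (t' * t⁻¹) = (t' * t⁻¹) * r := by
          rw [hx]
          calc r * (r * (t * r⁻¹ * t⁻¹)) = r * ((t * r⁻¹ * t⁻¹) * r) := by rw [hc]
            _ = _ := (mul_assoc _ _ _).symm
        rw [hxr]; group
      have e2 : t'' * t = t' * t' := by
        have h3 : t'' * t'⁻¹ = t' * t⁻¹ := by
          rw [← e1, ht'', ht']; group
        have h4 : t'' = t' * t⁻¹ * t' := by rw [← h3]; group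
        rw [h4, mul_assoc (t' * t⁻¹), ← hcs]
        group
      have h5 : t' * t' ∈ T.map (MulAut.conj r).toMonoidHom ⊓ T :=
        ⟨Subgroup.mul_mem _ (hmem' t ht) (hmem' t ht), e2 ▸ T.mul_mem ht''T ht⟩
      rw [hTT'disj, Subgroup.mem_bot, ht'] at h5
      calc t * t = r⁻¹ * ((r * t * r⁻¹) * (r * t * r⁻¹)) * r := by group
        _ = 1 := by rw [h5]; group
    obtain ⟨t, ht, htN⟩ := SetLike.not_le_iff_exists.mp hRN
    -- step 2: an involution of `T` normalizing `R`
    obtain ⟨x, hx, hx2⟩ := hsq T hT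
    have hxN : x ∈ Subgroup.normalizer (R : Set S) := by
      by_contra h
      exact hx2 (by rw [sq]; exact step1 x hx h)
    obtain ⟨u, huT, huN, hu2, hu1⟩ : ∃ u ∈ T, u ∈ Subgroup.normalizer (R : Set S) ∧ u * u = 1 ∧ u ≠ 1 := by
      obtain ⟨kx, hkx⟩ := (isPGroup_iff_pow_pow_eq_one.mp hS) x
      rw [hp] at hkx
      have hex' : ∃ i, x ^ 2 ^ i = 1 := ⟨kx, hkx⟩
      have hi0 : Nat.find hex' ≠ 0 := by
        intro h
        have := Nat.find_spec hex'
        rw [h, pow_zero, pow_one] at this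
        exact hx2 (by simp [this])
      obtain ⟨i, hi⟩ := Nat.exists_eq_succ_of_ne_zero hi0
      refine ⟨x ^ 2 ^ i, T.pow_mem hx _, Subgroup.pow_mem _ hxN _, ?_, Nat.find_min hex' (by omega)⟩
      have := Nat.find_spec hex'
      rw [hi] at this
      rwa [← pow_add, ← two_mul, ← pow_succ']
    have htu : t * u = u * t := by
      have h1 : t * u ∉ Subgroup.normalizer (R : Set S) := fun h =>
        htN (by simpa using (Subgroup.normalizer (R : Set S)).mul_mem h ((Subgroup.normalizer (R : Set S)).inv_mem huN))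
      have h2 := step1 _ (T.mul_mem ht huT) h1
      have h3 := step1 _ ht htN
      have ht1 : t⁻¹ = t := inv_eq_of_mul_eq_one_right h3
      have hu' : u⁻¹ = u := inv_eq_of_mul_eq_one_right hu2
      calc t * u = (t * u)⁻¹ := (inv_eq_of_mul_eq_one_right h2).symm
        _ = u * t := by rw [mul_inv_rev, ht1, hu']
    have hwR : r * u * r⁻¹ * u⁻¹ ∈ R := by
      have : u * r⁻¹ * u⁻¹ ∈ R := (Subgroup.mem_normalizer_iff.mp huN r⁻¹).mp (R.inv_mem hrR)
      simpa [mul_assoc] using R.mul_mem hrR this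
    have hwR' : r * u * r⁻¹ * u⁻¹ ∈ R.map (MulAut.conj t).toMonoidHom := by
      rw [mem_conjMap_iff]
      have hct : t * (r * u * r⁻¹ * u⁻¹) = (r * u * r⁻¹ * u⁻¹) * t :=
        (Commute.mul_right (hcomm t ht u huT) (Commute.inv_right htu) : Commute t _)
      rw [mul_assoc t⁻¹, ← hct]
      simpa using hwR
    have hR' : R.map (MulAut.conj t).toMonoidHom ≠ R := fun h =>
      htN ((conjMap_eq_iff_mem_normalizer R t).mp h)
    have hw : r * u * r⁻¹ * u⁻¹ = 1 := by
      have := Subgroup.mem_inf.mpr ⟨hwR', hwR⟩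
      rwa [(hticonj R hR t).resolve_left hR', Subgroup.mem_bot] at this
    have hu' : u ∈ T.map (MulAut.conj r).toMonoidHom ⊓ T :=
      ⟨by have := hmem' u huT; rwa [mul_inv_eq_one.mp hw] at this, huT⟩
    rw [hTT'disj, Subgroup.mem_bot] at hu'
    exact hu1 hu'

/-- An invariant family of TI subgroups of equal order, not of exponent 2, in a 2-group: distinct members commute. -/
theorem family_commute (hS : IsPGroup 2 S)
    (Δ : Set (Subgroup S)) (hinv : ∀ s : S, ∀ R ∈ Δ, R.map (MulAut.conj s).toMonoidHom ∈ Δ)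
    (hsq : ∀ R ∈ Δ, ∃ x ∈ R, x ^ 2 ≠ 1) (hord : ∀ R ∈ Δ, ∀ T ∈ Δ, Nat.card ↥R = Nat.card ↥T)
    (hti : ∀ R ∈ Δ, ∀ T ∈ Δ, R = T ∨ R ⊓ T = ⊥) {R T : Subgroup S} (hR : R ∈ Δ) (hT : T ∈ Δ)
    (hne : R ≠ T) : ⁅R, T⁆ = ⊥ := by
  haveI : Fact (Nat.Prime 2) := ⟨Nat.prime_two⟩
  exact family_aux rfl hS Δ hinv hsq hord hti _ R hR T hT rfl hne

/-- A group of exponent 2 has trivial Frattini subgroup. -/
theorem exists_sq_ne_one_of_frattini_ne_bot {R : Type*} [Group R] [Finite R] (h : frattini R ≠ ⊥) :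
    ∃ x : R, x ^ 2 ≠ 1 := by
  by_contra hall
  push Not at hall
  apply h
  rw [eq_bot_iff]
  intro x hx
  rw [Subgroup.mem_bot]
  by_contra hx1
  -- a maximal subgroup avoiding `x`
  obtain ⟨K, hxK, hKmax⟩ : ∃ K : Subgroup R, x ∉ K ∧ ∀ K' : Subgroup R, K < K' → x ∈ K' := by
    have hne : ({K : Subgroup R | x ∉ K}).Nonempty := ⟨⊥, by simpa using hx1⟩
    obtain ⟨K, hK⟩ := (Set.toFinite _).exists_maximal hne
    exact ⟨K, hK.1, fun K' hlt => by_contra fun h' => lt_irrefl _ (hlt.trans_le (hK.2 h' hlt.le))⟩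
  have hcomm : ∀ a b : R, a * b = b * a := by
    intro a b
    have h1 : ∀ c : R, c⁻¹ = c := fun c => inv_eq_of_mul_eq_one_right (by rw [← sq]; exact hall c)
    calc a * b = (a * b)⁻¹ := (h1 _).symm
      _ = b * a := by rw [mul_inv_rev, h1, h1]
  have hco : IsCoatom K := by
    refine ⟨fun h' => hxK (by rw [h']; trivial), fun K' hlt => ?_⟩
    rw [eq_top_iff]
    intro y _
    by_contra hy
    have hyK : y ∉ K := fun h' => hy (hlt.le h')
    -- `K` together with `y` contains `x`, so `x ∈ K * y`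
    let L : Subgroup R :=
      { carrier := {g | g ∈ K ∨ g * y ∈ K}
        one_mem' := Or.inl K.one_mem
        inv_mem' := by
          intro g hg
          rcases hg with hg | hg
          · exact Or.inl (K.inv_mem hg)
          · refine Or.inr ?_
            have : g⁻¹ * y = g * y := by
              rw [inv_eq_of_mul_eq_one_right (show g * g = 1 by rw [← sq]; exact hall g)]
            rwa [this]
        mul_mem' := by
          intro g g' hg hg'
          rcases hg with hg | hg <;> rcases hg' with hg' | hg'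
          · exact Or.inl (K.mul_mem hg hg')
          · exact Or.inr (by rw [mul_assoc]; exact K.mul_mem hg hg')
          · exact Or.inr (by rw [mul_assoc, hcomm g' y, ← mul_assoc]; exact K.mul_mem hg hg')
          · refine Or.inl ?_
            have := K.mul_mem hg hg'
            rwa [mul_assoc g y, ← mul_assoc y g', hcomm y g', mul_assoc g' y y,
              (sq y).symm.trans (hall y), mul_one] at this }
    have hKL : K < L := by
      refine lt_of_le_of_ne (fun k hk => Or.inl hk) fun h' => hyK ?_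
      have : y ∈ L := Or.inr (by rw [← sq, hall y]; exact K.one_mem)
      rwa [h']
    rcases hKmax L hKL with hxL | hxL
    · exact hxK hxL
    · exact hy (by
        have h1 := K'.mul_mem (hKmax K' hlt) (hlt.le (hxL))
        rwa [← mul_assoc, ← sq, hall x, one_mul] at h1)
  exact hxK (frattini_le_coatom hco hx)

end Family

end CfsgLib.ClassK
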