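import Cfsg.Agent.Lib.ClassK.TISymmetric
import Cfsg.Agent.Lib.ClassK.JordanField
import Cfsg.Agent.Lib.ClassicalLinear.Generation

/-!
A TI pair `(V, P)` and a conjugate pair `(V₁, P₁)` with `V₁ ≤ P`, `V ≤ P₁` and full commutator maps:
`W = V V₁` is a natural module for `SL(2, q)`, `q = |V|`, over a field of endomorphisms of `V`.
-/

set_option autoImplicit false

namespace CfsgLib.ClassK

variable {G : Type*} [Group G]

/-- Two conjugates of `V` with a common non-identity element are equal. -/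
theorem IsTIPair.conj_eq_of_mem {V P : Subgroup G} (h : IsTIPair V P) {x y w : G}
    (hx : w ∈ V.map (MulAut.conj x).toMonoidHom) (hy : w ∈ V.map (MulAut.conj y).toMonoidHom)
    (hw : w ≠ 1) : V.map (MulAut.conj x).toMonoidHom = V.map (MulAut.conj y).toMonoidHom := by
  rw [mem_conjMap_iff] at hx hy
  have hN : x⁻¹ * y ∈ Subgroup.normalizer (V : Set G) := by
    refine h.ti _ _ hy (fun e => hw ?_) ?_
    · calc w = y * (y⁻¹ * w * y) * y⁻¹ := by group
        _ = 1 := by rw [e]; group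
    · convert hx using 1
      group
  rw [show y = x * (x⁻¹ * y) by group, ← conjMap_conjMap, (conjMap_eq_iff_mem_normalizer V _).mpr hN]

section

variable {V P : Subgroup G} {g : G}

local notation "V₁" => Subgroup.map (MulEquiv.toMonoidHom (MulAut.conj g)) V
local notation "P₁" => Subgroup.map (MulEquiv.toMonoidHom (MulAut.conj g)) P

theorem ti_inf_conj_eq_one (h : IsTIPair V P) (hgN : g ∉ Subgroup.normalizer (V : Set G)) {v : G}
    (hv : v ∈ V) (hv' : v ∈ V₁) : v = 1 := by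
  rw [mem_conjMap_iff] at hv'
  by_contra hv1
  exact hgN (inv_mem_iff.mp (h.ti g⁻¹ v hv hv1 (by simpa using hv')))

theorem mem_sup_conj (h : IsTIPair V P) (hgP : V₁ ≤ P) {w : G} (hw : w ∈ V ⊔ V₁) :
    ∃ a ∈ V, ∃ b ∈ V₁, w = a * b := by
  have hle : V₁ ≤ Subgroup.normalizer (V : Set G) := fun b hb =>
    mem_normalizer_of_commute fun v hv => h.centralizes b (hgP hb) v hv
  have h' : w ∈ ((V ⊔ V₁ : Subgroup G) : Set G) := hw
  rw [Subgroup.coe_mul_of_right_le_normalizer_left V _ hle] at h'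
  obtain ⟨a, ha, b, hb, rfl⟩ := h'
  exact ⟨a, ha, b, hb, rfl⟩

/-- Every non-identity element of `W = V V₁` lies in exactly one conjugate of `V` inside `W`. -/
theorem ti_partition (h : IsTIPair V P) (hgN : g ∉ Subgroup.normalizer (V : Set G)) (hgP : V₁ ≤ P)
    (hS : ∀ w ∈ V₁, w ≠ 1 → ∀ v ∈ V, ∃ t ∈ P, t * w * t⁻¹ * w⁻¹ = v) {w : G} (hw : w ∈ V ⊔ V₁)
    (hw1 : w ≠ 1) :
    ∃! U : Subgroup G, (∃ x : G, U = V.map (MulAut.conj x).toMonoidHom) ∧ U ≤ V ⊔ V₁ ∧ w ∈ U := by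
  obtain ⟨U, hU⟩ : ∃ U : Subgroup G,
      (∃ x : G, U = V.map (MulAut.conj x).toMonoidHom) ∧ U ≤ V ⊔ V₁ ∧ w ∈ U := by
    obtain ⟨a, ha, b, hb, rfl⟩ := mem_sup_conj h hgP hw
    by_cases hb1 : b = 1
    · exact ⟨V, ⟨1, (conjMap_one V).symm⟩, le_sup_left, by rw [hb1, mul_one]; exact ha⟩
    · obtain ⟨t, ht, e⟩ := hS b hb hb1 a ha
      refine ⟨(V₁).map (MulAut.conj t).toMonoidHom, ⟨t * g, conjMap_conjMap V g t⟩, fun u hu => ?_, ?_⟩
      · rw [mem_conjMap_iff] at hu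
        have h1 : t * (t⁻¹ * u * t) * t⁻¹ * (t⁻¹ * u * t)⁻¹ ∈ V := h.comm_mem t ht _ (hgP hu)
        have h2 := Subgroup.mul_mem (V ⊔ V₁) (le_sup_left (a := V) (b := V₁) h1)
          (le_sup_right (a := V) (b := V₁) hu)
        convert h2 using 1
        group
      · rw [mem_conjMap_iff, ← e]
        convert hb using 1
        group
  refine ⟨U, hU, ?_⟩
  rintro U' ⟨⟨x', rfl⟩, -, hx'⟩
  obtain ⟨⟨x, rfl⟩, -, hx⟩ := hU
  exact h.conj_eq_of_mem hx' hx hw1

theorem ti_conj_mem_sup (h : IsTIPair V P) (hgP : V₁ ≤ P) (hVP1 : V ≤ P₁) {x w : G}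
    (hx : x ∈ P ∨ x ∈ P₁) (hw : w ∈ V ⊔ V₁) : x * w * x⁻¹ ∈ V ⊔ V₁ := by
  obtain ⟨a, ha, b, hb, rfl⟩ := mem_sup_conj h hgP hw
  rw [show x * (a * b) * x⁻¹ = (x * a * x⁻¹) * (x * b * x⁻¹) by group]
  rcases hx with hx | hx
  · refine Subgroup.mul_mem _ ?_ ?_
    · rw [h.centralizes x hx a ha, mul_inv_cancel_right]
      exact le_sup_left (a := V) ha
    · rw [show x * b * x⁻¹ = (x * b * x⁻¹ * b⁻¹) * b by group]
      exact Subgroup.mul_mem _ (le_sup_left (a := V) (h.comm_mem x hx b (hgP hb)))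
        (le_sup_right (a := V) hb)
  · refine Subgroup.mul_mem _ ?_ ?_
    · rw [show x * a * x⁻¹ = (x * a * x⁻¹ * a⁻¹) * a by group]
      exact Subgroup.mul_mem _ (le_sup_right (a := V) ((h.conjMap g).comm_mem x hx a (hVP1 ha)))
        (le_sup_left (a := V) ha)
    · rw [(h.conjMap g).centralizes x hx b hb, mul_inv_cancel_right]
      exact le_sup_right (a := V) hb

theorem ti_sup_le_normalizer [Finite G] (h : IsTIPair V P) (hgP : V₁ ≤ P) (hVP1 : V ≤ P₁) :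
    P ⊔ P₁ ≤ Subgroup.normalizer ((V ⊔ V₁ : Subgroup G) : Set G) := by
  have key : ∀ x : G, (x ∈ P ∨ x ∈ P₁) → x ∈ Subgroup.normalizer ((V ⊔ V₁ : Subgroup G) : Set G) := by
    intro x hx
    rw [Subgroup.mem_normalizer_iff]
    intro w
    refine ⟨ti_conj_mem_sup h hgP hVP1 hx, fun hw => ?_⟩
    have hx' : x⁻¹ ∈ P ∨ x⁻¹ ∈ P₁ := hx.imp (Subgroup.inv_mem _) (Subgroup.inv_mem _)
    simpa [mul_assoc] using ti_conj_mem_sup h hgP hVP1 hx' hw
  exact sup_le (fun x hx => key x (Or.inl hx)) (fun x hx => key x (Or.inr hx))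

/-- The commutator map of `x ∈ P` as a homomorphism `V₁ → V`. -/
def tiCommHom (h : IsTIPair V P) (hgP : V₁ ≤ P) (x : G) (hx : x ∈ P) : ↥(V₁) →* ↥V where
  toFun w := ⟨x * w * x⁻¹ * (w : G)⁻¹, h.comm_mem x hx w (hgP w.2)⟩
  map_one' := Subtype.ext (by simp)
  map_mul' w w' := Subtype.ext (by
    simp only [Subgroup.coe_mul]
    have e := h.centralizes _ (hgP w.2) _ (h.comm_mem x hx w' (hgP w'.2))
    calc x * ((w : G) * w') * x⁻¹ * ((w : G) * w')⁻¹ =
        (x * w * x⁻¹ * (w : G)⁻¹) * ((w : G) * (x * w' * x⁻¹ * (w' : G)⁻¹)) * (w : G)⁻¹ := by group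
      _ = _ := by rw [e, mul_assoc, mul_inv_cancel_right])

theorem tiCommHom_mul (h : IsTIPair V P) (hgP : V₁ ≤ P) {x y : G} (hx : x ∈ P) (hy : y ∈ P)
    (w : ↥(V₁)) : tiCommHom h hgP (x * y) (P.mul_mem hx hy) w =
      tiCommHom h hgP x hx w * tiCommHom h hgP y hy w := Subtype.ext (by
  have e : x * (y * w * y⁻¹ * (w : G)⁻¹) = (y * w * y⁻¹ * (w : G)⁻¹) * x :=
    h.centralizes x hx _ (h.comm_mem y hy w (hgP w.2))
  have e' : (y * w * y⁻¹ * (w : G)⁻¹) * (x * w * x⁻¹ * (w : G)⁻¹) =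
      (x * w * x⁻¹ * (w : G)⁻¹) * (y * w * y⁻¹ * (w : G)⁻¹) :=
    (h.centralizes _ (h.le (h.comm_mem y hy w (hgP w.2))) _ (h.comm_mem x hx w (hgP w.2)))
  change x * y * w * (x * y)⁻¹ * (w : G)⁻¹ =
    (x * w * x⁻¹ * (w : G)⁻¹) * (y * w * y⁻¹ * (w : G)⁻¹)
  rw [← e']
  calc x * y * w * (x * y)⁻¹ * (w : G)⁻¹ =
      (x * (y * w * y⁻¹ * (w : G)⁻¹)) * w * x⁻¹ * (w : G)⁻¹ := by group
    _ = _ := by rw [e]; group)

/-- A commutator map vanishing at one non-identity element is trivial. -/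
theorem tiCommHom_eq_one (h : IsTIPair V P) (hgN : g ∉ Subgroup.normalizer (V : Set G))
    (hgP : V₁ ≤ P) {x : G} (hx : x ∈ P) {w : ↥(V₁)} (hw : w ≠ 1)
    (he : tiCommHom h hgP x hx w = 1) (w' : ↥(V₁)) : tiCommHom h hgP x hx w' = 1 := by
  have e : x * w * x⁻¹ * (w : G)⁻¹ = 1 := congrArg Subtype.val he
  rw [mul_inv_eq_one] at e
  have hxN := (h.conjMap g).ti x w w.2 (fun e' => hw (Subtype.ext e')) (by rw [e]; exact w.2)
  exact Subtype.ext (ti_inf_conj_eq_one h hgN (h.comm_mem x hx w' (hgP w'.2))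
    (Subgroup.mul_mem _ ((Subgroup.mem_normalizer_iff.mp hxN w').mp w'.2) (Subgroup.inv_mem _ w'.2)))

/-- A finite field in `Type` isomorphic to a given one. -/
theorem exists_field_type_zero (K : Type*) [Field K] [Finite K] :
    ∃ (F : Type) (_ : Field F) (_ : Fintype F), Nonempty (F ≃+* K) := by
  let eS : Fin (Nat.card K) ≃ K := (Finite.equivFin K).symm
  exact ⟨Fin (Nat.card K), eS.field, inferInstance, ⟨eS.ringEquiv⟩⟩

/-- The permutation action of `SL(2, F)` on column vectors. -/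
def slPerm (F : Type*) [CommRing F] :
    Matrix.SpecialLinearGroup (Fin 2) F →* Equiv.Perm (Fin 2 → F) where
  toFun M := (Matrix.SpecialLinearGroup.toLin' M).toEquiv
  map_one' := Equiv.ext fun v => by simp
  map_mul' M M' := Equiv.ext fun v => by simp

theorem slPerm_apply {F : Type*} [CommRing F] (M : Matrix.SpecialLinearGroup (Fin 2) F)
    (v : Fin 2 → F) : slPerm F M v = Matrix.mulVec (M : Matrix (Fin 2) (Fin 2) F) v := by
  change Matrix.SpecialLinearGroup.toLin' M v = _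
  rw [Matrix.SpecialLinearGroup.toLin'_apply]
  exact Matrix.toLin'_apply _ _

theorem slPerm_injective (F : Type*) [CommRing F] : Function.Injective (slPerm F) := fun M M' he =>
  Subtype.ext (Matrix.ext_of_mulVec_single fun i => by
    rw [← slPerm_apply, ← slPerm_apply, he])

theorem slPerm_transvection_zero_one {F : Type*} [CommRing F] (c : F) (v : Fin 2 → F) :
    slPerm F (Matrix.SpecialLinearGroup.transvection (show (0 : Fin 2) ≠ 1 by decide) c) v =
      ![v 0 + c * v 1, v 1] := by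
  rw [slPerm_apply]
  change Matrix.mulVec (Matrix.transvection (0 : Fin 2) 1 c) v = _
  funext i
  fin_cases i <;>
    simp [Matrix.transvection, Matrix.mulVec, dotProduct, Fin.sum_univ_two, Matrix.single]

theorem slPerm_transvection_one_zero {F : Type*} [CommRing F] (c : F) (v : Fin 2 → F) :
    slPerm F (Matrix.SpecialLinearGroup.transvection (show (1 : Fin 2) ≠ 0 by decide) c) v =
      ![v 0, c * v 0 + v 1] := by
  rw [slPerm_apply]
  change Matrix.mulVec (Matrix.transvection (1 : Fin 2) 0 c) v = _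
  funext i
  fin_cases i <;>
    simp [Matrix.transvection, Matrix.mulVec, dotProduct, Fin.sum_univ_two, Matrix.single]

theorem slPerm_diag2n {F : Type*} [Field F] (a : F) (ha : a ≠ 0) (γ : F) :
    slPerm F (Matrix.SpecialLinearGroup.diag2n (show (0 : Fin 2) ≠ 1 by decide) a ha) ![γ, 0] =
      ![a * γ, 0] := by
  rw [slPerm_apply]
  change Matrix.mulVec (Matrix.diagonal _) _ = _
  funext i
  fin_cases i <;> simp [Matrix.mulVec_diagonal]

/-- Coordinates on `W = V V₁` over a finite field: `P` acts as upper and `P₁` as lower transvections. -/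
theorem ti_coordinates [Finite G] (h : IsTIPair V P) (hgN : g ∉ Subgroup.normalizer (V : Set G))
    (hgP : V₁ ≤ P) (hVP1 : V ≤ P₁)
    (hS : ∀ w ∈ V₁, w ≠ 1 → ∀ v ∈ V, ∃ t ∈ P, t * w * t⁻¹ * w⁻¹ = v)
    (hS1 : ∀ a ∈ V, a ≠ 1 → ∀ u ∈ V₁, ∃ y ∈ P₁, y * a * y⁻¹ * a⁻¹ = u) :
    ∃ (F : Type) (_ : Field F) (_ : Fintype F) (ι : (Fin 2 → F) → G),
      Function.Injective ι ∧ (∀ v, ι v ∈ V ⊔ V₁) ∧ (∀ w ∈ V ⊔ V₁, ∃ v, ι v = w) ∧
      Fintype.card F = Nat.card ↥V ∧ (∀ a ∈ V, ∃ α : F, ι ![α, 0] = a) ∧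
      (∀ α : F, ι ![α, 0] ∈ V) ∧ ι ![0, 0] = 1 ∧
      (∀ x ∈ P, ∃ c : F, ∀ v, x * ι v * x⁻¹ = ι ![v 0 + c * v 1, v 1]) ∧
      (∀ c : F, ∃ x ∈ P, ∀ v, x * ι v * x⁻¹ = ι ![v 0 + c * v 1, v 1]) ∧
      (∀ y ∈ P₁, ∃ c : F, ∀ v, y * ι v * y⁻¹ = ι ![v 0, c * v 0 + v 1]) ∧
      (∀ c : F, ∃ y ∈ P₁, ∀ v, y * ι v * y⁻¹ = ι ![v 0, c * v 0 + v 1]) := by
  classical
  have h1 := h.conjMap g
  have hVab : ∀ a ∈ V, ∀ b ∈ V, a * b = b * a := fun a ha b hb => h.centralizes a (h.le ha) b hb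
  letI : CommGroup ↥V := { mul_comm := fun a b => Subtype.ext (hVab a a.2 b b.2) }
  obtain ⟨a₀, ha₀, ha₀1⟩ : ∃ v ∈ V, v ≠ 1 := by
    by_contra hh
    push Not at hh
    exact hgN (mem_normalizer_of_commute fun v hv => by rw [hh v hv, mul_one, one_mul])
  set w₀ : G := g * a₀ * g⁻¹ with hw₀def
  have hw₀ : w₀ ∈ V₁ := by rw [mem_conjMap_iff]; simpa [hw₀def, mul_assoc] using ha₀
  have hw₀1 : w₀ ≠ 1 := fun e => ha₀1 (conj_eq_one_iff.mp e)
  obtain ⟨x₀, hx₀, hx₀e⟩ := hS w₀ hw₀ hw₀1 a₀ ha₀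
  have hinj : Function.Injective (tiCommHom h hgP x₀ hx₀) := by
    rw [injective_iff_map_eq_one]
    intro w hw
    by_contra hw1
    have := congrArg Subtype.val (tiCommHom_eq_one h hgN hgP hx₀ hw1 hw ⟨w₀, hw₀⟩)
    exact ha₀1 (hx₀e ▸ this)
  let e : ↥V ≃* ↥(V₁) := (MulEquiv.ofBijective _
    (hinj.bijective_of_nat_card_le (card_conjMap V g).ge)).symm
  have hx₀' : ∀ a : ↥V, tiCommHom h hgP x₀ hx₀ (e a) = a := fun a =>
    (MulEquiv.ofBijective _ (hinj.bijective_of_nat_card_le (card_conjMap V g).ge)).apply_symm_apply a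
  -- endomorphisms
  let A : (x : G) → x ∈ P → AddMonoid.End (Additive ↥V) := fun x hx =>
    MonoidHom.toAdditive ((tiCommHom h hgP x hx).comp e.toMonoidHom)
  have hAap : ∀ x (hx : x ∈ P) (a : ↥V),
      A x hx (Additive.ofMul a) = Additive.ofMul (tiCommHom h hgP x hx (e a)) := fun _ _ _ => rfl
  have hAmul : ∀ x (hx : x ∈ P) y (hy : y ∈ P), A (x * y) (P.mul_mem hx hy) = A x hx + A y hy :=
    fun x hx y hy => AddMonoidHom.ext fun a => congrArg Additive.ofMul (tiCommHom_mul h hgP hx hy _)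
  have hA1 : A 1 P.one_mem = 0 := AddMonoidHom.ext fun a => congrArg Additive.ofMul (Subtype.ext (by
    change (1 : G) * _ * (1 : G)⁻¹ * _ = _
    simp))
  let J : AddSubgroup (AddMonoid.End (Additive ↥V)) :=
    { carrier := {f | ∃ (x : G) (hx : x ∈ P), A x hx = f}
      zero_mem' := ⟨1, P.one_mem, hA1⟩
      add_mem' := by
        rintro _ _ ⟨x, hx, rfl⟩ ⟨y, hy, rfl⟩
        exact ⟨x * y, P.mul_mem hx hy, hAmul x hx y hy⟩
      neg_mem' := by
        rintro _ ⟨x, hx, rfl⟩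
        refine ⟨x⁻¹, P.inv_mem hx, eq_neg_of_add_eq_zero_left ?_⟩
        rw [← hAmul, ← hA1]
        congr 1
        exact inv_mul_cancel x }
  have hAJ : ∀ x (hx : x ∈ P), A x hx ∈ J := fun x hx => ⟨x, hx, rfl⟩
  have hx₀A : A x₀ hx₀ = 1 := AddMonoidHom.ext fun a => congrArg Additive.ofMul (hx₀' a.toMul)
  have hone : (1 : AddMonoid.End (Additive ↥V)) ∈ J := ⟨x₀, hx₀, hx₀A⟩
  -- evaluation at `a₀`
  let p₀ : Additive ↥V := Additive.ofMul ⟨a₀, ha₀⟩
  have hne0 : ∀ a : ↥V, a ≠ 1 → ∀ f ∈ J, f (Additive.ofMul a) = 0 → f = 0 := by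
    rintro a ha _ ⟨x, hx, rfl⟩ hfa
    refine AddMonoidHom.ext fun b => congrArg Additive.ofMul (tiCommHom_eq_one h hgN hgP hx
      (w := e a) (fun e' => ha (e.map_eq_one_iff.mp e')) hfa (e b.toMul))
  have hp₀ : (⟨a₀, ha₀⟩ : ↥V) ≠ 1 := fun e' => ha₀1 (congrArg Subtype.val e')
  have hevinj : ∀ f ∈ J, ∀ f' ∈ J, f p₀ = f' p₀ → f = f' := by
    intro f hf f' hf' he
    have := hne0 _ hp₀ (f - f') (J.sub_mem hf hf') (by
      change f p₀ - f' p₀ = 0
      rw [he, sub_self])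
    exact sub_eq_zero.mp this
  have hevsurj : ∀ a : ↥V, ∃ f ∈ J, f p₀ = Additive.ofMul a := by
    intro a
    obtain ⟨t, ht, hte⟩ := hS _ (e ⟨a₀, ha₀⟩).2
      (fun e' => hp₀ (e.map_eq_one_iff.mp (Subtype.ext e'))) a a.2
    exact ⟨A t ht, hAJ t ht, congrArg Additive.ofMul (Subtype.ext hte)⟩
  -- the element `y₀` of `P₁`
  have hAconj : ∀ x (hx : x ∈ P) (b : ↥V),
      x * (e b : G) * x⁻¹ = ((A x hx (Additive.ofMul b)).toMul : ↥V) * (e b : G) := by
    intro x hx b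
    change x * (e b : G) * x⁻¹ = (x * (e b : G) * x⁻¹ * (e b : G)⁻¹) * (e b : G)
    group
  have huniq : ∀ (a a' : ↥V) (b b' : ↥(V₁)), (a : G) * b = (a' : G) * b' → a = a' ∧ b = b' := by
    intro a a' b b' he
    have hab : (a' : G)⁻¹ * a = (b' : G) * (b : G)⁻¹ := by
      calc (a' : G)⁻¹ * a = (a' : G)⁻¹ * ((a : G) * b) * (b : G)⁻¹ := by group
        _ = _ := by rw [he]; group
    have h2 : (a' : G)⁻¹ * a = 1 := ti_inf_conj_eq_one h hgN (V.mul_mem (V.inv_mem a'.2) a.2)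
      (hab ▸ Subgroup.mul_mem _ b'.2 (Subgroup.inv_mem _ b.2))
    have h3 : a = a' := Subtype.ext (inv_mul_eq_one.mp h2).symm
    subst h3
    exact ⟨rfl, Subtype.ext (mul_left_cancel he)⟩
  -- the member through `a * e b`
  have hgraph : ∀ x (hx : x ∈ P) (b : ↥V), ((A x hx (Additive.ofMul b)).toMul : ↥V) * (e b : G) ∈
      (V₁).map (MulAut.conj x).toMonoidHom := by
    intro x hx b
    rw [← hAconj, mem_conjMap_iff]
    convert (e b).2 using 1
    group
  have hgraph' : ∀ x (hx : x ∈ P) (a b : ↥V), (a : G) * (e b : G) ∈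
      (V₁).map (MulAut.conj x).toMonoidHom → A x hx (Additive.ofMul b) = Additive.ofMul a := by
    intro x hx a b hab
    rw [mem_conjMap_iff] at hab
    set c : ↥V := e.symm ⟨_, hab⟩ with hc
    have hec : (e c : G) = x⁻¹ * ((a : G) * (e b : G)) * x := by
      rw [hc, e.apply_symm_apply]
    have he : x * (e c : G) * x⁻¹ = (a : G) * (e b : G) := by rw [hec]; group
    rw [hAconj x hx] at he
    obtain ⟨h2, h3⟩ := huniq _ _ _ _ he
    rw [e.injective h3] at h2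
    exact congrArg Additive.ofMul h2
  obtain ⟨y₀, hy₀, hy₀e⟩ := hS1 a₀ ha₀ ha₀1 (e ⟨a₀, ha₀⟩) (e ⟨a₀, ha₀⟩).2
  have hcomm : ∀ (a : ↥V) (b : ↥(V₁)), (a : G) * b = (b : G) * a := fun a b =>
    (h.centralizes b (hgP b.2) a a.2).symm
  have hy₀' : ∀ a : ↥V, y₀ * (a : G) * y₀⁻¹ = (a : G) * (e a : G) := by
    intro a
    have hmem : y₀ * (a : G) * y₀⁻¹ ∈ V.map (MulAut.conj y₀).toMonoidHom := by
      rw [mem_conjMap_iff]
      convert a.2 using 1
      group
    have hU : V.map (MulAut.conj y₀).toMonoidHom = V.map (MulAut.conj (x₀ * g)).toMonoidHom := by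
      refine h.conj_eq_of_mem (w := a₀ * (e ⟨a₀, ha₀⟩ : G)) ?_ ?_ ?_
      · rw [mem_conjMap_iff]
        convert ha₀ using 1
        rw [hcomm ⟨a₀, ha₀⟩, ← hy₀e]
        group
      · rw [← conjMap_conjMap]
        have := hgraph x₀ hx₀ ⟨a₀, ha₀⟩
        rwa [hx₀A] at this
      · intro e'
        refine hp₀ (huniq ⟨a₀, ha₀⟩ 1 (e ⟨a₀, ha₀⟩) 1 ?_).1
        simpa using e'
    rw [hU, ← conjMap_conjMap] at hmem
    have hyP1 : y₀ * (a : G) * y₀⁻¹ * (a : G)⁻¹ ∈ V₁ := h1.comm_mem y₀ hy₀ a (hVP1 a.2)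
    set u : ↥(V₁) := ⟨_, hyP1⟩ with hu
    have hua : y₀ * (a : G) * y₀⁻¹ = (a : G) * (u : G) := by
      rw [hcomm a u, hu]; group
    rw [hua] at hmem ⊢
    obtain ⟨b, hb⟩ : ∃ b, e b = u := e.surjective u
    rw [← hb] at hmem ⊢
    have := hgraph' x₀ hx₀ a b hmem
    rw [hx₀A] at this
    have hba : b = a := Additive.ofMul.injective this
    rw [hba]
  -- the flip
  set σ := x₀ * y₀ * x₀ with hσ
  have hflip : ∀ a b : ↥V, σ * ((a : G) * (e b : G)) * σ⁻¹ = (b : G) * (e a : G) := by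
    intro a b
    have hxa : ∀ c : ↥V, x₀ * (c : G) * x₀⁻¹ = c := fun c => by
      rw [h.centralizes x₀ hx₀ c c.2, mul_inv_cancel_right]
    have hxb : ∀ c : ↥V, x₀ * (e c : G) * x₀⁻¹ = (c : G) * (e c : G) := fun c => by
      rw [hAconj x₀ hx₀, hx₀A]; rfl
    have hyb : ∀ c : ↥V, y₀ * (e c : G) * y₀⁻¹ = e c := fun c => by
      rw [h1.centralizes y₀ hy₀ _ (e c).2, mul_inv_cancel_right]
    have h2 : ∀ c : ↥V, c * c = 1 := fun c => Subtype.ext (h.sq_eq_one c c.2)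
    have h3 : e a * e a = 1 := by rw [← map_mul, h2, map_one]
    have h4 : e b * e b = 1 := by rw [← map_mul, h2, map_one]
    have step : σ * ((a : G) * (e b : G)) * σ⁻¹ =
        ((a * b * (a * b) * b : ↥V) : G) * ((e (a * b) * e b : ↥(V₁)) : G) := by
      calc σ * ((a : G) * (e b : G)) * σ⁻¹ =
          x₀ * (y₀ * ((x₀ * (a : G) * x₀⁻¹) * (x₀ * (e b : G) * x₀⁻¹)) * y₀⁻¹) * x₀⁻¹ := by
            rw [hσ]; group
        _ = x₀ * (y₀ * (((a * b : ↥V) : G) * (e b : G)) * y₀⁻¹) * x₀⁻¹ := by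
            rw [hxa, hxb, ← mul_assoc (a : G)]; rfl
        _ = x₀ * ((y₀ * ((a * b : ↥V) : G) * y₀⁻¹) * (y₀ * (e b : G) * y₀⁻¹)) * x₀⁻¹ := by group
        _ = (x₀ * ((a * b : ↥V) : G) * x₀⁻¹) * (x₀ * ((e (a * b) * e b : ↥(V₁)) : G) * x₀⁻¹) := by
            rw [hy₀', hyb]
            simp only [Subgroup.coe_mul]
            group
        _ = ((a * b : ↥V) : G) * (((a * b * b : ↥V) : G) * ((e (a * b) * e b : ↥(V₁)) : G)) := by
            rw [hxa, ← map_mul e, hxb]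
        _ = _ := by
            simp only [Subgroup.coe_mul]
            group
    rw [step, h2, one_mul, map_mul e, mul_assoc (e a), h4, mul_one]
  have hInv : IsInvSubgroup J := by
    refine ⟨?_, hone, ?_⟩
    · rw [← one_add_one_eq_two]
      refine AddMonoidHom.ext fun a => ?_
      change a + a = 0
      exact congrArg Additive.ofMul (Subtype.ext (h.sq_eq_one _ a.toMul.2))
    rintro _ ⟨x, hx, rfl⟩ hf0
    set c : ↥V := (A x hx p₀).toMul with hc
    have hc1 : c ≠ 1 := fun e' => hf0 (hne0 _ hp₀ _ (hAJ x hx) (congrArg Additive.ofMul e'))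
    obtain ⟨t, ht, hte⟩ := hS (e c) (e c).2 (fun e' => hc1 (e.map_eq_one_iff.mp (Subtype.ext e')))
      a₀ ha₀
    have ht' : A t ht (Additive.ofMul c) = p₀ := congrArg Additive.ofMul (Subtype.ext hte)
    have hU : V.map (MulAut.conj (σ * (x * g))).toMonoidHom = V.map (MulAut.conj (t * g)).toMonoidHom := by
      refine h.conj_eq_of_mem (w := a₀ * (e c : G)) ?_ ?_ ?_
      · have h2 := hgraph x hx ⟨a₀, ha₀⟩
        rw [← conjMap_conjMap, mem_conjMap_iff, ← conjMap_conjMap]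
        convert h2 using 1
        have h3 := hflip c ⟨a₀, ha₀⟩
        change σ⁻¹ * ((a₀ : G) * (e c : G)) * σ = (c : G) * (e ⟨a₀, ha₀⟩ : G)
        rw [← h3]; group
      · have h2 := hgraph t ht c
        rw [ht'] at h2
        rwa [← conjMap_conjMap]
      · intro e'
        refine hp₀ (huniq ⟨a₀, ha₀⟩ 1 (e c) 1 ?_).1
        simpa using e'
    have hcomp : A t ht * A x hx = 1 := by
      refine AddMonoidHom.ext fun a => ?_
      change A t ht (A x hx (Additive.ofMul a.toMul)) = Additive.ofMul a.toMul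
      set a' : ↥V := (A x hx (Additive.ofMul a.toMul)).toMul with ha'
      refine hgraph' t ht a.toMul a' ?_
      have h2 := hgraph x hx a.toMul
      rw [conjMap_conjMap, ← hU, ← conjMap_conjMap, mem_conjMap_iff, ← conjMap_conjMap]
      convert h2 using 1
      rw [← hflip a' a.toMul]
      group
      rfl
    haveI : Finite (Additive ↥V) := inferInstanceAs (Finite ↥V)
    refine ⟨A t ht, hAJ t ht, ?_, hcomp⟩
    have hbij : Function.Surjective (A x hx) := Finite.surjective_of_injective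
      (Function.LeftInverse.injective (g := A t ht) fun a => DFunLike.congr_fun hcomp a)
    refine AddMonoidHom.ext fun a => ?_
    obtain ⟨b, rfl⟩ := hbij a
    change A x hx (A t ht (A x hx b)) = A x hx b
    rw [show A t ht (A x hx b) = b from DFunLike.congr_fun hcomp b]
  haveI : Finite ↥J := Finite.of_injective (fun f : ↥J => (f : AddMonoid.End (Additive ↥V)) p₀)
    fun f f' he => Subtype.ext (hevinj _ f.2 _ f'.2 he)
  let S : Subring (AddMonoid.End (Additive ↥V)) :=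
    { J with
      one_mem' := hone
      mul_mem' := fun {a b} ha hb => (jordan_division_comm hInv ha hb).2 }
  have hSfield : IsField ↥S := by
    refine ⟨⟨0, 1, fun e' => hp₀ ?_⟩, fun a b => Subtype.ext (jordan_division_comm hInv a.2 b.2).1,
      fun {a} ha => ?_⟩
    · have h2 := DFunLike.congr_fun (congrArg Subtype.val e') p₀
      exact (Additive.ofMul.injective h2).symm
    · obtain ⟨b, hb, hab, -⟩ := hInv.exists_inv a a.2 (fun e' => ha (Subtype.ext e'))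
      exact ⟨⟨b, hb⟩, Subtype.ext hab⟩
  letI := hSfield.toField
  haveI : Finite ↥S := inferInstanceAs (Finite ↥J)
  obtain ⟨F, _, _, ⟨eR⟩⟩ := exists_field_type_zero ↥S
  let ev : F → ↥V := fun f => ((eR f : AddMonoid.End (Additive ↥V)) p₀).toMul
  have hev_add : ∀ f f', ev (f + f') = ev f * ev f' := fun f f' => by
    simp only [ev]; rw [RingEquiv.map_add]; rfl
  have hev_mul : ∀ f f', Additive.ofMul (ev (f * f')) =
      (eR f : AddMonoid.End (Additive ↥V)) (Additive.ofMul (ev f')) := fun f f' => by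
    simp only [ev]; rw [RingEquiv.map_mul]; rfl
  have hev_bij : Function.Bijective ev := by
    refine ⟨fun f f' he => eR.injective (Subtype.ext (hevinj _ (eR f).2 _ (eR f').2
      (Additive.toMul.injective he))), fun a => ?_⟩
    obtain ⟨f, hf, hfe⟩ := hevsurj a
    refine ⟨eR.symm ⟨f, hf⟩, ?_⟩
    simp only [ev, RingEquiv.apply_symm_apply]
    rw [hfe]; rfl
  have hev0 : ev 0 = 1 := by
    have h2 := hev_add 0 0
    rwa [add_zero, left_eq_mul] at h2
  have hev1 : ev 1 = ⟨a₀, ha₀⟩ := by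
    simp only [ev]
    rw [RingEquiv.map_one]
    rfl
  let ι : (Fin 2 → F) → G := fun v => (ev (v 0) : G) * (e (ev (v 1)) : G)
  have hι_inj : Function.Injective ι := by
    intro v v' he
    obtain ⟨h2, h3⟩ := huniq _ _ _ _ he
    funext i
    fin_cases i
    · exact hev_bij.1 h2
    · exact hev_bij.1 (e.injective h3)
  have hι_mem : ∀ v, ι v ∈ V ⊔ V₁ := fun v =>
    Subgroup.mul_mem _ (le_sup_left (a := V) (ev (v 0)).2) (le_sup_right (a := V) (e (ev (v 1))).2)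
  have hι_surj : ∀ w ∈ V ⊔ V₁, ∃ v, ι v = w := by
    intro w hw
    obtain ⟨a, ha, b, hb, rfl⟩ := mem_sup_conj h hgP hw
    obtain ⟨α, hα⟩ := hev_bij.2 ⟨a, ha⟩
    obtain ⟨β, hβ⟩ := hev_bij.2 (e.symm ⟨b, hb⟩)
    refine ⟨![α, β], ?_⟩
    simp only [ι, Matrix.cons_val_zero, Matrix.cons_val_one, Matrix.cons_val_fin_one, hα, hβ,
      MulEquiv.apply_symm_apply]
  have hι0 : ∀ γ : F, ι ![γ, 0] = (ev γ : G) := fun γ => by
    simp only [ι, Matrix.cons_val_zero, Matrix.cons_val_one, Matrix.cons_val_fin_one, hev0, map_one,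
      Subgroup.coe_one, mul_one]
  have hB : ∀ y ∈ P₁, ∀ f : F, y * a₀ * y⁻¹ = a₀ * (e (ev f) : G) →
      ∀ a : F, y * (ev a : G) * y⁻¹ = (ev a : G) * (e (ev (f * a)) : G) := by
    intro y hy f hf a
    by_cases hf0 : f = 0
    · subst hf0
      rw [hev0, map_one, Subgroup.coe_one, mul_one] at hf
      have hyN := h.ti y a₀ ha₀ ha₀1 (by rw [hf]; exact ha₀)
      have h2 : y * (ev a : G) * y⁻¹ * (ev a : G)⁻¹ = 1 := ti_inf_conj_eq_one h hgN
        (V.mul_mem ((Subgroup.mem_normalizer_iff.mp hyN _).mp (ev a).2) (V.inv_mem (ev a).2))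
        (h1.comm_mem y hy _ (hVP1 (ev a).2))
      rw [mul_inv_eq_one] at h2
      rw [h2, zero_mul, hev0, map_one, Subgroup.coe_one, mul_one]
    · obtain ⟨x, hx, hxe⟩ := (eR f⁻¹).2
      have hxev : ∀ b, A x hx (Additive.ofMul (ev b)) = Additive.ofMul (ev (f⁻¹ * b)) := fun b => by
        rw [hev_mul, hxe]
      have hU : V.map (MulAut.conj y).toMonoidHom = V.map (MulAut.conj (x * g)).toMonoidHom := by
        refine h.conj_eq_of_mem (w := y * a₀ * y⁻¹) ?_ ?_ fun e' => ha₀1 (conj_eq_one_iff.mp e')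
        · rw [mem_conjMap_iff]; convert ha₀ using 1; group
        · rw [hf, ← conjMap_conjMap]
          have h2 := hgraph x hx (ev f)
          rwa [hxev, inv_mul_cancel₀ hf0, hev1] at h2
      have hmem : y * (ev a : G) * y⁻¹ ∈ V.map (MulAut.conj y).toMonoidHom := by
        rw [mem_conjMap_iff]; convert (ev a).2 using 1; group
      rw [hU, ← conjMap_conjMap] at hmem
      have hyP1 : y * (ev a : G) * y⁻¹ * (ev a : G)⁻¹ ∈ V₁ := h1.comm_mem y hy _ (hVP1 (ev a).2)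
      obtain ⟨b, hb⟩ : ∃ b, e (ev b) = (⟨_, hyP1⟩ : ↥(V₁)) := by
        obtain ⟨c, hc⟩ := e.surjective ⟨_, hyP1⟩
        obtain ⟨b, rfl⟩ := hev_bij.2 c
        exact ⟨b, hc⟩
      have hya : y * (ev a : G) * y⁻¹ = (ev a : G) * (e (ev b) : G) := by
        rw [hcomm, hb]; group
      rw [hya] at hmem ⊢
      have h3 := hgraph' x hx (ev a) (ev b) hmem
      rw [hxev] at h3
      have h4 : f⁻¹ * b = a := hev_bij.1 (Additive.ofMul.injective h3)
      rw [← h4, ← mul_assoc, mul_inv_cancel₀ hf0, one_mul]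
  have hex1 : ∀ y ∈ P₁, ∃ f : F, y * a₀ * y⁻¹ = a₀ * (e (ev f) : G) := by
    intro y hy
    have hyP1 : y * a₀ * y⁻¹ * a₀⁻¹ ∈ V₁ := h1.comm_mem y hy _ (hVP1 ha₀)
    obtain ⟨c, hc⟩ := e.surjective ⟨_, hyP1⟩
    obtain ⟨f, rfl⟩ := hev_bij.2 c
    exact ⟨f, by rw [hc, hcomm ⟨a₀, ha₀⟩]; group⟩
  have hsurjP1 : ∀ f : F, ∃ y ∈ P₁, y * a₀ * y⁻¹ = a₀ * (e (ev f) : G) := by
    intro f
    obtain ⟨y, hy, hye⟩ := hS1 a₀ ha₀ ha₀1 _ (e (ev f)).2
    refine ⟨y, hy, ?_⟩
    rw [hcomm ⟨a₀, ha₀⟩, ← hye]; group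
  have hPx : ∀ x (hx : x ∈ P) (c : F), (eR c : AddMonoid.End (Additive ↥V)) = A x hx →
      ∀ v, x * ι v * x⁻¹ = ι ![v 0 + c * v 1, v 1] := by
    intro x hx c hc v
    simp only [ι, Matrix.cons_val_zero, Matrix.cons_val_one, Matrix.cons_val_fin_one]
    have h2 : ev (c * v 1) = (A x hx (Additive.ofMul (ev (v 1)))).toMul := by
      have := hev_mul c (v 1)
      rw [hc] at this
      exact congrArg Additive.toMul this
    rw [hev_add, h2, show x * ((ev (v 0) : G) * (e (ev (v 1)) : G)) * x⁻¹ =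
      (x * (ev (v 0) : G) * x⁻¹) * (x * (e (ev (v 1)) : G) * x⁻¹) by group, hAconj x hx,
      h.centralizes x hx _ (ev (v 0)).2, mul_inv_cancel_right, Subgroup.coe_mul, mul_assoc]
  have hP1x : ∀ y ∈ P₁, ∀ f : F, y * a₀ * y⁻¹ = a₀ * (e (ev f) : G) →
      ∀ v, y * ι v * y⁻¹ = ι ![v 0, f * v 0 + v 1] := by
    intro y hy f hf v
    simp only [ι, Matrix.cons_val_zero, Matrix.cons_val_one, Matrix.cons_val_fin_one]
    rw [show y * ((ev (v 0) : G) * (e (ev (v 1)) : G)) * y⁻¹ =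
      (y * (ev (v 0) : G) * y⁻¹) * (y * (e (ev (v 1)) : G) * y⁻¹) by group, hB y hy f hf,
      h1.centralizes y hy _ (e (ev (v 1))).2, mul_inv_cancel_right, hev_add, map_mul,
      Subgroup.coe_mul, mul_assoc]
  refine ⟨F, inferInstance, inferInstance, ι, hι_inj, hι_mem, hι_surj, ?_, ?_, ?_, ?_, ?_, ?_, ?_, ?_⟩
  · rw [← Nat.card_eq_fintype_card]
    exact Nat.card_eq_of_bijective ev hev_bij
  · intro a ha
    obtain ⟨α, hα⟩ := hev_bij.2 ⟨a, ha⟩
    exact ⟨α, by rw [hι0, hα]⟩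
  · intro α
    rw [hι0]
    exact (ev α).2
  · rw [hι0, hev0, Subgroup.coe_one]
  · intro x hx
    exact ⟨eR.symm ⟨A x hx, hAJ x hx⟩, hPx x hx _ (by rw [RingEquiv.apply_symm_apply])⟩
  · intro c
    obtain ⟨x, hx, hxe⟩ := (eR c).2
    exact ⟨x, hx, hPx x hx c hxe.symm⟩
  · intro y hy
    obtain ⟨f, hf⟩ := hex1 y hy
    exact ⟨f, hP1x y hy f hf⟩
  · intro c
    obtain ⟨y, hy, hye⟩ := hsurjP1 c
    exact ⟨y, hy, hP1x y hy c hye⟩

/-- The main theorem: `H/C_H(W) ≅ SL(2, q)` and `H ∩ N(V)` is transitive on `V#`. -/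
theorem ti_sl2 [Finite G] (h : IsTIPair V P) (hgN : g ∉ Subgroup.normalizer (V : Set G))
    (hgP : V₁ ≤ P) (hVP1 : V ≤ P₁)
    (hS : ∀ w ∈ V₁, w ≠ 1 → ∀ v ∈ V, ∃ t ∈ P, t * w * t⁻¹ * w⁻¹ = v)
    (hS1 : ∀ a ∈ V, a ≠ 1 → ∀ u ∈ V₁, ∃ y ∈ P₁, y * a * y⁻¹ * a⁻¹ = u) :
    (∀ hN : ((Subgroup.centralizer ((V ⊔ V₁ : Subgroup G) : Set G)).subgroupOf (P ⊔ P₁)).Normal,
      ∃ (F : Type) (_ : Field F) (_ : Fintype F), Fintype.card F = Nat.card ↥V ∧
        Nonempty (↥(P ⊔ P₁) ⧸ (Subgroup.centralizer ((V ⊔ V₁ : Subgroup G) : Set G)).subgroupOf (P ⊔ P₁) ≃*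
          Matrix.SpecialLinearGroup (Fin 2) F)) ∧
    ∀ a ∈ V, ∀ b ∈ V, a ≠ 1 → b ≠ 1 →
      ∃ k ∈ P ⊔ P₁, k ∈ Subgroup.normalizer (V : Set G) ∧ k * a * k⁻¹ = b := by
  obtain ⟨F, _, _, ι, hι_inj, hι_mem, hι_surj, hcard, hVι, hιV, hι00, hP', hPs, hP1', hP1s⟩ :=
    ti_coordinates h hgN hgP hVP1 hS hS1
  set W := V ⊔ V₁ with hW
  set H := P ⊔ P₁ with hH
  have hHW : H ≤ Subgroup.normalizer (W : Set G) := ti_sup_le_normalizer h hgP hVP1
  have hex : ∀ (k : ↥H) (v : Fin 2 → F), ∃ v', ι v' = (k : G) * ι v * (k : G)⁻¹ := fun k v =>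
    hι_surj _ ((Subgroup.mem_normalizer_iff.mp (hHW k.2) _).mp (hι_mem v))
  choose act hact using hex
  let π : ↥H →* Equiv.Perm (Fin 2 → F) :=
    { toFun := fun k =>
        { toFun := act k
          invFun := act k⁻¹
          left_inv := fun v => hι_inj (by rw [hact, hact]; simp [mul_assoc])
          right_inv := fun v => hι_inj (by rw [hact, hact]; simp [mul_assoc]) }
      map_one' := Equiv.ext fun v => hι_inj (by
        simp only [Equiv.coe_fn_mk, Equiv.Perm.one_apply, hact]; simp)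
      map_mul' := fun k k' => Equiv.ext fun v => hι_inj (by
        simp only [Equiv.coe_fn_mk, Equiv.Perm.mul_apply, hact]; simp [mul_assoc]) }
  have hπ : ∀ k v, ι (π k v) = (k : G) * ι v * (k : G)⁻¹ := fun k v => hact k v
  have hPimg : ∀ x (hx : x ∈ P), π ⟨x, le_sup_left (a := P) hx⟩ ∈ (slPerm F).range := by
    intro x hx
    obtain ⟨c, hc⟩ := hP' x hx
    refine ⟨Matrix.SpecialLinearGroup.transvection (show (0 : Fin 2) ≠ 1 by decide) c,
      Equiv.ext fun v => hι_inj ?_⟩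
    rw [hπ, hc, slPerm_transvection_zero_one]
  have hP1img : ∀ y (hy : y ∈ P₁), π ⟨y, le_sup_right (a := P) hy⟩ ∈ (slPerm F).range := by
    intro y hy
    obtain ⟨c, hc⟩ := hP1' y hy
    refine ⟨Matrix.SpecialLinearGroup.transvection (show (1 : Fin 2) ≠ 0 by decide) c,
      Equiv.ext fun v => hι_inj ?_⟩
    rw [hπ, hc, slPerm_transvection_one_zero]
  have hrange : π.range = (slPerm F).range := by
    apply le_antisymm
    · rintro _ ⟨k, rfl⟩
      have hle : H ≤ ((slPerm F).range.comap π).map H.subtype :=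
        sup_le (fun x hx => ⟨⟨x, le_sup_left (a := P) hx⟩, hPimg x hx, rfl⟩)
          (fun y hy => ⟨⟨y, le_sup_right (a := P) hy⟩, hP1img y hy, rfl⟩)
      obtain ⟨k', hk', he⟩ := hle k.2
      rw [H.subtype_injective he] at hk'
      exact hk'
    · rw [MonoidHom.range_eq_map, Subgroup.map_le_iff_le_comap]
      refine le_of_eq (CfsgLib.ClassicalLinear.eq_top_of_transvection_mem fun i j hij c => ?_).symm
      rw [Subgroup.mem_comap]
      fin_cases i <;> fin_cases j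
      · exact absurd rfl hij
      · obtain ⟨x, hx, hxc⟩ := hPs c
        refine ⟨⟨x, le_sup_left (a := P) hx⟩, Equiv.ext fun v => hι_inj ?_⟩
        rw [hπ]
        exact (hxc v).trans (congrArg ι (slPerm_transvection_zero_one c v).symm)
      · obtain ⟨y, hy, hyc⟩ := hP1s c
        refine ⟨⟨y, le_sup_right (a := P) hy⟩, Equiv.ext fun v => hι_inj ?_⟩
        rw [hπ]
        exact (hyc v).trans (congrArg ι (slPerm_transvection_one_zero c v).symm)
      · exact absurd rfl hij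
  have hker : π.ker = (Subgroup.centralizer (W : Set G)).subgroupOf H := by
    ext k
    rw [MonoidHom.mem_ker, Subgroup.mem_subgroupOf, Subgroup.mem_centralizer_iff]
    constructor
    · intro hk w hw
      obtain ⟨v, rfl⟩ := hι_surj w hw
      have h2 := hπ k v
      rw [hk, Equiv.Perm.one_apply] at h2
      exact eq_mul_inv_iff_mul_eq.mp h2
    · intro hk
      refine Equiv.ext fun v => hι_inj ?_
      rw [hπ, ← hk _ (hι_mem v), mul_inv_cancel_right, Equiv.Perm.one_apply]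
  refine ⟨fun hN => ?_, ?_⟩
  · exact ⟨F, inferInstance, inferInstance, hcard,
      ⟨((QuotientGroup.quotientMulEquivOfEq hker.symm).trans
        (QuotientGroup.quotientKerEquivRange π)).trans
        ((MulEquiv.subgroupCongr hrange).trans (MonoidHom.ofInjective (slPerm_injective F)).symm)⟩⟩
  · intro a ha b hb ha1 hb1
    obtain ⟨α, hα⟩ := hVι a ha
    obtain ⟨β, hβ⟩ := hVι b hb
    have hα0 : α ≠ 0 := fun e' => ha1 (by rw [← hα, e', hι00])
    have hβ0 : β ≠ 0 := fun e' => hb1 (by rw [← hβ, e', hι00])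
    set M : Matrix.SpecialLinearGroup (Fin 2) F :=
      Matrix.SpecialLinearGroup.diag2n (show (0 : Fin 2) ≠ 1 by decide) (β / α) (div_ne_zero hβ0 hα0)
      with hM
    obtain ⟨k, hk⟩ : slPerm F M ∈ π.range := hrange ▸ ⟨M, rfl⟩
    have hka : (k : G) * a * (k : G)⁻¹ = b := by
      rw [← hα, ← hπ, hk, hM, slPerm_diag2n, div_mul_cancel₀ β hα0, hβ]
    exact ⟨k, k.2, h.ti k a ha ha1 (by rw [hka]; exact hb), hka⟩

end

end CfsgLib.ClassK
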