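import Cfsg.Agent.Lib.ClassK.TI

/-!
The symmetry lemma for a TI elementary abelian 2-subgroup `V` with a large group `P` around it:
if the conjugate `g V g⁻¹ ≠ V` lies in `P`, then `V ≤ g P g⁻¹`.
-/

set_option autoImplicit false

namespace CfsgLib.ClassK

variable {G : Type*} [Group G]

/-- `V` is a TI elementary abelian 2-group, `P` a class-2 group over `V` that is maximal among the
elements of `N(V)` centralizing `V` and `P/V`. -/
structure IsTIPair (V P : Subgroup G) : Prop where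
  sq_eq_one : ∀ v ∈ V, v * v = 1
  le : V ≤ P
  centralizes : ∀ x ∈ P, ∀ v ∈ V, x * v = v * x
  conj_mem : ∀ x ∈ Subgroup.normalizer (V : Set G), ∀ y ∈ P, x * y * x⁻¹ ∈ P
  comm_mem : ∀ x ∈ P, ∀ y ∈ P, x * y * x⁻¹ * y⁻¹ ∈ V
  sq_mem : ∀ x ∈ P, x * x ∈ V
  central_mem : ∀ x ∈ P, (∀ y ∈ P, x * y = y * x) → x * x = 1 → x ∈ V
  maximal : ∀ x : G, (∀ v ∈ V, x * v = v * x) → (∀ y ∈ P, x * y * x⁻¹ * y⁻¹ ∈ V) → x ∈ P
  ti : ∀ x : G, ∀ v ∈ V, v ≠ 1 → x * v * x⁻¹ ∈ V → x ∈ Subgroup.normalizer (V : Set G)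

theorem mem_normalizer_of_commute {V : Subgroup G} {x : G} (h : ∀ v ∈ V, x * v = v * x) :
    x ∈ Subgroup.normalizer (V : Set G) :=
  Subgroup.centralizer_le_normalizer (V : Set G)
    (Subgroup.mem_centralizer_iff.mpr fun v hv => (h v hv).symm)

theorem IsTIPair.conjMap {V P : Subgroup G} (h : IsTIPair V P) (g : G) :
    IsTIPair (V.map (MulAut.conj g).toMonoidHom) (P.map (MulAut.conj g).toMonoidHom) := by
  have hN : ∀ x : G, x ∈ Subgroup.normalizer ((V.map (MulAut.conj g).toMonoidHom : Subgroup G) : Set G) →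
      g⁻¹ * x * g ∈ Subgroup.normalizer (V : Set G) := by
    intro x hx
    rw [← conjMap_eq_iff_mem_normalizer, conjMap_conjMap] at hx
    rw [← conjMap_eq_iff_mem_normalizer, show g⁻¹ * x * g = g⁻¹ * (x * g) by group, ← conjMap_conjMap,
      hx, conjMap_conjMap, inv_mul_cancel, conjMap_one]
  have hback : ∀ {A : Subgroup G} {a : G}, a ∈ A → g * a * g⁻¹ ∈ A.map (MulAut.conj g).toMonoidHom :=
    fun {A a} ha => by rw [mem_conjMap_iff]; simpa [mul_assoc] using ha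
  constructor
  · intro v hv
    rw [mem_conjMap_iff] at hv
    calc v * v = g * ((g⁻¹ * v * g) * (g⁻¹ * v * g)) * g⁻¹ := by group
      _ = 1 := by rw [h.sq_eq_one _ hv]; group
  · exact Subgroup.map_mono h.le
  · intro x hx v hv
    rw [mem_conjMap_iff] at hx hv
    calc x * v = g * ((g⁻¹ * x * g) * (g⁻¹ * v * g)) * g⁻¹ := by group
      _ = v * x := by rw [h.centralizes _ hx _ hv]; group
  · intro x hx y hy
    rw [mem_conjMap_iff] at hy ⊢
    have := h.conj_mem _ (hN x hx) _ hy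
    convert this using 1
    group
  · intro x hx y hy
    rw [mem_conjMap_iff] at hx hy ⊢
    have := h.comm_mem _ hx _ hy
    convert this using 1
    group
  · intro x hx
    rw [mem_conjMap_iff] at hx ⊢
    have := h.sq_mem _ hx
    convert this using 1
    group
  · intro x hx hc hx2
    rw [mem_conjMap_iff] at hx ⊢
    refine h.central_mem _ hx (fun y hy => ?_) ?_
    · calc g⁻¹ * x * g * y = g⁻¹ * (x * (g * y * g⁻¹)) * g := by group
        _ = y * (g⁻¹ * x * g) := by rw [hc _ (hback hy)]; group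
    · calc g⁻¹ * x * g * (g⁻¹ * x * g) = g⁻¹ * (x * x) * g := by group
        _ = 1 := by rw [hx2]; group
  · intro x hxv hxy
    rw [mem_conjMap_iff]
    refine h.maximal _ (fun v hv => ?_) (fun y hy => ?_)
    · calc g⁻¹ * x * g * v = g⁻¹ * (x * (g * v * g⁻¹)) * g := by group
        _ = v * (g⁻¹ * x * g) := by rw [hxv _ (hback hv)]; group
    · have := hxy _ (hback hy)
      rw [mem_conjMap_iff] at this
      convert this using 1
      group
  · intro x v hv hv1 hxv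
    rw [mem_conjMap_iff] at hv hxv
    have h1 := h.ti (g⁻¹ * x * g) _ hv (fun e => hv1 ?_) ?_
    · rw [← conjMap_eq_iff_mem_normalizer] at h1
      rw [← conjMap_eq_iff_mem_normalizer, conjMap_conjMap,
        show x * g = g * (g⁻¹ * x * g) by group, ← conjMap_conjMap, h1]
    · calc v = g * (g⁻¹ * v * g) * g⁻¹ := by group
        _ = 1 := by rw [e]; group
    · convert hxv using 1
      group

/-- If `g V g⁻¹ ≠ V` lies in `P` and `P` has an elementary abelian subgroup `T` of order `|V|` acting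
fixed-point-freely between `g V g⁻¹` and `V`, then `V ≤ g P g⁻¹`. -/
theorem ti_symmetric [Finite G] {V P T : Subgroup G} (h : IsTIPair V P) (g : G)
    (hne : g ∉ Subgroup.normalizer (V : Set G)) (hgP : V.map (MulAut.conj g).toMonoidHom ≤ P)
    (hTP : T ≤ P) (hT2 : ∀ t ∈ T, t * t = 1) (hTcard : Nat.card ↥T = Nat.card ↥V)
    (hTf : ∀ t ∈ T, ∀ w ∈ V.map (MulAut.conj g).toMonoidHom, t ≠ 1 → w ≠ 1 → t * w ≠ w * t)
    (hTc : ∀ x ∈ P, ∀ t ∈ T, t ≠ 1 → x * t = t * x → ∀ t' ∈ T, x * t' = t' * x) :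
    V ≤ P.map (MulAut.conj g).toMonoidHom := by
  set V1 := V.map (MulAut.conj g).toMonoidHom with hV1
  set P1 := P.map (MulAut.conj g).toMonoidHom with hP1
  have h1 : IsTIPair V1 P1 := h.conjMap g
  -- `V ∩ V1 = 1`
  have hdisj : ∀ v ∈ V, v ∈ V1 → v = 1 := by
    intro v hv hv'
    rw [hV1, mem_conjMap_iff] at hv'
    by_contra hv1
    exact hne (inv_mem_iff.mp (h.ti g⁻¹ v hv hv1 (by simpa using hv')))
  have hcard1 : Nat.card ↥V1 = Nat.card ↥V := card_conjMap V g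
  obtain ⟨a₀, ha₀, ha₀1⟩ : ∃ v ∈ V, v ≠ 1 := by
    by_contra hh
    push Not at hh
    refine hne (mem_normalizer_of_commute fun v hv => ?_)
    rw [hh v hv, mul_one, one_mul]
  obtain ⟨w₀, hw₀, hw₀1⟩ : ∃ w ∈ V1, w ≠ 1 := by
    refine ⟨g * a₀ * g⁻¹, by rw [hV1, mem_conjMap_iff]; simpa [mul_assoc] using ha₀, fun e => ha₀1 ?_⟩
    calc a₀ = g⁻¹ * (g * a₀ * g⁻¹) * g := by group
      _ = 1 := by rw [e]; group
  obtain ⟨t₀, ht₀, ht₀1⟩ : ∃ t ∈ T, t ≠ 1 := by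
    by_contra hh
    push Not at hh
    have h2 : T = ⊥ := by rw [eq_bot_iff]; exact fun x hx => Subgroup.mem_bot.mpr (hh x hx)
    rw [h2, Subgroup.card_bot, eq_comm, Subgroup.card_eq_one] at hTcard
    rw [hTcard, Subgroup.mem_bot] at ha₀
    exact ha₀1 ha₀
  -- `D = C_P(V1)`
  have hD : ∀ x ∈ P, ∀ w ∈ V1, w ≠ 1 → x * w = w * x → ∀ w' ∈ V1, x * w' = w' * x := by
    intro x hx w hw hw1 hxw w' hw'
    have hxN := h1.ti x w hw hw1 (by rw [hxw]; simpa using hw)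
    have h2 : x * w' * x⁻¹ * w'⁻¹ = 1 := hdisj _ (h.comm_mem x hx w' (hgP hw'))
      (V1.mul_mem ((Subgroup.mem_normalizer_iff.mp hxN w').mp hw') (V1.inv_mem hw'))
    rw [mul_inv_eq_one, mul_inv_eq_iff_eq_mul] at h2
    exact h2
  have hV1c : ∀ w ∈ V1, ∀ w' ∈ V1, w * w' = w' * w := fun w hw w' hw' => by
    have hi : ∀ u ∈ V1, u⁻¹ = u := fun u hu => inv_eq_of_mul_eq_one_right (h1.sq_eq_one u hu)
    calc w * w' = (w * w')⁻¹ := (hi _ (V1.mul_mem hw hw')).symm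
      _ = _ := by rw [mul_inv_rev, hi w hw, hi w' hw']
  -- `t ↦ [t, w]` is onto `V`
  have hsurj : ∀ w ∈ V1, w ≠ 1 → ∀ v ∈ V, ∃ t ∈ T, t * w * t⁻¹ * w⁻¹ = v := by
    intro w hw hw1
    let f : ↥T → ↥V := fun t => ⟨(t : G) * w * (t : G)⁻¹ * w⁻¹, h.comm_mem _ (hTP t.2) w (hgP hw)⟩
    have hinj : Function.Injective f := by
      intro t t' e
      have e1 : (t : G) * w * (t : G)⁻¹ = (t' : G) * w * (t' : G)⁻¹ :=
        mul_right_cancel (congrArg Subtype.val e)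
      have e2 : ((t' : G)⁻¹ * t) * w = w * ((t' : G)⁻¹ * t) := by
        calc ((t' : G)⁻¹ * t) * w = (t' : G)⁻¹ * ((t : G) * w * (t : G)⁻¹) * t := by group
          _ = _ := by rw [e1]; group
      by_contra hne'
      exact hTf _ (T.mul_mem (T.inv_mem t'.2) t.2) w hw
        (fun e => hne' (Subtype.ext (inv_mul_eq_one.mp e).symm)) hw1 e2
    intro v hv
    obtain ⟨t, ht⟩ := (hinj.bijective_of_nat_card_le hTcard.ge).2 ⟨v, hv⟩
    exact ⟨t, t.2, congrArg Subtype.val ht⟩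
  have hsurj1 : ∀ t ∈ T, t ≠ 1 → ∀ v ∈ V, ∃ w ∈ V1, t * w * t⁻¹ * w⁻¹ = v := by
    intro t ht ht1
    let f : ↥V1 → ↥V := fun w => ⟨t * (w : G) * t⁻¹ * (w : G)⁻¹, h.comm_mem t (hTP ht) _ (hgP w.2)⟩
    have hinj : Function.Injective f := by
      intro w w' e
      have e1 : t * (w : G) * t⁻¹ * (w : G)⁻¹ = t * (w' : G) * t⁻¹ * (w' : G)⁻¹ := congrArg Subtype.val e
      by_contra hne'
      refine hTf t ht ((w' : G)⁻¹ * w) (V1.mul_mem (V1.inv_mem w'.2) w.2) ht1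
        (fun e => hne' (Subtype.ext (inv_mul_eq_one.mp e).symm)) ?_
      have e2 : t * (w : G) * t⁻¹ = t * (w' : G) * t⁻¹ * (w' : G)⁻¹ * w := by rw [← e1]; group
      calc t * ((w' : G)⁻¹ * w) = (t * (w' : G) * t⁻¹)⁻¹ * (t * (w : G) * t⁻¹) * t := by group
        _ = (w' : G)⁻¹ * w * t := by rw [e2]; group
    intro v hv
    obtain ⟨w, hw⟩ := (hinj.bijective_of_nat_card_le hcard1.ge).2 ⟨v, hv⟩
    exact ⟨w, w.2, congrArg Subtype.val hw⟩
  -- `P = T D`
  have hTD : ∀ x ∈ P, ∃ t ∈ T, ∀ w ∈ V1, (t⁻¹ * x) * w = w * (t⁻¹ * x) := by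
    intro x hx
    obtain ⟨t, ht, e⟩ := hsurj w₀ hw₀ hw₀1 _ (h.comm_mem x hx w₀ (hgP hw₀))
    have e1 : t * w₀ * t⁻¹ = x * w₀ * x⁻¹ := mul_right_cancel e
    refine ⟨t, ht, hD _ (P.mul_mem (P.inv_mem (hTP ht)) hx) w₀ hw₀ hw₀1 ?_⟩
    calc t⁻¹ * x * w₀ = t⁻¹ * (x * w₀ * x⁻¹) * x := by group
      _ = w₀ * (t⁻¹ * x) := by rw [← e1]; group
  -- `D = V1 P₀`
  have hP0 : ∀ d ∈ P, (∀ w ∈ V1, d * w = w * d) →
      ∃ u ∈ V1, ∀ t ∈ T, (u⁻¹ * d) * t = t * (u⁻¹ * d) := by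
    intro d hd hdc
    obtain ⟨u, hu, e⟩ := hsurj1 t₀ ht₀ ht₀1 _ (h.comm_mem t₀ (hTP ht₀) d hd)
    set c := t₀ * d * t₀⁻¹ * d⁻¹ with hc
    have hcV : c ∈ V := h.comm_mem t₀ (hTP ht₀) d hd
    refine ⟨u, hu, hTc _ (P.mul_mem (P.inv_mem (hgP hu)) hd) t₀ ht₀ ht₀1 ?_⟩
    have e1 : t₀ * u * t₀⁻¹ = c * u := by rw [← e]; group
    have e2 : t₀ * d * t₀⁻¹ = c * d := by rw [hc]; group
    symm
    calc t₀ * (u⁻¹ * d) = (t₀ * u * t₀⁻¹)⁻¹ * (t₀ * d * t₀⁻¹) * t₀ := by group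
      _ = u⁻¹ * d * t₀ := by rw [e1, e2]; group
  have hcentral : ∀ p : G, (∀ t ∈ T, p * t = t * p) →
      (∀ d ∈ P, (∀ w ∈ V1, d * w = w * d) → p * d = d * p) → ∀ y ∈ P, p * y = y * p := by
    intro p hpT hpD y hy
    obtain ⟨t, ht, htd⟩ := hTD y hy
    have e1 : Commute p t := hpT t ht
    have e2 : Commute p (t⁻¹ * y) := hpD _ (P.mul_mem (P.inv_mem (hTP ht)) hy) htd
    simpa using (e1.mul_right e2).eq
  have hWmem : ∀ x ∈ P, x * x = 1 → (∀ d ∈ P, (∀ w ∈ V1, d * w = w * d) → x * d = d * x) →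
      ∃ v ∈ V, ∃ w ∈ V1, x = v * w := by
    intro x hx hx2 hxD
    have hxV1 : ∀ w ∈ V1, x * w = w * x := fun w hw => hxD w (hgP hw) (fun w' hw' => hV1c w hw w' hw')
    obtain ⟨u, hu, hu'⟩ := hP0 x hx hxV1
    have hp : u⁻¹ * x ∈ P := P.mul_mem (P.inv_mem (hgP hu)) hx
    have hux : Commute u⁻¹ x := (show Commute x u from hxV1 u hu).symm.inv_left
    have hpV : u⁻¹ * x ∈ V := by
      refine h.central_mem _ hp (hcentral _ hu' fun d hd hdc => ?_) ?_
      · exact ((show Commute d u from hdc u hu).symm.inv_left.mul_left (hxD d hd hdc)).eq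
      · calc u⁻¹ * x * (u⁻¹ * x) = u⁻¹ * (x * u⁻¹) * x := by group
          _ = u⁻¹ * u⁻¹ * (x * x) := by rw [← hux.eq]; group
          _ = 1 := by rw [hx2, ← mul_inv_rev, h1.sq_eq_one u hu]; group
    exact ⟨u⁻¹ * x, hpV, u, hu, by
      calc x = u * (u⁻¹ * x) := by group
        _ = (u⁻¹ * x) * u := h.centralizes u (hgP hu) _ hpV⟩
  -- case A
  by_cases hA : ∃ y ∈ P1, ∃ a ∈ V, y * a * y⁻¹ * a⁻¹ ∈ V1 ∧ y * a ≠ a * y
  · obtain ⟨y, hy, a, ha, hw, hya⟩ := hA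
    set w := y * a * y⁻¹ * a⁻¹ with hwdef
    have hw1 : w ≠ 1 := fun e => hya (by rwa [hwdef, mul_inv_eq_one, mul_inv_eq_iff_eq_mul] at e)
    have ha1 : a ≠ 1 := fun e => hya (by rw [e, mul_one, one_mul])
    obtain ⟨t, ht, hta⟩ := hsurj w hw hw1 a ha
    have htw : t * w * t⁻¹ = y * a * y⁻¹ := by
      calc t * w * t⁻¹ = (t * w * t⁻¹ * w⁻¹) * w := by group
        _ = a * w := by rw [hta]
        _ = w * a := (h.centralizes w (hgP hw) a ha).symm
        _ = y * a * y⁻¹ := by rw [hwdef]; group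
    have ht1 : t ≠ 1 := fun e => ha1 (by rw [← hta, e]; group)
    have hti' : t⁻¹ = t := inv_eq_of_mul_eq_one_right (hT2 t ht)
    set n := (t * g)⁻¹ * y with hn
    have hnN : n ∈ Subgroup.normalizer (V : Set G) := by
      refine h.ti n a ha ha1 ?_
      have hw' := hw
      rw [hV1, mem_conjMap_iff] at hw'
      convert hw' using 1
      calc n * a * n⁻¹ = (t * g)⁻¹ * (y * a * y⁻¹) * (t * g) := by rw [hn]; group
        _ = g⁻¹ * w * g := by rw [← htw]; group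
    have hsub : ∀ u ∈ V1, t * u * t⁻¹ ∈ P1 := by
      intro u hu
      rw [hP1, mem_conjMap_iff]
      have h2 := h.conj_mem n hnN u (hgP hu)
      have h3 : y * u * y⁻¹ = u := by rw [h1.centralizes y hy u hu]; group
      convert h2 using 1
      calc g⁻¹ * (t * u * t⁻¹) * g = g⁻¹ * (t⁻¹ * u * t) * g := by rw [hti']
        _ = g⁻¹ * (t⁻¹ * (y * u * y⁻¹) * t) * g := by rw [h3]
        _ = n * u * n⁻¹ := by rw [hn]; group
    intro v hv
    obtain ⟨u, hu, rfl⟩ := hsurj1 t ht ht1 v hv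
    exact P1.mul_mem (hsub u hu) (P1.inv_mem (h1.le hu))
  -- case B
  exfalso
  push Not at hA
  have hVV1 : ∀ a ∈ V, ∀ w ∈ V1, a * w = w * a := fun a ha w hw => (h.centralizes w (hgP hw) a ha).symm
  have haN : ∀ a ∈ V, ∀ y ∈ P1, a * y * a⁻¹ ∈ P1 := fun a ha y hy =>
    h1.conj_mem a (mem_normalizer_of_commute (hVV1 a ha)) y hy
  have hVP1 : ∀ a ∈ V, a ∈ P1 → a = 1 := by
    intro a ha haP1
    exact hdisj a ha (h1.central_mem a haP1 (fun y hy => (hA y hy a ha (h1.comm_mem y hy a haP1)).symm)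
      (h.sq_eq_one a ha))
  have hcP1 : ∀ a ∈ V, ∀ y ∈ P1, a * y * a⁻¹ * y⁻¹ ∈ P1 := fun a ha y hy =>
    P1.mul_mem (haN a ha y hy) (P1.inv_mem hy)
  have hB2 : ∀ a ∈ V, ∀ y ∈ P1, (a * y * a⁻¹ * y⁻¹) * (a * y * a⁻¹ * y⁻¹) = 1 ∧
      (a * y * a⁻¹ * y⁻¹) * a = a * (a * y * a⁻¹ * y⁻¹) := by
    intro a ha y hy
    set c := a * y * a⁻¹ * y⁻¹ with hc
    have hai : a⁻¹ = a := inv_eq_of_mul_eq_one_right (h.sq_eq_one a ha)
    have haa : a * a = 1 := h.sq_eq_one a ha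
    have h2 : a * c * a⁻¹ = c⁻¹ := by
      rw [hc, hai]
      calc a * (a * y * a * y⁻¹) * a = (a * a) * y * a * y⁻¹ * a := by group
        _ = (a * y * a⁻¹ * y⁻¹)⁻¹ := by rw [haa, one_mul]; group; simp [hai]
        _ = _ := by rw [hai]
    have h3 : c * a * c⁻¹ * a⁻¹ = c * c := by
      calc c * a * c⁻¹ * a⁻¹ = c * (a * c * a⁻¹)⁻¹ := by group
        _ = c * c := by rw [h2, inv_inv]
    have h4 := hA c (hcP1 a ha y hy) a ha (by rw [h3]; exact h1.sq_mem c (hcP1 a ha y hy))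
    refine ⟨?_, h4⟩
    have h5 : a * c * a⁻¹ = c := by rw [← h4]; group
    calc c * c = c * (a * c * a⁻¹) := by rw [h5]
      _ = 1 := by rw [h2, mul_inv_cancel]
  have hR : ∀ y ∈ P1, ∀ a ∈ V, a ≠ 1 → y * a = a * y → ∀ a' ∈ V, y * a' = a' * y := by
    intro y hy a ha ha1 hya a' ha'
    have hyN := h.ti y a ha ha1 (by rw [hya]; simpa using ha)
    have h2 : y * a' * y⁻¹ * a'⁻¹ = 1 := hVP1 _
      (V.mul_mem ((Subgroup.mem_normalizer_iff.mp hyN a').mp ha') (V.inv_mem ha')) (by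
        have := P1.mul_mem hy (haN a' ha' y⁻¹ (P1.inv_mem hy))
        simpa [mul_assoc] using this)
    rwa [mul_inv_eq_one, mul_inv_eq_iff_eq_mul] at h2
  have hcR : ∀ a ∈ V, ∀ y ∈ P1, ∀ a' ∈ V,
      (a * y * a⁻¹ * y⁻¹) * a' = a' * (a * y * a⁻¹ * y⁻¹) := by
    intro a ha y hy a' ha'
    by_cases ha1 : a = 1
    · subst ha1; simp
    · exact hR _ (hcP1 a ha y hy) a ha ha1 (hB2 a ha y hy).2 a' ha'
  have hB4 : ∀ r ∈ P1, (∀ v ∈ V, r * v = v * r) → ∀ d ∈ P, (∀ w ∈ V1, d * w = w * d) →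
      r * d * r⁻¹ * d⁻¹ ∈ V1 := by
    intro r hr hrV d hd hdc
    set i := r * d * r⁻¹ * d⁻¹ with hi
    have hiP : i ∈ P := P.mul_mem (h.conj_mem r (mem_normalizer_of_commute hrV) d hd) (P.inv_mem hd)
    have hiP1 : i ∈ P1 := by
      have := P1.mul_mem hr (h1.conj_mem d (mem_normalizer_of_commute hdc) r⁻¹ (P1.inv_mem hr))
      simpa [hi, mul_assoc] using this
    obtain ⟨v, hv, w, hw, e⟩ := hWmem i hiP
      (hdisj _ (h.sq_mem i hiP) (h1.sq_mem i hiP1)) (fun d' hd' hdc' => by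
        have h2 := hVP1 _ (h.comm_mem i hiP d' hd') (by
          have := P1.mul_mem hiP1 (h1.conj_mem d' (mem_normalizer_of_commute hdc') i⁻¹ (P1.inv_mem hiP1))
          simpa [mul_assoc] using this)
        rwa [mul_inv_eq_one, mul_inv_eq_iff_eq_mul] at h2)
    have : v = 1 := hVP1 v hv (by
      have := P1.mul_mem hiP1 (P1.inv_mem (h1.le hw))
      simpa [e] using this)
    rw [e, this, one_mul]
    exact hw
  have hS : ∀ s ∈ P1, (∀ r ∈ P1, (∀ v ∈ V, r * v = v * r) → s * r = r * s) →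
      ∀ v ∈ V, s * v = v * s := by
    intro s hs hsR
    set a := a₀
    have ha : a ∈ V := ha₀
    set e := a * s * a⁻¹ * s⁻¹ with he
    have heP1 : e ∈ P1 := hcP1 a ha s hs
    have heR := hcR a ha s hs
    have hes : e * s = a * s * a⁻¹ := by rw [he]; group
    have hecom : ∀ r ∈ P1, (∀ v ∈ V, r * v = v * r) → e * r = r * e := by
      intro r hr hrV
      have h2 : Commute (e * s) r := by
        rw [hes]
        exact ((show Commute a r from (hrV a ha).symm).mul_left (hsR r hr hrV)).mul_left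
          (show Commute a r from (hrV a ha).symm).inv_left
      have h3 : Commute (e * s * s⁻¹) r := h2.mul_left (show Commute s r from hsR r hr hrV).inv_left
      simpa using h3.eq
    have hecent : ∀ y ∈ P1, e * y = y * e := by
      intro y hy
      set c := a * y * a⁻¹ * y⁻¹ with hc
      have hcP := hcP1 a ha y hy
      have hcV := hcR a ha y hy
      set k := s * y * s⁻¹ * y⁻¹ with hk
      have hkV1 : k ∈ V1 := h1.comm_mem s hs y hy
      have hkc : ∀ x ∈ P1, k * x = x * k := fun x hx => (h1.centralizes x hx k hkV1).symm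
      have hak : a * k * a⁻¹ = k := by rw [hVV1 a ha k hkV1]; group
      have H1 : e * s * (c * y) = k * (c * y) * (e * s) := by
        calc e * s * (c * y) = a * (s * y) * a⁻¹ := by rw [he, hc]; group
          _ = a * (k * (y * s)) * a⁻¹ := by rw [hk]; group
          _ = (a * k * a⁻¹) * (a * y * a⁻¹) * (a * s * a⁻¹) := by group
          _ = _ := by rw [hak, he, hc]; group
      have H2 : e * s * (c * y) = k * c * (e * y) * s := by
        calc e * s * (c * y) = e * (s * c) * y := by group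
          _ = (e * c) * (s * y) := by rw [hsR c hcP hcV]; group
          _ = c * e * (k * y * s) := by rw [hecom c hcP hcV, hk]; group
          _ = c * (e * k) * y * s := by group
          _ = (c * k) * e * y * s := by rw [← hkc e heP1]; group
          _ = _ := by rw [← hkc c hcP]; group
      have H3 : k * c * (e * y) * s = k * c * (y * e) * s := by
        rw [← H2, H1]; group
      exact mul_left_cancel (mul_right_cancel H3)
    have heV1 : e ∈ V1 := h1.central_mem e heP1 hecent (hB2 a ha s hs).1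
    have h2 : s * a * s⁻¹ * a⁻¹ = e⁻¹ := by rw [he]; group
    exact hR s hs a ha ha₀1 (hA s hs a ha (h2 ▸ V1.inv_mem heV1))
  have hB6 : ∀ d ∈ P, (∀ w ∈ V1, d * w = w * d) → ∀ y ∈ P1,
      d * y * d⁻¹ * y⁻¹ ∈ P1 ∧ ∀ v ∈ V, (d * y * d⁻¹ * y⁻¹) * v = v * (d * y * d⁻¹ * y⁻¹) := by
    intro d hd hdc y hy
    have hY : d * y * d⁻¹ ∈ P1 := h1.conj_mem d (mem_normalizer_of_commute hdc) y hy
    have hσ : d * y * d⁻¹ * y⁻¹ ∈ P1 := P1.mul_mem hY (P1.inv_mem hy)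
    refine ⟨hσ, hS _ hσ fun r hr hrV => ?_⟩
    set i := r * d * r⁻¹ * d⁻¹ with hi
    have hiV1 : i ∈ V1 := hB4 r hr hrV d hd hdc
    set k := y * r * y⁻¹ * r⁻¹ with hk
    have hkV1 : k ∈ V1 := h1.comm_mem y hy r hr
    have hdk : d * k * d⁻¹ = k := by rw [hdc k hkV1]; group
    set Y := d * y * d⁻¹ with hYdef
    have hdr : d * r * d⁻¹ = i⁻¹ * r := by rw [hi]; group
    have hYi : Y * i⁻¹ = i⁻¹ * Y := h1.centralizes Y hY _ (V1.inv_mem hiV1)
    have hki : k * i⁻¹ = i⁻¹ * k := h1.centralizes k (h1.le hkV1) _ (V1.inv_mem hiV1)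
    have hkY : Y * k = k * Y := h1.centralizes Y hY k hkV1
    have hYr : Y * r = k * r * Y := by
      apply mul_left_cancel (a := i⁻¹)
      calc i⁻¹ * (Y * r) = (Y * i⁻¹) * r := by rw [hYi]; group
        _ = Y * (d * r * d⁻¹) := by rw [hdr]; group
        _ = d * (y * r) * d⁻¹ := by rw [hYdef]; group
        _ = (d * k * d⁻¹) * (d * r * d⁻¹) * Y := by rw [hk, hYdef]; group
        _ = (k * i⁻¹) * r * Y := by rw [hdk, hdr]; group
        _ = i⁻¹ * (k * r * Y) := by rw [hki]; group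
    calc Y * y⁻¹ * r = Y * (k⁻¹ * r * y⁻¹) := by
          have hkr : r * k = k * r := h1.centralizes r hr k hkV1
          have hyr : y * r = k * r * y := by rw [hk]; group
          have hky : y * k = k * y := h1.centralizes y hy k hkV1
          rw [mul_assoc]
          congr 1
          apply mul_left_cancel (a := y)
          calc y * (y⁻¹ * r) = r := by group
            _ = k⁻¹ * (k * r * y) * y⁻¹ := by group
            _ = k⁻¹ * (y * r) * y⁻¹ := by rw [hyr]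
            _ = (y * k * y⁻¹)⁻¹ * (y * r * y⁻¹) := by
              rw [show y * k * y⁻¹ = k by rw [hky]; group]; group
            _ = _ := by group
      _ = (Y * k⁻¹) * r * y⁻¹ := by group
      _ = k⁻¹ * (Y * r) * y⁻¹ := by
          rw [(show Commute Y k from hkY).inv_right.eq]; group
      _ = r * (Y * y⁻¹) := by rw [hYr]; group
  -- `D` is abelian
  have hDab : ∀ d₁ ∈ P, (∀ w ∈ V1, d₁ * w = w * d₁) → ∀ d₂ ∈ P, (∀ w ∈ V1, d₂ * w = w * d₂) →
      d₁ * d₂ = d₂ * d₁ := by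
    intro d₁ hd₁ hc₁ d₂ hd₂ hc₂
    set k := d₁ * d₂ * d₁⁻¹ * d₂⁻¹ with hk
    have hkV : k ∈ V := h.comm_mem d₁ hd₁ d₂ hd₂
    have hk1 : k = 1 := by
      refine hVP1 k hkV (h1.maximal k (hVV1 k hkV) fun Y hY => ?_)
      have hN₁ := (Subgroup.normalizer (V1 : Set G)).mul_mem (mem_normalizer_of_commute hc₂)
        (mem_normalizer_of_commute hc₁)
      obtain ⟨y, hy, rfl⟩ : ∃ y ∈ P1, Y = (d₂ * d₁) * y * (d₂ * d₁)⁻¹ :=
        ⟨(d₂ * d₁)⁻¹ * Y * (d₂ * d₁), by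
          simpa using h1.conj_mem _ ((Subgroup.normalizer (V1 : Set G)).inv_mem hN₁) Y hY, by group⟩
      obtain ⟨hσ₁, hσ₁V⟩ := hB6 d₁ hd₁ hc₁ y hy
      obtain ⟨hσ₂, hσ₂V⟩ := hB6 d₂ hd₂ hc₂ y hy
      set σ₁ := d₁ * y * d₁⁻¹ * y⁻¹ with hs₁
      set σ₂ := d₂ * y * d₂⁻¹ * y⁻¹ with hs₂
      have hm₁ := hB4 σ₂ hσ₂ hσ₂V d₁ hd₁ hc₁
      have hm₂ := hB4 σ₁ hσ₁ hσ₁V d₂ hd₂ hc₂
      set m₁ := σ₂ * d₁ * σ₂⁻¹ * d₁⁻¹ with hm₁d
      set m₂ := σ₁ * d₂ * σ₁⁻¹ * d₂⁻¹ with hm₂d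
      set n := σ₂ * σ₁ * σ₂⁻¹ * σ₁⁻¹ with hnd
      have hn : n ∈ V1 := h1.comm_mem σ₂ hσ₂ σ₁ hσ₁
      have hu : m₁⁻¹ * n * m₂ ∈ V1 := V1.mul_mem (V1.mul_mem (V1.inv_mem hm₁) hn) hm₂
      have e1 : (d₁ * d₂) * y * (d₁ * d₂)⁻¹ = m₁⁻¹ * n * (σ₁ * σ₂ * y) := by
        calc (d₁ * d₂) * y * (d₁ * d₂)⁻¹ = (d₁ * σ₂ * d₁⁻¹) * (σ₁ * y) := by rw [hs₁, hs₂]; group
          _ = m₁⁻¹ * (σ₂ * σ₁) * y := by rw [hm₁d]; group
          _ = _ := by rw [hnd]; group
      have e2 : (d₂ * d₁) * y * (d₂ * d₁)⁻¹ = m₂⁻¹ * (σ₁ * σ₂ * y) := by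
        calc (d₂ * d₁) * y * (d₂ * d₁)⁻¹ = (d₂ * σ₁ * d₂⁻¹) * (σ₂ * y) := by rw [hs₁, hs₂]; group
          _ = _ := by rw [hm₂d]; group
      have e3 : k * ((d₂ * d₁) * y * (d₂ * d₁)⁻¹) * k⁻¹ * ((d₂ * d₁) * y * (d₂ * d₁)⁻¹)⁻¹ =
          m₁⁻¹ * n * m₂ := by
        calc _ = ((d₁ * d₂) * y * (d₁ * d₂)⁻¹) * ((d₂ * d₁) * y * (d₂ * d₁)⁻¹)⁻¹ := by rw [hk]; group
          _ = _ := by rw [e1, e2]; group
      rw [e3]
      exact hu
    rwa [hk, mul_inv_eq_one, mul_inv_eq_iff_eq_mul] at hk1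
  -- every `[a, y]` lies in `V1`
  have hB8 : ∀ a ∈ V, ∀ y ∈ P1, a * y * a⁻¹ * y⁻¹ ∈ V1 := by
    intro a ha y hy
    set c := a * y * a⁻¹ * y⁻¹ with hc
    have hcP1' : c ∈ P1 := hcP1 a ha y hy
    have hcV := hcR a ha y hy
    have hc2 : c * c = 1 := (hB2 a ha y hy).1
    have hcV1 : ∀ w ∈ V1, c * w = w * c := fun w hw => h1.centralizes c hcP1' w hw
    have hcN := mem_normalizer_of_commute hcV
    have hci : c⁻¹ = c := inv_eq_of_mul_eq_one_right hc2
    have hcD : ∀ d ∈ P, (∀ w ∈ V1, d * w = w * d) → c * d = d * c := by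
      intro d hd hdc
      obtain ⟨u, hu, hu'⟩ := hP0 d hd hdc
      have hp : u⁻¹ * d ∈ P := P.mul_mem (P.inv_mem (hgP hu)) hd
      have hpc : ∀ w ∈ V1, u⁻¹ * d * w = w * (u⁻¹ * d) := fun w hw =>
        ((show Commute u w from hV1c u hu w hw).inv_left.mul_left (hdc w hw)).eq
      have hcen : ∀ x ∈ P, u⁻¹ * d * x = x * (u⁻¹ * d) :=
        hcentral _ hu' fun d' hd' hdc' => hDab _ hp hpc d' hd' hdc'
      set p := u⁻¹ * d with hpdef
      have hi := hB4 c hcP1' hcV p hp hpc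
      have hiP : c * p * c⁻¹ * p⁻¹ ∈ P := P.mul_mem (h.conj_mem c hcN p hp) (P.inv_mem hp)
      have hicen : ∀ x ∈ P, (c * p * c⁻¹ * p⁻¹) * x = x * (c * p * c⁻¹ * p⁻¹) := by
        intro x hx
        have h2 : Commute (c * p * c⁻¹) x := by
          have h3 := hcen _ (h.conj_mem c⁻¹ (inv_mem hcN) x hx)
          calc c * p * c⁻¹ * x = c * (p * (c⁻¹ * x * c⁻¹⁻¹)) * c⁻¹ := by group
            _ = x * (c * p * c⁻¹) := by rw [h3]; group
        exact (h2.mul_left (show Commute p x from hcen x hx).inv_left).eq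
      have h4 : c * p * c⁻¹ * p⁻¹ = 1 :=
        hdisj _ (h.central_mem _ hiP hicen (h1.sq_eq_one _ hi)) hi
      rw [mul_inv_eq_one, mul_inv_eq_iff_eq_mul] at h4
      have h5 : Commute c (u * p) := (show Commute c u from hcV1 u hu).mul_right h4
      simpa [hpdef] using h5.eq
    have hcT : ∀ t ∈ T, c * t * c⁻¹ * t⁻¹ ∈ V := by
      intro t ht
      by_cases ht1 : t = 1
      · subst ht1; simpa using V.one_mem
      set x := c * t * c⁻¹ with hx
      have hxP : x ∈ P := h.conj_mem c hcN t (hTP ht)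
      set u' := t⁻¹ * x with hu'
      have hu'P : u' ∈ P := P.mul_mem (P.inv_mem (hTP ht)) hxP
      have hu'c : ∀ w ∈ V1, u' * w = w * u' := by
        refine hD u' hu'P w₀ hw₀ hw₀1 ?_
        have hv := hcV _ (h.comm_mem t (hTP ht) w₀ (hgP hw₀))
        have hw := hcV1 w₀ hw₀
        have e1 : x * w₀ * x⁻¹ = t * w₀ * t⁻¹ := by
          calc x * w₀ * x⁻¹ = c * (t * (c⁻¹ * w₀ * c) * t⁻¹) * c⁻¹ := by rw [hx]; group
            _ = c * (t * w₀ * t⁻¹) * c⁻¹ := by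
              rw [show c⁻¹ * w₀ * c = w₀ by rw [mul_assoc, ← hw]; group]
            _ = (c * (t * w₀ * t⁻¹ * w₀⁻¹)) * c⁻¹ * (c * w₀ * c⁻¹) := by group
            _ = t * w₀ * t⁻¹ := by
              rw [hv, show c * w₀ * c⁻¹ = w₀ by rw [hw]; group, mul_inv_cancel_right, inv_mul_cancel_right]
        calc u' * w₀ = t⁻¹ * (x * w₀ * x⁻¹) * x := by rw [hu']; group
          _ = w₀ * u' := by rw [e1, hu']; group
      have hcu := hcD u' hu'P hu'c
      have h2 : u' * u' = 1 := by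
        apply mul_left_cancel (a := t)
        calc t * (u' * u') = (t * u') * u' := by group
          _ = c * t * c⁻¹ * u' := by rw [hu', ← hx]; group
          _ = c * (t * u') * c⁻¹ := by rw [mul_assoc (c * t), (show Commute c u' from hcu).inv_left.eq]; group
          _ = c * (c * t * c⁻¹) * c⁻¹ := by rw [hu', hx]; group
          _ = (c * c) * t * (c * c)⁻¹ := by group
          _ = t * 1 := by rw [hc2]; group
      have h3 : t * u' = u' * t := by
        have hx2 : (t * u') * (t * u') = 1 := by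
          rw [show t * u' = x by rw [hu']; group, hx]
          calc c * t * c⁻¹ * (c * t * c⁻¹) = c * (t * t) * c⁻¹ := by group
            _ = 1 := by rw [hT2 t ht]; group
        calc t * u' = (t * u')⁻¹ := (inv_eq_of_mul_eq_one_right hx2).symm
          _ = _ := by rw [mul_inv_rev, inv_eq_of_mul_eq_one_right h2,
              inv_eq_of_mul_eq_one_right (hT2 t ht)]
      obtain ⟨v, hv, w, hw, e⟩ := hWmem u' hu'P h2 (fun d hd hdc => hDab u' hu'P hu'c d hd hdc)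
      have hw1 : w = 1 := by
        by_contra hw1
        refine hTf t ht w hw ht1 hw1 ?_
        have h4 : Commute t (v⁻¹ * (v * w)) :=
          (show Commute t v from h.centralizes t (hTP ht) v hv).inv_right.mul_right
            (by rw [← e]; exact h3)
        simpa using h4.eq
      have hu'V : u' ∈ V := by rw [e, hw1, mul_one]; exact hv
      have : x * t⁻¹ = u' := by
        calc x * t⁻¹ = (t * u') * t⁻¹ := by rw [hu']; group
          _ = u' := by rw [h3]; group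
      rwa [this]
    have hcP : c ∈ P := by
      refine h.maximal c hcV fun x hx => ?_
      obtain ⟨t, ht, htd⟩ := hTD x hx
      have hd := hcD (t⁻¹ * x) (P.mul_mem (P.inv_mem (hTP ht)) hx) htd
      convert hcT t ht using 1
      calc c * x * c⁻¹ * x⁻¹ = c * t * c⁻¹ * (c * (t⁻¹ * x)) * c⁻¹ * x⁻¹ := by group
        _ = c * t * c⁻¹ * t⁻¹ := by rw [hd]; group
    obtain ⟨v, hv, w, hw, e⟩ := hWmem c hcP hc2 hcD
    have hv1 : v = 1 := hVP1 v hv (by
      have := P1.mul_mem hcP1' (P1.inv_mem (h1.le hw))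
      simpa [e] using this)
    rw [e, hv1, one_mul]
    exact hw
  exact ha₀1 (hVP1 a₀ ha₀ (h1.maximal a₀ (hVV1 a₀ ha₀) (hB8 a₀ ha₀)))

end CfsgLib.ClassK
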